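import Mathlib
import Cfsg.Agent.H42.FvDefs

/-! Triangularity of the action of a unipotent subgroup on the root coordinates. -/

set_option autoImplicit false

namespace Cfsg.Agent.H47.FvTri

open Equiv Cfsg.Lie H37 H40 H34 H29 Module H50.E83 H42.Fv
open scoped Matrix

theorem step (ent : EntStmt) {Gd : Set Rt} (hG : Clo Gd) {r₀ : Rt} (h0 : r₀ ∉ Gd) {r : Rt} (hr : r ∈ Pos) {t : K}
    (ht : t ≠ 0 → r ∈ Gd ∨ C8.R.ht r₀ ≤ C8.R.ht r) {z : V}
    (hz : Supp {s | s ∈ Pos ∧ (s ∈ Gd ∨ C8.R.ht r₀ ≤ C8.R.ht s)} z) :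
    cp (act (C8.xg K r t) z) = cp z ∧
      Supp {s | s ∈ Pos ∧ (s ∈ Gd ∨ C8.R.ht r₀ ≤ C8.R.ht s)} (act (C8.xg K r t) z) ∧
      act (C8.xg K r t) z (Sum.inr r₀) = z (Sum.inr r₀) + if r₀ = r then -(al r₀ z * t) else 0 := by
  obtain ⟨cf, hcf, he⟩ := ent
  obtain ⟨e1, e2⟩ := he K r t z
  have hn : z (Sum.inr (C8.R.neg r)) = 0 := by
    by_contra h
    exact (C8.R.not_pos_neg_iff r).2 hr (hz _ h).1
  have ea : act (C8.xg K r t) z = xR K r t *ᵥ z := by rw [act_apply, xg_eq]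
  have hp : ∀ s ∈ Pos, 0 < C8.R.ht s := fun s hs => (C8.R.ht_pos_iff s).2 hs
  have term : ∀ s s' : Rt, (cf r s' s : K) * t * z (Sum.inr s') ≠ 0 →
      s ∈ Pos ∧ (s ∈ Gd ∨ C8.R.ht r₀ < C8.R.ht s) := by
    intro s s' h
    have h1 : cf r s' s ≠ 0 := fun e => h (by rw [e, Int.cast_zero, zero_mul, zero_mul])
    have h2 : t ≠ 0 := fun e => h (by rw [e, mul_zero, zero_mul])
    have h3 : z (Sum.inr s') ≠ 0 := fun e => h (by rw [e, mul_zero])
    have hs := hcf r s' s h1
    obtain ⟨p', q'⟩ := hz s' h3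
    have e := hs.ht
    have a1 := hp r hr
    have a2 := hp s' p'
    refine ⟨clo_pos r hr s' p' s hs, ?_⟩
    rcases ht h2 with q | q
    · rcases q' with q' | q'
      · exact Or.inl (hG r q s' q' s hs)
      · exact Or.inr (by omega)
    · exact Or.inr (by omega)
  rw [ea]
  refine ⟨?_, fun s hs => ?_, ?_⟩
  · funext i
    rcases i with i | i
    · change (xR K r t *ᵥ z) (Sum.inl i) = z (Sum.inl i)
      rw [e1, hn, mul_zero, zero_mul, add_zero]
    · rfl
  · by_contra hc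
    apply hs
    rw [e2, hn, mul_zero, sub_zero, Finset.sum_eq_zero fun s' _ => ?_, add_zero]
    · have a1 : z (Sum.inr s) = 0 := by
        by_contra h
        exact hc (hz s h)
      rw [a1, zero_add]
      split_ifs with h
      · by_cases h2 : t = 0
        · rw [h2, mul_zero, neg_zero]
        · subst h
          exact absurd ⟨hr, ht h2⟩ hc
      · rfl
    · by_contra h
      obtain ⟨a1, a2⟩ := term s s' h
      exact hc ⟨a1, a2.imp id le_of_lt⟩
  · rw [e2, hn, mul_zero, sub_zero, Finset.sum_eq_zero fun s' _ => ?_, add_zero]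
    · split_ifs with h
      · rw [h]
      · rfl
    · by_contra h
      rcases (term r₀ s' h).2 with a | a
      · exact h0 a
      · exact lt_irrefl _ a

theorem tri (ent : EntStmt) (filt : FiltStmt) : TriStmt := by
  classical
  intro A hA Gd hAc hG y hy hal u hu hu0
  obtain ⟨L, hL, hLA⟩ := Filt.exists_list (S := A) (Set.toFinite A)
  rw [H40.U_eq_gen] at hu ⊢
  obtain ⟨x, hx, -, rfl⟩ := (filt A hA hAc).exists_prod hL hLA hu
  choose c hc using fun r => Cert.mem_X.1 (hx r)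
  by_cases hb : ∀ r ∈ A, r ∉ Gd → c r = 0
  · refine Subgroup.list_prod_mem _ fun g hg => ?_
    obtain ⟨r, hr, rfl⟩ := List.mem_map.1 hg
    have hrA := (hLA r).1 hr
    by_cases hG' : r ∈ Gd
    · exact mem_gen (T := A ∩ Gd) ⟨hrA, hG'⟩ (hx r)
    · have : x r = 1 := by
        have h2 := hc r
        rw [hb r hrA hG'] at h2
        rw [← h2]
        exact C8.xg_zero _
      rw [this]
      exact one_mem _
  exfalso
  push Not at hb
  obtain ⟨r₀, ⟨hr₀, h0, hc0⟩, hmin⟩ := Set.exists_min_image {r | r ∈ A ∧ r ∉ Gd ∧ c r ≠ 0} C8.R.ht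
    (Set.toFinite _) hb
  have key : ∀ M : List Rt, M.Nodup → (∀ r ∈ M, r ∈ A) →
      cp (act (M.map x).prod y) = cp y ∧
      Supp {s | s ∈ Pos ∧ (s ∈ Gd ∨ C8.R.ht r₀ ≤ C8.R.ht s)} (act (M.map x).prod y) ∧
      act (M.map x).prod y (Sum.inr r₀) = if r₀ ∈ M then -(al r₀ y * c r₀) else 0 := by
    intro M
    induction M with
    | nil =>
      intro _ _
      rw [List.map_nil, List.prod_nil, map_one, Module.End.one_apply, if_neg List.not_mem_nil]
      refine ⟨rfl, fun s hs => ⟨(hy s hs).1, Or.inl (hy s hs).2⟩, ?_⟩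
      by_contra h
      exact h0 (hy _ h).2
    | cons r M ih =>
      intro hn hM
      obtain ⟨hrM, hn'⟩ := List.nodup_cons.1 hn
      obtain ⟨i1, i2, i3⟩ := ih hn' fun s hs => hM s (List.mem_cons_of_mem _ hs)
      have hrA := hM r List.mem_cons_self
      obtain ⟨j1, j2, j3⟩ := step ent hG h0 (hA hrA) (t := c r)
        (fun h => (em (r ∈ Gd)).imp id fun h' => hmin r ⟨hrA, h', h⟩) i2
      rw [List.map_cons, List.prod_cons, act_mul, ← hc r]
      refine ⟨j1.trans i1, j2, ?_⟩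
      rw [j3, i3, ← al_cp r₀ (act _ y), i1, al_cp]
      by_cases e : r₀ = r
      · subst e
        rw [if_neg hrM, if_pos rfl, if_pos List.mem_cons_self, zero_add]
      · rw [if_neg e, add_zero]
        simp only [List.mem_cons, e, false_or]
  have h1 := (key L hL fun r hr => (hLA r).1 hr).2.2
  rw [hu0 r₀ hr₀ h0, if_pos ((hLA r₀).2 hr₀)] at h1
  exact mul_ne_zero (hal r₀ hr₀ h0) hc0 (neg_eq_zero.1 h1.symm)

end Cfsg.Agent.H47.FvTri
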