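import Mathlib
import Cfsg.Agent.H98.GbH

/-! Newton sequences of power sums. -/

set_option autoImplicit false

namespace Cfsg.Agent.H47.GbNw

open Cfsg Finset Cfsg.Agent.H98.GB PowerSeries

universe u

section
variable {A : Type*} [CommRing A] [Algebra ℂ A]

theorem nw_zero (P : ℕ → A) : nw P 0 = 1 := by rw [nw]

theorem nw_succ (P : ℕ → A) (k : ℕ) :
    nw P (k + 1) = ((k + 1 : ℕ) : ℂ)⁻¹ • ∑ i ∈ range (k + 1), P (i + 1) * nw P (k - i) := by
  rw [nw, sum_range fun i => P (i + 1) * nw P (k - i)]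

theorem nz (k : ℕ) : ((k + 1 : ℕ) : ℂ) ≠ 0 := Nat.cast_ne_zero.2 k.succ_ne_zero

theorem nw_rec (P : ℕ → A) (k : ℕ) :
    ((k + 1 : ℕ) : ℂ) • nw P (k + 1) = ∑ i ∈ range (k + 1), P (i + 1) * nw P (k - i) := by
  rw [nw_succ, smul_smul, mul_inv_cancel₀ (nz k), one_smul]

theorem uniq {P H : ℕ → A} (h0 : H 0 = 1)
    (h : ∀ k, ((k + 1 : ℕ) : ℂ) • H (k + 1) = ∑ i ∈ range (k + 1), P (i + 1) * H (k - i)) (k : ℕ) :
    nw P k = H k := by
  induction k using Nat.strong_induction_on with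
  | _ k ih =>
    obtain _ | k := k
    · rw [nw_zero, h0]
    · rw [nw_succ, sum_congr rfl fun i _ => by rw [ih (k - i) (by omega)], ← h, smul_smul,
        inv_mul_cancel₀ (nz k), one_smul]

theorem nw_congr {P P' : ℕ → A} {K : ℕ} :
    (∀ k ≤ K, nw P k = nw P' k) ↔ ∀ k, 0 < k → k ≤ K → P k = P' k := by
  refine ⟨fun h k => ?_, fun h k => ?_⟩
  · induction k using Nat.strong_induction_on with
    | _ k ih =>
      intro h0 hk
      obtain _ | k := k
      · omega
      have e := nw_rec P k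
      rw [h _ hk, nw_rec, sum_range_succ, sum_range_succ, Nat.sub_self, nw_zero, nw_zero, mul_one, mul_one,
        sum_congr rfl (g := fun i => P (i + 1) * nw P (k - i)) fun i hi => by
          have := mem_range.1 hi
          rw [ih (i + 1) (by omega) (by omega) (by omega), h (k - i) (by omega)]] at e
      exact (add_left_cancel e).symm
  · induction k using Nat.strong_induction_on with
    | _ k ih =>
      intro hk
      obtain _ | k := k
      · rw [nw_zero, nw_zero]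
      rw [nw_succ, nw_succ, sum_congr rfl fun i hi => ?_]
      have := mem_range.1 hi
      rw [h (i + 1) (by omega) (by omega), ih (k - i) (by omega) (by omega)]

theorem nw_smul (P : ℕ → A) (c : ℂ) (k : ℕ) : nw (fun i => c ^ i • P i) k = c ^ k • nw P k := by
  refine uniq (H := fun k => c ^ k • nw P k) (by simp [nw_zero]) (fun k => ?_) k
  rw [smul_comm, nw_rec, smul_sum]
  refine sum_congr rfl fun i hi => ?_
  have := mem_range.1 hi
  rw [smul_mul_smul_comm, ← pow_add, show i + 1 + (k - i) = k + 1 by omega]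

theorem map_nw {B : Type*} [CommRing B] [Algebra ℂ B] (f : A →ₐ[ℂ] B) (P : ℕ → A) (k : ℕ) :
    f (nw P k) = nw (fun i => f (P i)) k := by
  refine (uniq (H := fun k => f (nw P k)) (by simp [nw_zero]) (fun k => ?_) k).symm
  rw [← map_smul, nw_rec, map_sum]
  simp only [map_mul]

theorem cast_smul (k : ℕ) (a : A) : ((k + 1 : ℕ) : ℂ) • a = a * (k + 1) := by
  rw [Nat.cast_smul_eq_nsmul, nsmul_eq_mul, mul_comm]; push_cast; rfl

theorem coeff_conv (P H : ℕ → A) (k : ℕ) :
    coeff k (mk (fun i => P (i + 1)) * mk H) = ∑ i ∈ range (k + 1), P (i + 1) * H (k - i) := by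
  rw [coeff_mul, Nat.sum_antidiagonal_eq_sum_range_succ_mk]
  simp only [coeff_mk]

theorem der_nw (P : ℕ → A) : d⁄dX A (mk (nw P)) = mk (fun i => P (i + 1)) * mk (nw P) := by
  ext k
  rw [coeff_derivative, coeff_mk, coeff_conv, ← nw_rec, cast_smul]

theorem conv_zero (P : ℕ → A) (k : ℕ) :
    ∑ p ∈ antidiagonal (k + 1), nw P p.1 * nw (fun i => -P i) p.2 = 0 := by
  have h : d⁄dX A (mk (nw P) * mk (nw fun i => -P i)) = 0 := by
    have e : (mk fun i => -P (i + 1) : A⟦X⟧) = -mk fun i => P (i + 1) := by ext; simp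
    rw [Derivation.leibniz, der_nw, der_nw, e, smul_eq_mul, smul_eq_mul]
    ring
  have h1 := congrArg (coeff k) h
  rw [coeff_derivative, map_zero, ← cast_smul, coeff_mul] at h1
  have h2 := congrArg (((k + 1 : ℕ) : ℂ)⁻¹ • ·) h1
  simpa only [smul_smul, inv_mul_cancel₀ (nz k), one_smul, smul_zero, coeff_mk] using h2

omit [Algebra ℂ A] in
theorem mem_of_conv {a b : ℕ → A} (a0 : a 0 = 1) (b0 : b 0 = 1)
    (h : ∀ k, ∑ p ∈ antidiagonal (k + 1), a p.1 * b p.2 = 0) (R : Subring A) {K : ℕ} (ha : ∀ k ≤ K, a k ∈ R)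
    (k : ℕ) : k ≤ K → b k ∈ R := by
  induction k using Nat.strong_induction_on with
  | _ k ih =>
    intro hk
    obtain _ | k := k
    · exact b0 ▸ one_mem R
    have e := h k
    rw [Nat.sum_antidiagonal_succ, a0, one_mul, add_eq_zero_iff_eq_neg] at e
    rw [e]
    refine neg_mem (sum_mem fun p hp => ?_)
    have := mem_antidiagonal.1 hp
    exact mul_mem (ha _ (by omega)) (ih _ (by omega) (by omega))

theorem sq_neg (i : ℕ) : (-1 : ℂ) ^ i * (-1) ^ i = 1 := by rw [← mul_pow]; simp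

theorem nw_neg (P : ℕ → A) (k : ℕ) : nw (fun i => -P i) k = (-1 : ℂ) ^ k • ee P k := by
  rw [ee, ← nw_smul]
  congr 1
  funext i
  rw [smul_smul, pow_succ, ← mul_assoc, sq_neg, one_mul, neg_one_smul]

theorem mem_neg (R : Subring A) (k : ℕ) (x : A) : (-1 : ℂ) ^ k • x ∈ R ↔ x ∈ R := by
  rcases neg_one_pow_eq_or ℂ k with h | h <;> simp [h]

theorem ee_mem (P : ℕ → A) (R : Subring A) (K : ℕ) : (∀ k ≤ K, ee P k ∈ R) ↔ ∀ k ≤ K, nw P k ∈ R := by
  refine ⟨fun h => mem_of_conv (a := nw fun i => -P i) (nw_zero _) (nw_zero _) (fun k => ?_) R fun k hk => ?_,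
    fun h k hk => ?_⟩
  · rw [← conv_zero P k, ← Nat.sum_antidiagonal_swap]
    exact sum_congr rfl fun p _ => mul_comm _ _
  · rw [nw_neg, mem_neg]; exact h k hk
  · rw [← mem_neg R k, ← nw_neg]
    exact mem_of_conv (nw_zero _) (nw_zero _) (conv_zero P) R h k hk

theorem exists_nw (h : ℕ → A) (h0 : h 0 = 1) : ∃ Q : ℕ → A, ∀ k, nw Q k = h k := by
  have e := mul_invOfUnit (mk h) 1 (by simpa using h0)
  refine ⟨fun i => coeff (i - 1) (d⁄dX A (mk h) * invOfUnit (mk h) 1), uniq h0 fun k => ?_⟩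
  rw [← coeff_conv (fun i => coeff (i - 1) (d⁄dX A (mk h) * invOfUnit (mk h) 1)) h k]
  have : (mk fun i => coeff (i + 1 - 1) (d⁄dX A (mk h) * invOfUnit (mk h) 1)) =
      d⁄dX A (mk h) * invOfUnit (mk h) 1 := by ext; simp
  rw [this, mul_assoc, mul_comm (invOfUnit _ _), e, mul_one, coeff_derivative, coeff_mk, cast_smul]

theorem par_zero : H19.Par 0 = {0} := by
  ext μ
  rw [H19.mem_Par, mem_singleton]
  refine ⟨fun h => Multiset.eq_zero_of_forall_notMem fun r hr => ?_, by rintro rfl; simp⟩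
  have := Multiset.single_le_sum (fun _ _ => Nat.zero_le _) r hr
  have := h.2 r hr
  omega

theorem nw_eq_sum (P : ℕ → A) (k : ℕ) :
    nw P k = ∑ μ ∈ H19.Par k, ((H19.zM μ : ℂ))⁻¹ • (μ.map P).prod := by
  refine uniq (H := fun k => ∑ μ ∈ H19.Par k, ((H19.zM μ : ℂ))⁻¹ • (μ.map P).prod)
    (by simp [par_zero, H19.zM_zero]) (fun k => ?_) k
  have e : ∀ μ ∈ H19.Par (k + 1), ((k + 1 : ℕ) : ℂ) • ((H19.zM μ : ℂ))⁻¹ • (μ.map P).prod =
      ∑ i ∈ range (k + 1), (((μ.count (i + 1) * (i + 1) : ℕ) : ℂ) * (H19.zM μ : ℂ)⁻¹) • (μ.map P).prod := by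
    intro μ hμ
    have h1 := (H19.mem_Par.1 hμ).1
    have h2 := sum_multiset_count_of_subset μ (range (k + 2)) fun r hr => by
      have := Multiset.single_le_sum (fun _ _ => Nat.zero_le _) r (Multiset.mem_toFinset.1 hr)
      exact mem_range.2 (by omega)
    rw [sum_range_succ', h1] at h2
    simp only [smul_eq_mul, mul_zero, add_zero] at h2
    rw [← sum_smul, ← sum_mul, ← Nat.cast_sum, ← h2, smul_smul]
  rw [smul_sum, sum_congr rfl e, sum_comm]
  refine sum_congr rfl fun i hi => ?_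
  have hi' := mem_range.1 hi
  rw [mul_sum]
  refine (sum_of_injOn (fun ν => (i + 1) ::ₘ ν) (fun _ _ _ _ h => (Multiset.cons_inj_right _).1 h)
    (fun ν hν => ?_) (fun μ hμ hn => ?_) fun ν hν => ?_).symm
  · obtain ⟨h1, h2⟩ := H19.mem_Par.1 hν
    refine H19.mem_Par.2 ⟨by rw [Multiset.sum_cons, h1]; omega, fun r hr => ?_⟩
    rcases Multiset.mem_cons.1 hr with rfl | hr
    · omega
    · exact h2 r hr
  · have : i + 1 ∉ μ := fun h => by
      obtain ⟨ν, rfl⟩ := Multiset.exists_cons_of_mem h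
      obtain ⟨h1, h2⟩ := H19.mem_Par.1 hμ
      rw [Multiset.sum_cons] at h1
      exact hn ⟨ν, H19.mem_Par.2 ⟨by omega, fun r hr => h2 r (Multiset.mem_cons_of_mem hr)⟩, rfl⟩
    rw [Multiset.count_eq_zero_of_notMem this]
    simp
  · rw [Multiset.map_cons, Multiset.prod_cons, mul_smul_comm, H19.zM_cons, Multiset.count_cons_self]
    congr 1
    have h1 := nz i
    have h2 := nz (ν.count (i + 1))
    push_cast at h1 h2 ⊢
    field_simp

theorem prod_sign (P : ℕ → A) (μ : Multiset ℕ) :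
    (μ.map fun i => (-1 : ℂ) ^ (i + 1) • P i).prod = (-1 : ℂ) ^ (μ.sum + μ.card) • (μ.map P).prod := by
  induction μ using Multiset.induction_on with
  | empty => simp
  | cons r μ ih =>
    simp only [Multiset.map_cons, Multiset.prod_cons, ih, Multiset.sum_cons, Multiset.card_cons,
      smul_mul_smul_comm, ← pow_add]
    congr 2
    omega

end

theorem nweh : NWEHStmt.{u} := by
  intro A _ _
  refine ⟨fun _ _ _ => nw_congr, ee_mem, nw_smul, fun B _ _ f P => ⟨map_nw f P, fun k => ?_, fun N S => ?_⟩,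
    fun P N => ?_, fun P P' N S h => ?_, fun h h0 => ?_, fun P k => ?_⟩
  · rw [ee, map_nw]; simp only [map_smul, ee]
  · simp only [sch, map_sum, map_smul, map_multiset_prod, Multiset.map_map, Function.comp_def]
  · simp [sch, H19.wtS_range, par_zero, H19.chiS_range_zero, H19.zM_zero]
  · refine sum_congr rfl fun μ hμ => ?_
    obtain ⟨h1, h2⟩ := H19.mem_Par.1 hμ
    rw [Multiset.map_congr rfl fun r hr => h r (h2 r hr)
      (h1 ▸ Multiset.single_le_sum (fun _ _ => Nat.zero_le _) r hr)]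
  · obtain ⟨Q, hQ⟩ := exists_nw h h0
    refine ⟨fun i => (-1 : ℂ) ^ (i + 1) • Q i, fun k => ?_⟩
    simp only [ee, smul_smul, sq_neg, one_smul, hQ]
  · rw [ee, nw_eq_sum]
    exact sum_congr rfl fun μ _ => by rw [prod_sign, smul_smul, div_eq_mul_inv, mul_comm]

end Cfsg.Agent.H47.GbNw
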