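import Mathlib
import Cfsg.Agent.H19.KdInv

/-!
An involutory outer automorphism of the symmetric group of degree six, and the automorphisms of
the alternating group of degree six.
-/

set_option autoImplicit false

namespace Cfsg.Agent.H47.A6O

open Equiv Equiv.Perm

/-- The symmetric group. -/
abbrev S6 : Type := Perm (Fin 6)

/-- The table of the six totals. -/
def tab : ℕ := 176160181656307232401923365116716960501227245307825004947416338028197797915704110621990961037127570943109513980740978830721049497901969007728409960096109822403254983161317647523590619288450286060414301719611849134246407455922742430584232718946019057529420851171092948353803565181059715641914996275893178627300008577014427345463897872877985751981437700382681775386630196088064458842400149719447328591278925773092078452839697077589694576526696092736554649621706543053905487678037917520860221422294883126731159283941828126134606779665543442904061814364110231562993033477666405449231021753704017092653864118971197567361415758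9241368201469981418091556958223338307744414821507185905808814774816920145895995931692389685288990824646589005242917563510008846720515964087124951662239857346239112451865586632418711966699481669305917041139944226211661488499164529986833024842315933569739828801091305152842395793746754951568398495063903993494922799165845492236019347555385510592241276463722821329837502630378299545225978512887830864964741171063809656200973994035356826125378209795976091047187162307864733048735564795632779302769526130661815107327309998226863371832201302876680408712840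

/-- The syntheme of the total `k` which contains the duad `i j`. -/
def m (k i j x : Fin 6) : Fin 6 :=
  Fin.ofNat 6 ((tab >>> (3 * (((k.val * 6 + i.val) * 6 + j.val) * 6 + x.val))) % 8)

/-- `g` permutes the totals as `h`. -/
def R (g h : S6) : Prop := ∀ k i j x, m (h k) (g i) (g j) (g x) = g (m k i j x)

instance (g h : S6) : Decidable (R g h) := by unfold R; infer_instance

theorem R.one : R 1 1 := fun _ _ _ _ => rfl

theorem R.mul {g h g' h' : S6} (a : R g h) (b : R g' h') : R (g * g') (h * h') := fun k i j x => by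
  simp only [Perm.mul_apply]
  rw [a, b]

/-- The images of the adjacent transpositions. -/
def tt : Fin 5 → S6 := ![swap 0 1 * swap 2 3 * swap 4 5, swap 0 4 * swap 1 2 * swap 3 5,
  swap 0 1 * swap 2 5 * swap 3 4, swap 0 4 * swap 1 5 * swap 2 3, swap 0 1 * swap 2 4 * swap 3 5]

theorem r_tt : ∀ i : Fin 5, R (swap i.castSucc i.succ) (tt i) := by decide +kernel

/-- A short test. -/
def Q (g h : S6) : Prop := ∀ k x, m (h k) (g 0) (g 1) (g x) = g (m k 0 1 x) ∧
  m (h k) (g 0) (g 2) (g x) = g (m k 0 2 x)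

instance (g h : S6) : Decidable (Q g h) := by unfold Q; infer_instance

theorem q_tt : ∀ i : Fin 5, Q (tt i) (swap i.castSucc i.succ) ∧ sign (tt i) = -1 := by
  decide +kernel

theorem m_inj2 : ∀ a b c : Fin 6, a ≠ b → a ≠ c → b ≠ c → ∀ k k',
    (∀ x, m k a b x = m k' a b x ∧ m k a c x = m k' a c x) → k = k' := by decide +kernel

theorem Q.uniq {g h h' : S6} (a : Q g h) (b : Q g h') : h = h' := Equiv.ext fun k =>
  m_inj2 (g 0) (g 1) (g 2) (g.injective.ne (by decide)) (g.injective.ne (by decide))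
    (g.injective.ne (by decide)) _ _ fun x => by
    obtain ⟨x, rfl⟩ := g.surjective x
    exact ⟨(a k x).1.trans (b k x).1.symm, (a k x).2.trans (b k x).2.symm⟩

theorem R.q {g h : S6} (a : R g h) : Q g h := fun k x => ⟨a k 0 1 x, a k 0 2 x⟩

theorem ind {P : S6 → Prop} (h1 : P 1) (h2 : ∀ i : Fin 5, P (swap i.castSucc i.succ))
    (h3 : ∀ g h, P g → P h → P (g * h)) (g : S6) : P g := by
  have h : g ∈ Submonoid.closure (Set.range fun i : Fin 5 => swap i.castSucc i.succ) := by
    rw [mclosure_swap_castSucc_succ]; trivial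
  induction h using Submonoid.closure_induction with
  | mem x hx => obtain ⟨i, rfl⟩ := hx; exact h2 i
  | one => exact h1
  | mul x y _ _ a b => exact h3 x y a b

theorem ex (g : S6) : ∃ h, R g h :=
  ind (P := fun g => ∃ h, R g h) ⟨1, R.one⟩ (fun i => ⟨_, r_tt i⟩)
    (fun _ _ ⟨_, a⟩ ⟨_, b⟩ => ⟨_, a.mul b⟩) g

/-- The action on the totals. -/
noncomputable def Ps : S6 →* S6 := MonoidHom.mk' (fun g => (ex g).choose) fun a b =>
  (ex (a * b)).choose_spec.q.uniq ((ex a).choose_spec.mul (ex b).choose_spec).q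

theorem r_Ps (g : S6) : R g (Ps g) := (ex g).choose_spec

theorem Ps_eq {g h : S6} : Ps g = h ↔ Q g h := ⟨fun e => e ▸ (r_Ps g).q, (r_Ps g).q.uniq⟩

theorem Ps_Ps (g : S6) : Ps (Ps g) = g :=
  ind (P := fun g => Ps (Ps g) = g) (by simp)
    (fun i => by rw [Ps_eq.2 (r_tt i).q, Ps_eq.2 (q_tt i).1])
    (fun _ _ a b => by rw [map_mul, map_mul, a, b]) g

theorem sign_Ps (g : S6) : sign (Ps g) = sign g :=
  ind (P := fun g => sign (Ps g) = sign g) (by simp)
    (fun i => by rw [Ps_eq.2 (r_tt i).q, (q_tt i).2, sign_swap (Fin.castSucc_lt_succ).ne])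
    (fun _ _ a b => by rw [map_mul, map_mul, map_mul, a, b]) g

/-- A product of transpositions. -/
def wd (l : List (Fin 6 × Fin 6)) : S6 := l.foldr (fun p g => swap p.1 p.2 * g) 1

/-- Witnesses. -/
def wl : List (List (Fin 6 × Fin 6)) := [[], [(0, 1), (2, 4), (3, 5), (4, 5)], [(1, 4), (3, 5)], [(1, 5), (2, 4)], [(1, 3), (2, 5)], [(1, 2), (3, 4)], [(2, 4), (3, 5)], [(0, 1), (4, 5)], [(1, 5), (3, 5)], [(1, 4), (2, 4)], [(1, 2), (2, 5)], [(1, 3), (3, 4)], [(1, 2), (4, 5)], [(1, 2), (2, 4), (3, 5), (4, 5)], [(0, 1), (2, 4)], [(3, 4), (4, 5)], [(1, 4), (2, 5)], [(1, 4), (3, 4)], [(1, 2), (2, 3)], [(1, 2), (2, 5), (3, 4), (4, 5)], [(0, 1), (3, 5)], [(2, 4), (3, 4)], [(1, 5), (2, 5)], [(1, 5), (3, 4)], [(1, 4), (2, 3)], [(1, 4), (2, 4), (3, 5), (4, 5)], [(1, 3), (3, 5)], [(1, 3), (2, 4)], [(0, 1), (3, 4)], [(2, 4), (4, 5)], [(1, 4), (4, 5)], [(1, 4), (2, 5), (3, 4), (4, 5)], [(1, 2), (3, 5)], [(1, 2), (2, 4)], [(3, 5), (4, 5)], [(0, 1), (2, 5)]]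

theorem key0 : ∀ l : S6, Q l l⁻¹ → ∃ j ∈ wl, Q (wd j) (wd j * l⁻¹) ∧ sign (wd j) = 1 := by
  decide +kernel

theorem key {l : S6} (h : Ps l * l = 1) : ∃ j, sign j = 1 ∧ (Ps j)⁻¹ * j = l := by
  obtain ⟨j, -, h2, h1⟩ := key0 l (Ps_eq.1 (eq_inv_of_mul_eq_one_left h))
  exact ⟨_, h1, by rw [Ps_eq.2 h2]; group⟩

theorem card_fix0 : (Finset.univ.filter fun g : S6 => Q g g ∧ sign g = 1).card = 10 := by
  decide +kernel

/-- The alternating group. -/
abbrev A6 : Subgroup S6 := alternatingGroup (Fin 6)

/-- The automorphisms induced by the symmetric group. -/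
def cj : S6 →* MulAut A6 := MulAut.conjNormal

theorem cj_val (σ : S6) (g : A6) : (cj σ g : S6) = σ * g * σ⁻¹ := rfl

theorem cj_coe (g : A6) : cj g = MulAut.conj g := by ext x; rfl

/-- The restriction to the alternating group. -/
noncomputable def ps0 (g : A6) : A6 := ⟨Ps g, (sign_Ps g).trans g.2⟩

/-- The exceptional automorphism. -/
noncomputable def psi : MulAut A6 where
  toFun := ps0
  invFun := ps0
  left_inv g := Subtype.ext (Ps_Ps g)
  right_inv g := Subtype.ext (Ps_Ps g)
  map_mul' a b := Subtype.ext (map_mul Ps a.1 b.1)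

theorem psi_val (g : A6) : (psi g : S6) = Ps g := rfl

theorem psi_sq : psi * psi = 1 := MulEquiv.ext fun g => Subtype.ext (Ps_Ps g)

theorem psi_cj (σ : S6) : psi * cj σ = cj (Ps σ) * psi := MulEquiv.ext fun g => Subtype.ext <| by
  change Ps (σ * g * σ⁻¹) = Ps σ * Ps g * (Ps σ)⁻¹
  rw [map_mul, map_mul, map_inv]

/-- A three-cycle. -/
def a3 : A6 := ⟨swap 0 1 * swap 1 2, mem_alternatingGroup.2 (by decide)⟩

/-- A five-cycle. -/
def a5 : A6 := ⟨swap 1 2 * swap 2 3 * swap 3 4 * swap 4 5, mem_alternatingGroup.2 (by decide)⟩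

theorem cen0 : ∀ σ : S6, σ * a3 = a3 * σ → σ * a5 = a5 * σ → σ = 1 := by decide +kernel

theorem cj_inj : Function.Injective cj := (injective_iff_map_eq_one cj).2 fun σ h =>
  cen0 σ (mul_inv_eq_iff_eq_mul.1 ((cj_val σ a3).symm.trans (by rw [h]; rfl)))
    (mul_inv_eq_iff_eq_mul.1 ((cj_val σ a5).symm.trans (by rw [h]; rfl)))

theorem cj_mem {σ : S6} : cj σ ∈ (MulAut.conj : A6 →* MulAut A6).range ↔ sign σ = 1 :=
  ⟨fun ⟨g, e⟩ => cj_inj ((cj_coe g).trans e) ▸ g.2, fun h => ⟨⟨σ, h⟩, (cj_coe _).symm⟩⟩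

theorem Ps_a3 : Ps a3 = swap 0 5 * swap 1 3 * swap 2 5 * swap 3 4 := Ps_eq.2 (by decide +kernel)

theorem cj_psi_ne (σ τ : S6) : cj σ * psi ≠ cj τ := fun e => by
  have h : σ * Ps a3 * σ⁻¹ = τ * a3 * τ⁻¹ := congrArg (fun β : MulAut A6 => (β a3 : S6)) e
  have h1 := congrArg (fun x : S6 => x.support.card) h
  simp only [card_support_conj, Ps_a3] at h1
  exact absurd h1 (by decide)

theorem three_a3 : IsThreeCycle (a3 : S6) := card_support_eq_three_iff.1 (by decide)

theorem pres {β : MulAut A6} (h : IsThreeCycle (β a3 : S6)) : ∃ σ, β = cj σ := by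
  obtain ⟨ρ, hρ⟩ := H19.Kd.exists_conj3 (by simp) β fun g hg => by
    have h4 := alternatingGroup.isThreeCycle_isConj (by simp) three_a3 hg
    have h5 := A6.subtype.map_isConj (β.toMonoidHom.map_isConj h4)
    exact (isConj_iff_cycleType_eq.1 h5).symm.trans h
  exact ⟨ρ, MulEquiv.ext fun g => Subtype.ext (hρ g)⟩

theorem type_three {σ : S6} (h : σ ^ 3 = 1) (h1 : σ ≠ 1) (h3 : ¬ IsThreeCycle σ) :
    σ.cycleType = {3, 3} := by
  haveI : Fact (Nat.Prime 3) := ⟨by norm_num⟩
  have e := cycleType_of_pow_prime_eq_one h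
  have h4 := σ.sum_cycleType_le
  have h5 : σ.cycleType.card ≠ 0 := fun e => h1 (card_cycleType_eq_zero.1 e)
  rw [IsThreeCycle, e] at h3
  rw [e] at h4 ⊢
  generalize σ.cycleType.card = n at *
  simp at h4
  obtain rfl | rfl : n = 1 ∨ n = 2 := by omega
  exacts [absurd rfl h3, rfl]

theorem all (β : MulAut A6) : ∃ σ, β = cj σ ∨ β = cj σ * psi := by
  by_cases h : IsThreeCycle (β a3 : S6)
  · exact (pres h).imp fun _ => Or.inl
  have h1 : (β a3 : S6).cycleType = {3, 3} := type_three
    (by rw [← Subgroup.coe_pow, ← map_pow, show a3 ^ 3 = 1 from Subtype.ext (by decide), map_one]; rfl)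
    (fun e => absurd (congrArg Subtype.val (β.map_eq_one_iff.1 (Subtype.ext e))) (by decide)) h
  have h2 : (Ps a3).cycleType = {3, 3} := by
    rw [Ps_a3]
    exact type_three (by decide) (by decide) fun e => absurd e.card_support (by decide)
  obtain ⟨ρ, hρ⟩ := isConj_iff.1 (isConj_iff_cycleType_eq.2 (h2.trans h1.symm))
  obtain ⟨σ, hσ⟩ := pres (β := psi * β) (by
    change IsThreeCycle (Ps (β a3))
    rw [← hρ, map_mul, map_mul, map_inv, Ps_Ps]
    exact (cycleType_conj).trans three_a3)
  exact ⟨Ps σ, Or.inr (by rw [← psi_cj, ← hσ, ← mul_assoc, psi_sq, one_mul])⟩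

end Cfsg.Agent.H47.A6O
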