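import Cfsg.Agent.H49.BN2Defs

/-! Basic geometry of generalized polygons (piece G1 of BN2). -/

set_option autoImplicit false

namespace Cfsg.Agent.H47.BnG1

open Cfsg.Agent.H49.BN2

universe u

variable {n : ℕ} {X : Type u} (Γ : Pol n X)

theorem self (x : X) : Γ.d x x = 0 := (Γ.d_zero x x).2 rfl

theorem ex' {x z : X} {k : ℕ} (h : Γ.d x z = k + 1) : ∃ y, Γ.d x y = 1 ∧ Γ.d y z = k := by
  obtain ⟨y, h1, h2⟩ := Γ.ex x z fun e => by rw [e, self] at h; omega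
  exact ⟨y, h1, by omega⟩

theorem ind {P : X → Prop} (z : X) (h0 : P z)
    (h1 : ∀ x y, Γ.d x y = 1 → Γ.d y z + 1 = Γ.d x z → P y → P x) (x : X) : P x := by
  induction h : Γ.d x z generalizing x with
  | zero => exact (Γ.d_zero x z).1 h ▸ h0
  | succ k ih =>
    obtain ⟨y, a, b⟩ := ex' Γ h
    exact h1 x y a (by omega) (ih y b)

theorem tri (x y z : X) : Γ.d x z ≤ Γ.d x y + Γ.d y z := by
  refine ind Γ (P := fun x => Γ.d x z ≤ Γ.d x y + Γ.d y z) y (by omega) (fun a b h1 h2 h3 => ?_) x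
  have := Γ.step a b z h1
  omega

theorem par (x y z : X) : Even (Γ.d x y + Γ.d y z + Γ.d x z) := by
  refine ind Γ (P := fun x => Even (Γ.d x y + Γ.d y z + Γ.d x z)) y
    (by rw [self, zero_add]; exact ⟨_, rfl⟩) (fun a b h1 h2 h3 => ?_) x
  have := Γ.step a b z h1
  rw [Nat.even_iff] at h3 ⊢
  omega

theorem away (x y y' z : X) (h1 : Γ.d x y = 1) (h2 : Γ.d x y' = 1) (h3 : y ≠ y')
    (h4 : Γ.d z y < Γ.d z x) (h5 : Γ.d z x < n) : Γ.d z y' = Γ.d z x + 1 := by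
  rw [Γ.d_symm z] at h4 h5 ⊢
  rw [Γ.d_symm z x] at h4 ⊢
  exact (Γ.step x y' z h2).resolve_right fun h => h3 (Γ.uniq x y y' z h5 h1 h2 h4 (by omega))

theorem glue (x x' y z' z : X) (h1 : Γ.d y x' = 1) (h2 : Γ.d y z' = 1) (h3 : x' ≠ z')
    (h4 : Γ.d x x' + 1 = Γ.d x y) (h5 : Γ.d z' z + 1 = Γ.d y z) (h6 : Γ.d x y + Γ.d y z ≤ n) :
    Γ.d x z = Γ.d x y + Γ.d y z := by
  induction h : Γ.d z' z generalizing x' y z' with
  | zero =>
    obtain rfl := (Γ.d_zero _ _).1 h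
    rw [away Γ y x' z' x h1 h2 h3 (by omega) (by omega), h2]
  | succ k ih =>
    have a := away Γ y x' z' x h1 h2 h3 (by omega) (by omega)
    obtain ⟨w, b, c⟩ := ex' Γ h
    have := ih y z' w (by rw [Γ.d_symm, h2]) b (by rintro rfl; omega) a.symm (by omega) (by omega) c
    omega

theorem geo_ex (x z : X) (k : ℕ) (h : k ≤ Γ.d x z) :
    ∃ w, Γ.d x w = k ∧ Γ.d x w + Γ.d w z = Γ.d x z := by
  induction k generalizing x with
  | zero => exact ⟨x, self Γ x, by rw [self, zero_add]⟩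
  | succ k ih =>
    obtain ⟨y, a, b⟩ := ex' Γ (x := x) (z := z) (k := Γ.d x z - 1) (by omega)
    obtain ⟨w, c, e⟩ := ih y (by omega)
    have := tri Γ x y w
    have := tri Γ x w z
    exact ⟨w, by omega, by omega⟩

theorem geo_uniq (x z w w' : X) (h1 : Γ.d x z < n) (h2 : Γ.d x w + Γ.d w z = Γ.d x z)
    (h3 : Γ.d x w' + Γ.d w' z = Γ.d x z) (h4 : Γ.d x w = Γ.d x w') : w = w' := by
  induction h : Γ.d x w generalizing x with
  | zero => exact ((Γ.d_zero _ _).1 h).symm.trans ((Γ.d_zero _ _).1 (h4 ▸ h))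
  | succ k ih =>
    obtain ⟨y, a, b⟩ := ex' Γ h
    obtain ⟨y', a', b'⟩ := ex' Γ (h4 ▸ h)
    have t := tri Γ y w z
    have t' := tri Γ y' w' z
    obtain rfl := Γ.uniq x y y' z h1 a a' (by omega) (by omega)
    have := Γ.step x y z a
    exact ih y (by omega) (by omega) (by omega) (by omega) b

theorem extG {F : Set X} (hF : ∀ x ∈ F, ∀ y, ∃ w ∈ F, Γ.d x w = 1 ∧ w ≠ y) (x : X) (hx : x ∈ F)
    (z : X) (k : ℕ) (h : Γ.d z x + k ≤ n) : ∃ w ∈ F, Γ.d x w = k ∧ Γ.d z w = Γ.d z x + k := by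
  induction k with
  | zero => exact ⟨x, hx, self Γ x, rfl⟩
  | succ k ih =>
    obtain ⟨w, hw, a, b⟩ := ih (by omega)
    obtain ⟨v, hv, c, e⟩ : ∃ v ∈ F, Γ.d w v = 1 ∧ Γ.d z v = Γ.d z w + 1 := by
      by_cases e : w = z
      · obtain ⟨v, hv, c, -⟩ := hF w hw w
        exact ⟨v, hv, c, by rw [← e, c, self]⟩
      · obtain ⟨y, c, f⟩ := Γ.ex w z e
        obtain ⟨v, hv, g, i⟩ := hF w hw y
        rw [Γ.d_symm y, Γ.d_symm w] at f
        exact ⟨v, hv, g, away Γ w y v z c g i.symm (by omega) (by omega)⟩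
    have := tri Γ x w v
    have := tri Γ z x v
    exact ⟨v, hv, by omega, by omega⟩

theorem ext (z x : X) (k : ℕ) (h : Γ.d z x + k ≤ n) :
    ∃ w, Γ.d x w = k ∧ Γ.d z w = Γ.d z x + k :=
  let ⟨w, _, h⟩ := extG Γ (F := Set.univ)
    (fun a _ y => let ⟨w, h1, h2, _⟩ := Γ.thick a y y; ⟨w, trivial, h1, h2⟩) x trivial z k h
  ⟨w, h⟩

theorem path_d (k : ℕ) (f : ℕ → X) (hf : Γ.Path k f) (i j : ℕ) (h : i + j ≤ k) (hj : j ≤ n) :
    Γ.d (f i) (f (i + j)) = j := by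
  induction j using Nat.twoStepInduction with
  | zero => exact self Γ _
  | one => exact hf.1 i (by omega)
  | more j h0 h1 =>
    have a := h0 (by omega) (by omega)
    have b := h1 (by omega) (by omega)
    have := away Γ (f (i + (j + 1))) (f (i + j)) (f (i + j + 2)) (f i)
      (by rw [Γ.d_symm]; exact hf.1 (i + j) (by omega)) (hf.1 (i + j + 1) (by omega))
      (hf.2 (i + j) (by omega)) (by omega) (by omega)
    rw [b] at this
    exact this

theorem opp_nb {x z w : X} (h : Γ.d x z = n) (hw : Γ.d z w = 1) : Γ.d x w + 1 = n := by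
  have := Γ.step z w x hw
  have := Γ.d_le w x
  rw [Γ.d_symm x] at h ⊢
  omega

/-- a geodesic from `x` to `z` of length `m` -/
def Geo (x z : X) (m : ℕ) (g : ℕ → X) : Prop :=
  g 0 = x ∧ g m = z ∧ (∀ j ≤ m, Γ.d (g j) z + j = m ∧ Γ.d x (g j) = j) ∧
    ∀ j < m, Γ.d (g j) (g (j + 1)) = 1

theorem geo_path (x z : X) : ∃ g, Geo Γ x z (Γ.d x z) g := by
  classical
  have : ∀ w, ∃ y, w ≠ z → Γ.d w y = 1 ∧ Γ.d y z + 1 = Γ.d w z := fun w => by
    by_cases h : w = z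
    · exact ⟨w, fun e => (e h).elim⟩
    · exact let ⟨y, hy⟩ := Γ.ex w z h; ⟨y, fun _ => hy⟩
  choose s hs using this
  have k : ∀ j ≤ Γ.d x z, Γ.d (s^[j] x) z + j = Γ.d x z ∧ Γ.d x (s^[j] x) = j := fun j => by
    induction j with
    | zero => exact fun _ => ⟨rfl, self Γ x⟩
    | succ j ih =>
      intro hj
      obtain ⟨a, b⟩ := ih (by omega)
      obtain ⟨c, e⟩ := hs (s^[j] x) fun e => by rw [e, self] at a; omega
      rw [Function.iterate_succ_apply']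
      have := tri Γ x (s^[j] x) (s (s^[j] x))
      have := tri Γ x (s (s^[j] x)) z
      omega
  refine ⟨fun j => s^[j] x, rfl, (Γ.d_zero _ _).1 (Nat.add_eq_right.1 (k _ le_rfl).1), k,
    fun j hj => ?_⟩
  have a := (k j hj.le).1
  simp only [Function.iterate_succ_apply']
  exact (hs (s^[j] x) fun e => by rw [e, self] at a; omega).1

theorem cat {x y u v : X} {m : ℕ} {g h : ℕ → X} (hm : n = m + 1) (hg : Geo Γ y u m g)
    (hh : Geo Γ v x m h) (h1 : Γ.d u v = 1) (h2 : Γ.d u x = n) (h3 : Γ.d y v = n) :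
    Γ.Path (m + n) fun r => if r < n then g r else h (r - n) := by
  obtain ⟨-, g1, g2, g3⟩ := hg
  obtain ⟨k0, -, k2, k3⟩ := hh
  refine ⟨fun i hi => ?_, fun i hi => ?_⟩ <;> dsimp only <;> split_ifs with a b b
  · exact g3 i (by omega)
  · rw [show i = m by omega, show m + 1 - n = 0 by omega, g1, k0, h1]
  · omega
  · rw [show i + 1 - n = i - n + 1 by omega]
    exact k3 _ (by omega)
  · intro e
    have := (g2 i (by omega)).1
    have := (g2 (i + 2) (by omega)).1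
    rw [← e] at this
    omega
  · intro e
    by_cases c : i = m
    · have := (k2 (i + 2 - n) (by omega)).1
      rw [← e, c, g1] at this
      omega
    · have := (g2 i (by omega)).2
      rw [e, show i + 2 - n = 0 by omega, k0] at this
      omega
  · omega
  · intro e
    have := (k2 (i - n) (by omega)).1
    have := (k2 (i + 2 - n) (by omega)).1
    rw [← e] at this
    omega

theorem apt (hn : 3 ≤ n) (x y u v : X) (h : Γ.Opp x y u v) :
    ∃ a, Γ.Apt a ∧ a 0 = x ∧ a 1 = y ∧ a n = u ∧ a (n + 1) = v := by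
  obtain ⟨h1, h2, h3, h4⟩ := h
  obtain ⟨m, hm⟩ : ∃ m, n = m + 1 := ⟨n - 1, by omega⟩
  obtain ⟨g, hg⟩ := geo_path Γ y u
  obtain ⟨h, hh⟩ := geo_path Γ v x
  have e1 := opp_nb Γ h4 (Γ.d_symm u v ▸ h2)
  have e2 := opp_nb Γ h3 h2
  rw [show Γ.d y u = m by omega] at hg
  rw [Γ.d_symm v x, show Γ.d x v = m by omega] at hh
  let G : ℤ → ℕ → X := fun k => if Even k then g else h
  have hG : ∀ k, Γ.Path (m + n) fun r => if r < n then G k r else G (k + 1) (r - n) := fun k => by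
    by_cases e : Even k
    · simp only [G, Int.even_add_one, e, not_true, if_true, if_false]
      exact cat Γ hm hg hh h2 (Γ.d_symm x u ▸ h3) h4
    · simp only [G, Int.even_add_one, e, not_false_iff, if_true, if_false]
      exact cat Γ hm hh hg h1 h3 (Γ.d_symm y v ▸ h4)
  let a : ℤ → X := fun i => G ((i - 1) / n) ((i - 1) % n).toNat
  have ha : ∀ (i k : ℤ) (r : ℕ), r < n → i = n * k + r + 1 → a i = G k r := fun i k r hr e => by
    obtain ⟨p, q⟩ := (Int.ediv_emod_unique (a := i - 1) (b := n) (r := r) (q := k)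
      (by omega)).2 ⟨by omega, by omega, by omega⟩
    simp only [a, p, q, Int.toNat_natCast]
  have hd : ∀ i : ℤ, ∃ (k : ℤ) (r : ℕ), r < n ∧ i = n * k + r + 1 := fun i => by
    have p := Int.emod_nonneg (i - 1) (b := n) (by omega)
    have q := Int.emod_lt_of_pos (i - 1) (b := n) (by omega)
    have := Int.mul_ediv_add_emod (i - 1) n
    exact ⟨(i - 1) / n, ((i - 1) % n).toNat, by omega, by omega⟩
  refine ⟨a, ⟨fun i => ?_, fun i j hj => ?_⟩, ?_, ?_, ?_, ?_⟩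
  · obtain ⟨k, r, hr, e⟩ := hd i
    rw [ha i k r hr e, ha _ (k + 2) r hr (by rw [e]; ring)]
    simp only [G, Int.even_add, even_two, iff_true]
  · obtain ⟨k, r, hr, e⟩ := hd i
    have := path_d Γ _ _ (hG k) r j (by omega) hj
    rw [if_pos hr, ← ha i k r hr e] at this
    split_ifs at this with c
    · rwa [ha (i + j) k (r + j) c (by rw [e]; push_cast; ring)]
    · rwa [ha (i + j) (k + 1) (r + j - n) (by omega)
        (by rw [e, Nat.cast_sub (by omega)]; push_cast; ring)]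
  · rw [ha 0 (-1) m (by omega) (by omega)]
    simpa [G] using hh.2.1
  · rw [ha 1 0 0 (by omega) (by omega)]
    simpa [G] using hg.1
  · rw [ha n 0 m (by omega) (by omega)]
    simpa [G] using hg.2.1
  · rw [ha (n + 1) 1 0 (by omega) (by omega)]
    simpa [G] using hh.1

theorem apt_mem (hn : 3 ≤ n) (F : Set X) (hF : Γ.Conv F) (a : ℤ → X) (ha : Γ.Apt a)
    (h0 : a 0 ∈ F) (h1 : a 1 ∈ F) (h2 : a n ∈ F) (h3 : a (n + 1) ∈ F) (i : ℤ) : a i ∈ F := by
  have seg : ∀ i j : ℤ, a i ∈ F → a (i + n - 1) ∈ F → i ≤ j → j < i + n → a j ∈ F := by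
    intro i j a1 a2 b1 b2
    have c1 := ha.2 i (n - 1) (by omega)
    have c2 := ha.2 i (j - i).toNat (by omega)
    have c3 := ha.2 j (i + n - 1 - j).toNat (by omega)
    rw [show i + (n - 1 : ℕ) = i + n - 1 by omega] at c1
    rw [show i + (j - i).toNat = j by omega] at c2
    rw [show j + (i + n - 1 - j).toNat = i + n - 1 by omega] at c3
    exact hF _ a1 _ a2 _ (by omega) (by omega)
  obtain ⟨j, ⟨j1, j2⟩, e⟩ := Function.Periodic.exists_mem_Ico (f := a) (c := 2 * n) ha.1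
    (by omega) i 1
  rw [e]
  by_cases c : j ≤ n
  · exact seg 1 j h1 (by rwa [add_sub_cancel_left]) j1 (by omega)
  · refine seg (n + 1) j h3 ?_ (by omega) (by omega)
    rwa [show (n : ℤ) + 1 + n - 1 = 0 + 2 * n by ring, ha.1]

theorem fix2 (hn : 3 ≤ n) (F : Set X) (hF : Γ.Conv F) (ho : Γ.HasOpp F) (x : X) (hx : x ∈ F)
    (y : X) : ∃ w ∈ F, Γ.d x w = 1 ∧ w ≠ y := by
  obtain ⟨x0, m0, x1, m1, u, m2, v, m3, ho⟩ := ho
  obtain ⟨a, ha, rfl, rfl, rfl, rfl⟩ := apt Γ hn _ _ _ _ ho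
  have am := apt_mem Γ hn F hF a ha m0 m1 m2 m3
  have nb : ∀ i, Γ.d (a i) (a (i - 1)) = 1 ∧ Γ.d (a i) (a (i + 1)) = 1 ∧ a (i - 1) ≠ a (i + 1) := by
    intro i
    have c1 := ha.2 (i - 1) 1 (by omega)
    have c2 := ha.2 (i - 1) 2 (by omega)
    rw [show i - 1 + (1 : ℕ) = i by omega, Γ.d_symm] at c1
    rw [show i - 1 + (2 : ℕ) = i + 1 by omega] at c2
    exact ⟨c1, ha.2 i 1 (by omega), fun e => by rw [e, self] at c2; omega⟩
  have far : ∀ k ≤ n, ∃ i, k ≤ Γ.d (a i) x := fun k => by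
    induction k with
    | zero => exact fun _ => ⟨0, Nat.zero_le _⟩
    | succ k ih =>
      intro hk
      obtain ⟨i, hi⟩ := ih (by omega)
      obtain ⟨b1, b2, b3⟩ := nb i
      by_contra! c
      have := c i
      have := c (i - 1)
      have := c (i + 1)
      have := Γ.step _ _ x b1
      have := Γ.step _ _ x b2
      exact b3 (Γ.uniq _ _ _ x (by omega) b1 b2 (by omega) (by omega))
  obtain ⟨i, hi⟩ := far n le_rfl
  have e := le_antisymm (Γ.d_le _ _) hi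
  rw [Γ.d_symm] at e
  obtain ⟨b1, b2, b3⟩ := nb i
  have c1 := opp_nb Γ e b1
  have c2 := opp_nb Γ e b2
  obtain ⟨w, d1, d2⟩ := ex' Γ (x := x) (z := a (i - 1)) (k := n - 2) (by omega)
  obtain ⟨w', d3, d4⟩ := ex' Γ (x := x) (z := a (i + 1)) (k := n - 2) (by omega)
  have ne : w ≠ w' := by
    rintro rfl
    have := opp_nb Γ (Γ.d_symm x _ ▸ e) d1
    rw [Γ.d_symm] at d2 d4
    exact b3 (Γ.uniq _ _ _ w (by omega) b1 b2 (by omega) (by omega))
  by_cases c : w = y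
  · exact ⟨w', hF _ hx _ (am (i + 1)) _ (by omega) (by omega), d3, c ▸ ne.symm⟩
  · exact ⟨w, hF _ hx _ (am (i - 1)) _ (by omega) (by omega), d1, c⟩

theorem full_opp (hn : 3 ≤ n) {F : Set X} (hF : Γ.Conv F) {x z : X} (hx : Γ.nb x ⊆ F) (hz : z ∈ F)
    (h : Γ.d x z = n) : Γ.nb z ⊆ F := fun w (hw : Γ.d z w = 1) => by
  have a := opp_nb Γ h hw
  obtain ⟨y, b, c⟩ := ex' Γ (x := x) (z := w) (k := n - 2) (by omega)
  have e := opp_nb Γ (Γ.d_symm x _ ▸ h) b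
  rw [Γ.d_symm] at e hw
  exact hF y (hx b) z hz w (by omega) (by omega)

theorem rig (hn : 3 ≤ n) (F : Set X) (hF : Γ.Conv F) (ho : Γ.HasOpp F) (x y : X)
    (h : Γ.d x y = 1) (hx : Γ.nb x ⊆ F) (hy : Γ.nb y ⊆ F) (v : X) : v ∈ F := by
  suffices H : Γ.nb v ⊆ F ∧ ∃ u, Γ.d u v = 1 ∧ Γ.nb u ⊆ F from let ⟨_, _, a, b⟩ := H; b a
  refine ind Γ (P := fun v => Γ.nb v ⊆ F ∧ ∃ u, Γ.d u v = 1 ∧ Γ.nb u ⊆ F) y ⟨hy, x, h, hx⟩ ?_ v
  rintro z b h1 - ⟨hb, a, h2, ha⟩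
  rw [Γ.d_symm] at h1 h2
  refine ⟨?_, b, h1, hb⟩
  obtain ⟨c, h3, c1, c2⟩ := Γ.thick b a z
  obtain ⟨w, hw, e1, e2⟩ := extG Γ (fix2 Γ hn F hF ho) c (hb h3) b (n - 2) (by omega)
  rw [Γ.d_symm] at e1
  rw [Γ.d_symm, h3] at e2
  have f1 := away Γ b c a w h3 h2 c1 (by omega) (by omega)
  have f2 := away Γ b c z w h3 h1 c2 (by omega) (by omega)
  exact full_opp Γ hn hF (full_opp Γ hn hF ha hw (by rw [Γ.d_symm]; omega)) (hb h1) (by omega)

theorem rigA (hn : 3 ≤ n) (F : Set X) (hF : Γ.Conv F) (x y : X) (a : ℕ) (h2 : 2 ≤ a)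
    (hx : ∀ v, Γ.d x v ≤ a → v ∈ F) (hy : y ∈ F) (h : n + 1 ≤ a + Γ.d x y) : ∀ v, v ∈ F := by
  have full : ∀ u, Γ.d x u < a → Γ.nb u ⊆ F := fun u hu w (hw : Γ.d u w = 1) =>
    hx w (by have := tri Γ x u w; omega)
  have l := Γ.d_le y x
  obtain ⟨u, u1, u2⟩ := ext Γ y x (n - Γ.d y x) (by omega)
  rw [Γ.d_symm x y] at h
  have u3 : Γ.d u y = n := by rw [Γ.d_symm]; omega
  have fu := full u (by omega)
  obtain ⟨w, w1, -⟩ := Γ.thick u u u
  have w2 := opp_nb Γ (Γ.d_symm u y ▸ u3) w1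
  obtain ⟨v, v1, v2⟩ := ext Γ w y 1 (by rw [Γ.d_symm]; omega)
  obtain ⟨x', x1, -⟩ := Γ.thick x x x
  rw [Γ.d_symm w y] at v2
  exact rig Γ hn F hF ⟨u, hx u (by omega), w, fu w1, y, hy, v, full_opp Γ hn hF fu hy u3 v1,
    w1, v1, u3, by omega⟩ x x' x1 (full x (by rw [self]; omega)) (full x' (by omega))

theorem iso_le (τ : X → X) (h : ∀ x y, Γ.d x y = 1 → Γ.d (τ x) (τ y) = 1) (x y : X) :
    Γ.d (τ x) (τ y) ≤ Γ.d x y := by
  refine ind Γ (P := fun x => Γ.d (τ x) (τ y) ≤ Γ.d x y) y (by rw [self, self])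
    (fun a b h1 h2 h3 => ?_) x
  have := tri Γ (τ a) (τ b) (τ y)
  have := h a b h1
  omega

theorem iso (σ : Equiv.Perm X) (h : ∀ x y, Γ.d (σ x) (σ y) = 1 ↔ Γ.d x y = 1) (x y : X) :
    Γ.d (σ x) (σ y) = Γ.d x y := by
  refine le_antisymm (iso_le Γ σ (fun a b => (h a b).2) x y) ?_
  simpa using iso_le Γ σ.symm (fun a b e => (h _ _).1 (by simpa using e)) (σ x) (σ y)

variable [Finite X]

theorem nb_le (hn : 3 ≤ n) {x y : X} (h : Γ.d x y = n) : (Γ.nb x).ncard ≤ (Γ.nb y).ncard := by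
  have : ∀ w, ∃ w', Γ.d x w = 1 → Γ.d y w' = 1 ∧ Γ.d w' w = n - 2 := fun w => by
    by_cases e : Γ.d x w = 1
    · have := opp_nb Γ (Γ.d_symm x y ▸ h) e
      exact let ⟨w', h'⟩ := ex' Γ (x := y) (z := w) (k := n - 2) (by omega); ⟨w', fun _ => h'⟩
    · exact ⟨w, fun a => (e a).elim⟩
  choose f hf using this
  refine Set.ncard_le_ncard_of_injOn f (fun w hw => (hf w hw).1) fun w hw w' hw' e => ?_
  obtain ⟨a, b⟩ := hf w hw
  obtain ⟨-, c⟩ := hf w' hw'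
  have := opp_nb Γ h a
  rw [← e, Γ.d_symm] at c
  rw [Γ.d_symm] at b
  exact Γ.uniq x w w' (f w) (by omega) hw hw' (by omega) (by omega)

theorem two_le_q (x : X) : 2 ≤ Γ.q x := by
  obtain ⟨a, h1, -⟩ := Γ.thick x x x
  obtain ⟨b, h2, h3, -⟩ := Γ.thick x a a
  obtain ⟨c, h4, h5, h6⟩ := Γ.thick x a b
  have : 2 < (Γ.nb x).ncard :=
    (Set.two_lt_ncard_iff (Set.toFinite _)).2 ⟨a, b, c, h1, h2, h4, h3.symm, h5.symm, h6.symm⟩
  unfold Pol.q
  omega

theorem bas (hn : 3 ≤ n) : Γ.Bas where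
  tri := tri Γ
  par := par Γ
  away := away Γ
  glue := glue Γ
  geo_ex := geo_ex Γ
  geo_uniq := geo_uniq Γ
  ext := ext Γ
  path_d := path_d Γ
  fix2 := fix2 Γ hn
  extF F hF ho := extG Γ (fix2 Γ hn F hF ho)
  rig := rig Γ hn
  rigA := rigA Γ hn
  apt := apt Γ hn
  apt_mem := apt_mem Γ hn
  q_opp x y h := congrArg (· - 1) (le_antisymm (nb_le Γ hn h) (nb_le Γ hn (Γ.d_symm x y ▸ h)))
  two_le_q := two_le_q Γ
  card_nb _ _ h := Set.ncard_sdiff_singleton_of_mem h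
  iso := iso Γ

theorem g1 : G1Stmt.{u} := fun Γ hn => bas Γ hn

end Cfsg.Agent.H47.BnG1
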