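import Cfsg.Agent.H47.BnG1
import Cfsg.Agent.H89.PBasic

/-! Basic group facts on a system of generalized polygons (piece G2 of BN2). -/

set_option autoImplicit false
set_option linter.unusedSectionVars false

namespace Cfsg.Agent.H47.BnG2

open Cfsg.Agent.H49.BN2 Subgroup MulAction

universe u

theorem card_le_conj {G : Type*} [Group G] [Finite G] {A B : Subgroup G} (h : G)
    (e : ∀ g ∈ A, h * g * h⁻¹ ∈ B) : Nat.card A ≤ Nat.card B :=
  Nat.card_le_card_of_injective (fun g : A => (⟨_, e g g.2⟩ : B)) fun a b c =>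
    Subtype.ext (by simpa using congrArg Subtype.val c)

theorem meet {G : Type*} [Group G] [Finite G] {p : ℕ} (hp : p.Prime) {P N : Subgroup G}
    (hP : IsPGroup p P) (h1 : N ≤ P) (h2 : ∀ h ∈ P, ∀ g ∈ N, h * g * h⁻¹ ∈ N) {a : G}
    (ha : a ∈ N) (h3 : a ≠ 1) :
    ∃ z ∈ N, z ∈ centralizer (P : Set G) ∧ z ≠ 1 ∧ z ^ p = 1 := by
  have := Fact.mk hp
  have : (N.subgroupOf P).Normal := ⟨fun g hg h => h2 h h.2 g hg⟩
  obtain ⟨z, z1, z2, z3⟩ := H89.exists_center_orderOf_of_normal hP (N := N.subgroupOf P) fun e =>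
    h3 (congrArg Subtype.val (mem_bot.1 (e.le (ha : (⟨a, h1 ha⟩ : P) ∈ N.subgroupOf P)) :
      (⟨a, h1 ha⟩ : P) = 1))
  refine ⟨z, z1, fun g hg => congrArg Subtype.val (mem_center_iff.1 z2 ⟨g, hg⟩), fun e => ?_, ?_⟩
  · rw [show z = 1 from Subtype.ext e, orderOf_one] at z3
    exact hp.one_lt.ne z3
  · rw [← coe_pow, ← z3, pow_orderOf_eq_one, coe_one]

section Zero

variable {n : ℕ} {X G : Type u} [Group G] [MulAction G X] (S : Sys0 n X G)

theorem self (x : X) : S.d x x = 0 := (S.d_zero x x).2 rfl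

theorem d_left (g : G) (x y : X) : S.d (g • x) y = S.d x (g⁻¹ • y) := by
  rw [← S.d_smul g x, smul_inv_smul]

theorem d_fix {g : G} {x : X} (h : g • x = x) (y : X) : S.d x (g • y) = S.d x y := by
  rw [← S.d_smul g x y, h]

theorem V_fix' {x y : X} (h : S.d x y = 1) {g : G} (hg : g ∈ S.V x y) : g • y = y :=
  S.V_fix y x (S.d_symm x y ▸ h) g (S.V_symm x y ▸ hg)

variable {S} (b : S.toPol.Bas)
include b

theorem geo_fix (g : G) (x z w : X) (h1 : g • x = x) (h2 : g • z = z) (h3 : S.d x z < n)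
    (h4 : S.d x w + S.d w z = S.d x z) : g • w = w :=
  b.geo_uniq x z _ _ h3 (by rw [d_fix S h1, S.d_symm _ z, d_fix S h2, S.d_symm z, h4]) h4
    (d_fix S h1 w)

theorem conv (K : Set G) : S.toPol.Conv {x | ∀ g ∈ K, g • x = x} :=
  fun x hx z hz w h1 h2 g hg => geo_fix b g x z w (hx g hg) (hz g hg) h1 h2

theorem conv1 (g : G) : S.toPol.Conv {x | g • x = x} :=
  fun x hx z hz w h1 h2 => geo_fix b g x z w hx hz h1 h2

theorem rig (g : G) (x y u v x' y' : X) (h : S.toPol.Opp x y u v) (h1 : g • x = x)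
    (h2 : g • y = y) (h3 : g • u = u) (h4 : g • v = v) (h5 : S.d x' y' = 1)
    (h6 : ∀ w, S.d x' w ≤ 1 → g • w = w) (h7 : ∀ w, S.d y' w ≤ 1 → g • w = w) : g = 1 :=
  S.faith g (b.rig _ (conv1 b g) ⟨x, h1, y, h2, u, h3, v, h4, h⟩ x' y' h5
    (fun w hw => h6 w (Eq.le hw)) fun w hw => h7 w (Eq.le hw))

theorem two {x y z : X} (hn : 3 ≤ n) (h1 : S.d x y = 1) (h2 : S.d x z = 1) (h3 : y ≠ z) :
    S.d y z = 2 := by
  have := b.away x y z y h1 h2 h3 (by rw [self, S.d_symm]; omega) (by rw [S.d_symm]; omega)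
  rw [this, S.d_symm, h1]

theorem tr (x y u u' : X) (k : ℕ) (h : S.d x y = 1) (h1 : S.d x u = k + 1)
    (h2 : S.d y u = k) (h3 : S.d x u' = k + 1) (h4 : S.d y u' = k) :
    ∃ g ∈ S.V x y, g • u = u' := by
  have := S.d_le x u
  have key : ∀ u, S.d x u = k + 1 → S.d y u = k → ∃ e v, S.toPol.Opp x y e v ∧
      S.d y e + 1 = n ∧ S.d y u + S.d u e = S.d y e := fun u a c => by
    obtain ⟨e, e1, e2⟩ := b.ext x u (n - (k + 1)) (by omega)
    have e3 := BnG1.opp_nb S.toPol (x := e) (z := x) (by rw [S.d_symm]; omega) h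
    rw [S.d_symm] at e3
    obtain ⟨v, v1, v2⟩ := b.ext y e 1 (by omega)
    exact ⟨e, v, ⟨h, v1, by omega, by omega⟩, e3, by omega⟩
  obtain ⟨e, v, o, a1, a2⟩ := key u h1 h2
  obtain ⟨e', v', o', a3, a4⟩ := key u' h3 h4
  obtain ⟨g, hg, rfl, -⟩ := S.V_tr _ _ _ _ _ _ o o'
  have f := d_fix S (V_fix' S h hg)
  exact ⟨g, hg, b.geo_uniq y (g • e) _ _ (by omega) (by rw [f, f, S.d_smul, a2]) a4
    (by rw [f, h2, h4])⟩

theorem tr1 (hn : 3 ≤ n) {x y z z' : X} (h : S.d x y = 1) (h1 : S.d x z = 1) (h2 : S.d x z' = 1)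
    (h3 : z ≠ y) (h4 : z' ≠ y) : ∃ g ∈ S.V x y, g • z = z' :=
  S.V_symm x y ▸ tr b y x z z' 1 (S.d_symm x y ▸ h) (two b hn h h1 h3.symm) h1
    (two b hn h h2 h4.symm) h2

theorem nb_tr (hn : 3 ≤ n) {x z z' : X} (h1 : S.d x z = 1) (h2 : S.d x z' = 1) :
    ∃ g : G, g • x = x ∧ g • z = z' := by
  obtain ⟨y, h, a, c⟩ := S.thick x z z'
  obtain ⟨g, hg, e⟩ := tr1 b hn h h1 h2 a.symm c.symm
  exact ⟨g, S.V_fix x y h g hg, e⟩

theorem vtx (hn : 3 ≤ n) {x x' : X} (h : Even (S.d x x')) : ∃ g : G, g • x = x' := by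
  obtain ⟨k, hk⟩ := h
  induction k generalizing x with
  | zero => exact ⟨1, by rw [one_smul, (S.d_zero _ _).1 hk]⟩
  | succ k ih =>
    obtain ⟨w, a1, a2⟩ := BnG1.ex' S.toPol (x := x) (z := x') (k := k + k + 1) (by omega)
    obtain ⟨z, a3, a4⟩ := BnG1.ex' S.toPol a2
    obtain ⟨g, hg⟩ := ih a4
    obtain ⟨f, -, hf⟩ := nb_tr b hn (S.d_symm x w ▸ a1) a3
    exact ⟨g * f, by rw [mul_smul, hf, hg]⟩

theorem flag (hn : 3 ≤ n) (x y x' y' : X) (h1 : S.d x y = 1) (h2 : S.d x' y' = 1)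
    (h : Even (S.d x x')) : ∃ g : G, g • x = x' ∧ g • y = y' := by
  obtain ⟨g, rfl⟩ := vtx b hn h
  obtain ⟨f, a, c⟩ := nb_tr b hn ((S.d_smul g x y).trans h1) h2
  exact ⟨f * g, by rw [mul_smul, a], by rw [mul_smul, c]⟩

theorem pair (hn : 3 ≤ n) (x u x' u' : X) (h1 : S.d x u = S.d x' u') (h : Even (S.d x x')) :
    ∃ g : G, g • x = x' ∧ g • u = u' := by
  rcases e : S.d x u with _ | k
  · obtain ⟨g, hg⟩ := vtx b hn h
    exact ⟨g, hg, by rw [← (S.d_zero _ _).1 e, ← (S.d_zero x' u').1 (h1 ▸ e), hg]⟩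
  · obtain ⟨y, a1, a2⟩ := BnG1.ex' S.toPol e
    obtain ⟨y', a3, a4⟩ := BnG1.ex' S.toPol (h1 ▸ e)
    obtain ⟨g, rfl, rfl⟩ := flag b hn x y x' y' a1 a3 h
    obtain ⟨f, hf, c⟩ := tr b _ _ (g • u) u' k a3 (by rw [S.d_smul, e]) (by rw [S.d_smul, a2])
      (h1 ▸ e) a4
    exact ⟨f * g, by rw [mul_smul, S.V_fix _ _ a3 f hf], by rw [mul_smul, c]⟩

theorem strong (hn : 3 ≤ n) (x y u v x' y' u' v' : X) (o : S.toPol.Opp x y u v)
    (o' : S.toPol.Opp x' y' u' v') (h : Even (S.d x x')) :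
    ∃ g : G, g • x = x' ∧ g • y = y' ∧ g • u = u' ∧ g • v = v' := by
  obtain ⟨g, rfl, rfl⟩ := flag b hn x y x' y' o.1 o'.1 h
  obtain ⟨f, hf, c, e⟩ := S.V_tr _ _ (g • u) (g • v) _ _ ⟨o'.1, (S.d_smul ..).trans o.2.1,
    (S.d_smul ..).trans o.2.2.1, (S.d_smul ..).trans o.2.2.2⟩ o'
  exact ⟨f * g, by rw [mul_smul, S.V_fix _ _ o'.1 f hf], by rw [mul_smul, V_fix' S o'.1 hf],
    by rw [mul_smul, c], by rw [mul_smul, e]⟩

theorem q_even (hn : 3 ≤ n) (x x' : X) (h : Even (S.d x x')) : S.toPol.q x = S.toPol.q x' := by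
  obtain ⟨g, rfl⟩ := vtx b hn h
  have : S.toPol.nb (g • x) = (g • ·) '' S.toPol.nb x := by
    ext y
    refine ⟨fun hy => ⟨g⁻¹ • y, (d_left S g x y).symm.trans hy, smul_inv_smul g y⟩, ?_⟩
    rintro ⟨y, hy, rfl⟩
    exact (S.d_smul g x y).trans hy
  rw [Pol.q, Pol.q, this, Set.ncard_image_of_injective _ (MulAction.injective g)]

theorem orbit_V (hn : 3 ≤ n) {x y z : X} (h : S.d x y = 1) (h1 : S.d x z = 1) (h3 : z ≠ y) :
    orbit (S.V x y) z = S.toPol.nb x \ {y} := by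
  ext w
  constructor
  · rintro ⟨g, rfl⟩
    exact ⟨(d_fix S (S.V_fix x y h g g.2) z).trans h1, fun e =>
      h3 (MulAction.injective (g : G) (e.trans (V_fix' S h g.2).symm))⟩
  · rintro ⟨a, c⟩
    obtain ⟨g, hg, e⟩ := tr1 b hn h h1 a h3 c
    exact ⟨⟨g, hg⟩, e⟩

theorem V_ne (hn : 3 ≤ n) {x y : X} (h : S.d x y = 1) : ∃ g ∈ S.V x y, g ≠ 1 := by
  obtain ⟨z, a, c, -⟩ := S.thick x y y
  obtain ⟨z', a', c', e⟩ := S.thick x y z
  obtain ⟨g, hg, f⟩ := tr1 b hn h a a' c c'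
  exact ⟨g, hg, fun k => e (by rw [← f, k, one_smul])⟩

theorem odd_nb {x y z : X} (h : S.d y z = 1) (e : ¬ Even (S.d x y)) : Even (S.d x z) := by
  have := b.par x y z
  rw [Nat.even_iff] at this e ⊢
  omega

end Zero

variable {n p : ℕ} {X G : Type u} [Group G] [MulAction G X] {S : Sys n p X G}

theorem fixB_conj (k : ℕ) (x : X) (h g : G) (hg : g ∈ S.fixB k x) :
    h * g * h⁻¹ ∈ S.fixB k (h • x) := fun v hv => by
  rw [mul_smul, mul_smul, hg _ (d_left S.toSys0 h x v ▸ hv), smul_inv_smul]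

theorem mem_Q_iff {k : ℕ} {x : X} {g : G} :
    g ∈ S.Q k x ↔ (∀ y, S.d x y = 1 → g ∈ S.V x y) ∧ g ∈ S.fixB k x := by
  simp only [Sys.Q, mem_inf, mem_iInf]
  rfl

theorem Q_conj (k : ℕ) (x : X) (h g : G) (hg : g ∈ S.Q k x) : h * g * h⁻¹ ∈ S.Q k (h • x) := by
  rw [mem_Q_iff] at hg ⊢
  refine ⟨fun y hy => ?_, fixB_conj k x h g hg.2⟩
  rw [d_left] at hy
  simpa using S.V_conj x _ hy h g (hg.1 _ hy)

theorem Z_conj (x y : X) (h : G) (e : S.d x y = 1) (g : G) (hg : g ∈ S.Z x y) :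
    h * g * h⁻¹ ∈ S.Z (h • x) (h • y) := by
  refine ⟨S.V_conj x y e h g hg.1, fun a ha => ?_⟩
  have h1 := S.V_conj _ _ ((S.d_smul h x y).trans e) h⁻¹ a ha
  rw [inv_smul_smul, inv_smul_smul] at h1
  have h2 := hg.2 _ h1
  calc a * (h * g * h⁻¹) = h * (h⁻¹ * a * h⁻¹⁻¹ * g) * h⁻¹ := by group
    _ = h * g * h⁻¹ * a := by rw [h2]; group

theorem A_conj (x y : X) (h : G) (e : S.d x y = 1) (g : G) (hg : g ∈ S.A x y) :
    h * g * h⁻¹ ∈ S.A (h • x) (h • y) :=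
  ⟨Z_conj x y h e g hg.1, fixB_conj _ x h g hg.2.1, by rw [conj_pow, hg.2.2]; group⟩

theorem sup_conj {K : X → X → Subgroup G}
    (hK : ∀ x y (h : G), S.d x y = 1 → ∀ g ∈ K x y, h * g * h⁻¹ ∈ K (h • x) (h • y)) (l : X)
    (h g : G) (hg : g ∈ ⨆ y ∈ S.toPol.nb l, K l y) :
    h * g * h⁻¹ ∈ ⨆ y ∈ S.toPol.nb (h • l), K (h • l) y :=
  (iSup₂_le fun y hy g hg => le_iSup₂ (f := fun y (_ : y ∈ S.toPol.nb (h • l)) => K (h • l) y)
    (h • y) ((S.d_smul h l y).trans hy) (hK l y h hy g hg) :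
    _ ≤ (⨆ y ∈ S.toPol.nb (h • l), K (h • l) y).comap (MulAut.conj h).toMonoidHom) hg

theorem E_conj (l : X) (h g : G) (hg : g ∈ S.E l) : h * g * h⁻¹ ∈ S.E (h • l) :=
  sup_conj (K := fun l y => S.A y l) (fun x y h e => A_conj y x h (S.d_symm x y ▸ e)) l h g hg

theorem Z_symm (x y : X) : S.Z x y = S.Z y x := by rw [Sys.Z, Sys.Z, S.V_symm]

theorem mem_Q (k : ℕ) (x y : X) (hk : 1 ≤ k) (h : S.d x y = 1) (g : G) (hg : g ∈ S.V x y)
    (h1 : g ∈ S.fixB k x) : g ∈ S.Q k x :=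
  mem_Q_iff.2 ⟨fun y' e => S.V_uni x y y' h e g hg (h1 y' (e.trans_le hk)), h1⟩

theorem A_le (x y : X) (hn : 4 ≤ n) (h : S.d x y = 1) : S.A x y ≤ S.Q (n / 2) x :=
  fun g hg => mem_Q _ x y (by omega) h g hg.1.1 hg.2.1

theorem E_cent (l : X) (e : G) (he : e ∈ S.E l) (g : G) (hg : g ∈ S.Q 1 l) : g * e = e * g :=
  (iSup₂_le fun y hy a ha c hc => by
    obtain rfl : c = g := hc
    exact ha.1.2 c (S.V_symm l y ▸ (mem_Q_iff.1 hg).1 y hy) : S.E l ≤ centralizer {g}) he g rfl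

variable (b : S.toPol.Bas)
include b

theorem uni (x y u v : X) (h : S.d x y = 1) (h' : S.d u v = 1) (g : G) (hg : g ∈ S.V x y)
    (hu : g • u = u) (hv : g • v = v) : g ∈ S.V u v := by
  have key : ∀ u, S.d u x < n → g • u = u → ∀ v, S.d u v = 1 → g • v = v → g ∈ S.V u v := fun u => by
    refine BnG1.ind S.toPol (P := fun u => S.d u x < n → g • u = u → ∀ v, S.d u v = 1 → g • v = v →
      g ∈ S.V u v) x (fun _ _ v a c => S.V_uni x y v h a g hg c) (fun u w a1 a2 ih a3 a4 v a c => ?_) u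
    have f := geo_fix b g u x w a4 (S.V_fix x y h g hg) a3 (by omega)
    exact S.V_uni u w v a1 a g (S.V_symm w u ▸ ih (by omega) f u (S.d_symm u w ▸ a1) a4) c
  by_cases e : S.d u x < n
  · exact key u e hu v h' hv
  · have := S.step u v x h'
    have := S.d_le v x
    have := S.d_le u x
    exact S.V_symm v u ▸ key v (by omega) hv u (S.d_symm u v ▸ h') hu

theorem Q_mono (k l : ℕ) (x y : X) (h1 : 1 ≤ l) (h2 : l + S.d x y ≤ k) : S.Q k x ≤ S.Q l y := by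
  intro g hg
  rw [mem_Q_iff] at hg ⊢
  have f : g ∈ S.fixB l y := fun v hv => hg.2 v (by have := b.tri x y v; omega)
  obtain ⟨x', a, -⟩ := S.thick x x x
  exact ⟨fun w e => uni b x x' y w a e g (hg.1 x' a) (hg.2 y (by omega)) (f w (by omega)), f⟩

theorem E_le (l : X) (hn : 4 ≤ n) : S.E l ≤ S.Q (n / 2 - 1) l :=
  iSup₂_le fun y (hy : S.d l y = 1) => (A_le y l hn (S.d_symm l y ▸ hy)).trans
    (Q_mono b _ _ y l (by omega) (by rw [S.d_symm]; omega))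

theorem E_pow (l : X) (hn : 4 ≤ n) (e : G) (he : e ∈ S.E l) : e ^ p = 1 := by
  let K : Subgroup G :=
    { carrier := {e | e ∈ S.E l ∧ e ^ p = 1}
      one_mem' := ⟨one_mem _, one_pow p⟩
      mul_mem' := fun {a c} ha hc => ⟨mul_mem ha.1 hc.1, by
        have h : Commute a c := E_cent l c hc.1 a
          (Q_mono b _ 1 l l le_rfl (by rw [self]; omega) (E_le b l hn ha.1))
        rw [h.mul_pow, ha.2, hc.2, one_mul]⟩
      inv_mem' := fun {a} ha => ⟨inv_mem ha.1, by rw [inv_pow, ha.2, inv_one]⟩ }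
  exact ((iSup₂_le fun y hy a ha => ⟨le_iSup₂ (f := fun y (_ : y ∈ S.toPol.nb l) => S.A y l) y hy
    ha, ha.2.2⟩ : S.E l ≤ K) he).2

theorem cen_even (hn : 3 ≤ n) (x x' : X) (h : S.Cen x) (e : Even (S.d x x')) : S.Cen x' := by
  obtain ⟨g, rfl⟩ := vtx b hn e
  obtain ⟨a, ha, h1⟩ := h
  exact ⟨_, Q_conj _ x g a ha, by simpa using h1⟩

theorem reg0 (hn : 3 ≤ n) (h : ∀ x, S.Reg x) : S.toSys0.Reg0 := by
  intro x y u v o g hg hu hv
  have key : ∀ x y v, S.d x y = 1 → S.d y v = n → g ∈ S.V x y → g • v = v → g ∈ S.fixB 1 x := by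
    intro x y v h1 h2 h3 h4
    have a := BnG1.opp_nb S.toPol (S.d_symm y v ▸ h2) (S.d_symm x y ▸ h1)
    rw [S.d_symm] at a
    obtain ⟨z, a1, a2⟩ := BnG1.ex' S.toPol (x := x) (z := v) (k := n - 2) (by omega)
    exact h x y z h1 a1 (by rintro rfl; omega) g h3
      (geo_fix b g x v z (S.V_fix x y h1 g h3) h4 (by omega) (by omega))
  exact rig b g x y u v x y o (S.V_fix x y o.1 g hg) (V_fix' _ o.1 hg) hu hv o.1
    (key x y v o.1 o.2.2.2 hg hv) (key y x u (S.d_symm x y ▸ o.1) o.2.2.1 (S.V_symm x y ▸ hg) hu)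

variable [Finite G]

theorem dn (hn : 3 ≤ n) (x y u v x' y' u' v' : X) (o : S.toPol.Opp x y u v)
    (o' : S.toPol.Opp x' y' u' v')
    (h : ∀ g ∈ S.D x y u v, g • x' = x' ∧ g • y' = y' ∧ g • u' = u' ∧ g • v' = v') :
    S.D x' y' u' v' = S.D x y u v := by
  have key : ∀ x' y' u' v', S.toPol.Opp x' y' u' v' → Even (S.d x' x) →
      Nat.card (S.D x' y' u' v') ≤ Nat.card (S.D x y u v) := fun x' y' u' v' o' e => by
    obtain ⟨f, rfl, rfl, rfl, rfl⟩ := strong b hn _ _ _ _ _ _ _ _ o' o e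
    refine card_le_conj f fun g hg => ⟨⟨S.V_conj _ _ o'.1 f g hg.1.1, ?_⟩, ?_⟩
    · change _ • _ = _
      rw [mul_smul, inv_smul_smul, mul_smul, show g • u' = u' from hg.1.2]
    · change _ • _ = _
      rw [mul_smul, inv_smul_smul, mul_smul, show g • v' = v' from hg.2]
  refine (eq_of_le_of_card_ge (fun g hg => ?_) ?_).symm
  · obtain ⟨a1, a2, a3, a4⟩ := h g hg
    exact ⟨⟨uni b x y x' y' o.1 o'.1 g hg.1.1 a1 a2, a3⟩, a4⟩
  · by_cases e : Even (S.d x x')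
    · exact key _ _ _ _ o' (S.d_symm x x' ▸ e)
    · rw [Sys.D, S.V_symm, inf_right_comm]
      exact key y' x' v' u' ⟨S.d_symm x' y' ▸ o'.1, S.d_symm u' v' ▸ o'.2.1, o'.2.2.2, o'.2.2.1⟩
        (S.d_symm x y' ▸ odd_nb b o'.1 e)

theorem card_eq (hn : 3 ≤ n) {K : X → X → Subgroup G}
    (hK : ∀ x y (h : G), S.d x y = 1 → ∀ g ∈ K x y, h * g * h⁻¹ ∈ K (h • x) (h • y)) (x y x' y' : X)
    (h : S.d x y = 1) (h' : S.d x' y' = 1) (e : Even (S.d x x')) :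
    Nat.card (K x y) = Nat.card (K x' y') := by
  obtain ⟨g, rfl, rfl⟩ := flag b hn x y x' y' h h' e
  refine le_antisymm (card_le_conj g (hK x y g h)) (card_le_conj g⁻¹ fun a ha => ?_)
  simpa using hK _ _ g⁻¹ h' a ha

omit b in
theorem A_ne (x y : X) (h : S.Cen x) (e : S.d x y = 1) : ∃ a ∈ S.A x y, a ≠ 1 := by
  obtain ⟨g, hg, h1⟩ := h
  obtain ⟨z, z1, z2, z3, z4⟩ := meet S.hp (S.V_p x y e) (N := S.Q (n / 2) x)
    (fun a ha => (mem_Q_iff.1 ha).1 y e)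
    (fun f hf a ha => by simpa [S.V_fix x y e f hf] using Q_conj _ x f a ha) hg h1
  exact ⟨z, ⟨⟨(mem_Q_iff.1 z1).1 y e, z2⟩, z1.2, z4⟩, z3⟩

variable [Finite X]

theorem q_pow (hn : 3 ≤ n) (x : X) : ∃ k, S.toPol.q x = p ^ (k + 1) := by
  have := Fact.mk S.hp
  obtain ⟨y, a, -⟩ := S.thick x x x
  obtain ⟨z, c, e, -⟩ := S.thick x y y
  obtain ⟨k, hk⟩ := (S.V_p x y a).card_orbit z
  rw [orbit_V b hn a c e, Nat.card_coe_set_eq, b.card_nb x y a] at hk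
  have := b.two_le_q x
  rcases k with _ | k
  · rw [pow_zero] at hk; omega
  · exact ⟨k, hk⟩

theorem bas (hn : 3 ≤ n) : S.Bas where
  conv := conv b
  geo_fix := geo_fix b
  rig := rig b
  rigA g x y a h1 h2 h3 h4 := S.faith g (b.rigA _ (conv1 b g) x y a h1 h2 h3 h4)
  uni := uni b
  tr := tr b
  flag := flag b hn
  pair := pair b hn
  strong := strong b hn
  dn := dn b hn
  q_even := q_even b hn
  q_pow := q_pow b hn
  mem_Q := mem_Q
  Q_le _ _ y h _ hg := (mem_Q_iff.1 hg).1 y h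
  Q_mono := Q_mono b
  fixB_conj := fixB_conj
  Q_conj := Q_conj
  Z_conj := Z_conj
  A_conj := A_conj
  E_conj := E_conj
  F_conj := sup_conj (K := fun _ l => S.E l) fun _ y h _ => E_conj y h
  card_Z x y x' y' h h' := by
    by_cases e : Even (S.d x x')
    · exact card_eq b hn Z_conj x y x' y' h h' e
    · rw [Z_symm x']
      exact card_eq b hn Z_conj x y y' x' h (S.d_symm x' y' ▸ h') (odd_nb b h' e)
  card_A := card_eq b hn A_conj
  Z_symm := Z_symm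
  Z_ne x y h := by
    obtain ⟨g, hg, h1⟩ := V_ne b hn h
    obtain ⟨z, z1, z2, z3, -⟩ := meet S.hp (S.V_p x y h) le_rfl
      (fun f hf a ha => mul_mem (mul_mem hf ha) (inv_mem hf)) hg h1
    exact ⟨z, ⟨z1, z2⟩, z3⟩
  Z_all x y u u' k h h1 h2 h3 h4 z hz e := by
    obtain ⟨g, hg, rfl⟩ := tr b x y u u' k h h1 h2 h3 h4
    rw [← mul_smul, ← hz.2 g hg, mul_smul, e]
  A_ne x y _ := A_ne x y
  A_le := A_le
  cen_even := cen_even b hn
  ln_odd x l h e y hy := cen_even b hn x y h (odd_nb b hy (Nat.not_even_iff_odd.2 e))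
  E_le := E_le b
  E_cent := E_cent
  E_pow := E_pow b
  reg0 := reg0 b hn

omit b in
theorem g2 : G2Stmt.{u} := fun _ hn b => bas b hn

end Cfsg.Agent.H47.BnG2
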