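import Cfsg.Agent.H49.BN2Red
import Cfsg.Agent.Lead.T3Asm
import Cfsg.Agent.H7.T3Cx
import Cfsg.Agent.H28.T3Sub
import Cfsg.Agent.H62.T3Ba1
import Cfsg.Agent.H3.T3Ba3
import Cfsg.Agent.H52.Fitting

/-! Split BN-pairs: reduction to the residues of rank two (piece RED of BN2). -/

set_option autoImplicit false

namespace Cfsg.Agent.H47.BnRed

open Cfsg.Agent.H49.BN2 Cfsg.Agent.Lead.T3 Cfsg.Agent.H35 Subgroup

universe u

theorem reg (hb : BldStmt.{u}) {I W : Type} [Group W] [Finite W] {X : Cox I W} {C : Type u}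
    [Finite C] (B : Bld X C) {G : Type u} [Group G] [Finite G] [MulAction G C] (c : C)
    (V : Subgroup G)
    (hm : ∀ i, ∃ j, i ≠ j ∧ (X.m i j = 3 ∨ X.m i j = 4 ∨ X.m i j = 6 ∨ X.m i j = 8))
    (hδ : ∀ (g : G) x y, B.δ (g • x) (g • y) = B.δ x y) (htr : ∀ x : C, ∃ g : G, g • c = x)
    (hn : Group.IsNilpotent V) (hc : ∀ v ∈ V, v • c = c)
    (hN : ∀ g : G, g • c = c → ∀ v ∈ V, g * v * g⁻¹ ∈ V)
    (hV : ∀ z z', B.δ c z = X.w0 → B.δ c z' = X.w0 → ∃ v ∈ V, v • z = z')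
    {g : G} (hg : g ∈ V) {d : C} (hd : B.δ c d = X.w0) (hgd : g • d = d) (x : C) : g • x = x := by
  obtain ⟨c1, c2, -, -, c5, -⟩ := H7.T3Cx.cxStmt X
  obtain ⟨b1, b2, b3, -, -, -, -, -, b9, -⟩ := H62.T3B.ba1Stmt B
  have top : ∀ w, w ∈ X.WJ Set.univ := fun w => by
    rw [Cox.WJ, Set.image_univ, X.closure_eq]; trivial
  have e : ∀ J, X.wJ J * (X.wJ J * X.w0) = X.w0 := fun J => by rw [← mul_assoc, c1, one_mul]
  have l : ∀ J, X.len X.w0 = X.len (X.wJ J) + X.len (X.wJ J * X.w0) := fun J =>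
    ((c2 Set.univ _ (top (X.wJ J))).2.symm.trans (add_comm _ _))
  have key : ∀ J, ∀ v ∈ V, ∀ y y' z, B.δ c y = X.wJ J → B.δ c y' = X.wJ J →
      B.δ y z = X.wJ J * X.w0 → B.δ y' (v • z) = X.wJ J * X.w0 → B.δ c (v • z) = X.w0 →
      v • y = y' := fun J v hv y y' z a1 a2 a3 a4 a5 => by
    have f : B.δ c (v • y) = X.wJ J := by rw [← a1, ← hδ v c y, hc v hv]
    exact b9 c (v • z) _ _ (f.trans a2.symm) (by rw [hδ, a3, a4]) (by rw [a5, f, hδ, a3, ← l])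
  refine (H3.T3Ba3.ba3Stmt @H7.T3Cx.cxStmt @H62.T3B.ba1Stmt B B).2 Set.univ c d (g • ·) id
    (fun x _ y _ => hδ g x y) (fun _ _ _ _ => rfl) hd (hc g hg) hgd (fun i _ x hx => ?_) (top _)
  obtain ⟨j, hij, h⟩ := hm i
  obtain ⟨y, y1, y2⟩ := b2 c d _ _ (hd.trans (e {i, j}).symm)
  refine hb B i j c V hij h hδ htr hn hc hN (fun y y' a a' => ?_) g hg y y1
    (key _ g hg y y d y1 y1 y2 (hgd.symm ▸ y2) (hgd.symm ▸ hd)) x ?_
  · obtain ⟨z, hz⟩ := b3 y (X.wJ {i, j} * X.w0)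
    obtain ⟨z', hz'⟩ := b3 y' (X.wJ {i, j} * X.w0)
    have o : B.δ c z = X.w0 := by rw [b1 c y z (by rw [a, hz, e, ← l]), a, hz, e]
    have o' : B.δ c z' = X.w0 := by rw [b1 c y' z' (by rw [a', hz', e, ← l]), a', hz', e]
    obtain ⟨v, hv, rfl⟩ := hV z z' o o'
    exact ⟨v, hv, key _ v hv y y' z a a' hz hz' o'⟩
  · change B.δ c x ∈ X.WJ _
    rw [show B.δ c x = X.s i from hx, c5]
    exact Set.mem_insert _ _

theorem nbr {G : Type u} [Group G] [Finite G] {P : BNPair G} (h2 : 2 ≤ P.rank)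
    (hirr : P.Irreducible) (i : P.S) :
    ∃ j, i ≠ j ∧ orderOf ((BN.gens P).s i * (BN.gens P).s j) ≠ 2 := by
  have : Nontrivial P.S := Finite.one_lt_card_iff_nontrivial.1 h2
  obtain ⟨b, hb⟩ := exists_ne i
  obtain ⟨s, rfl, s', ⟨hs', hn⟩, hc⟩ := hirr {(i : G)} (by rintro _ rfl; exact i.2) ⟨_, rfl⟩
    ⟨b, b.2, fun h => hb (Subtype.ext h)⟩
  refine ⟨⟨s', hs'⟩, fun h => hn (congrArg Subtype.val h).symm, fun h => hc ?_⟩
  have h1 := pow_orderOf_eq_one ((BN.gens P).s i * (BN.gens P).s ⟨s', hs'⟩)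
  rw [h, pow_two] at h1
  have hi' := P.subset i.2
  have hs'' := P.subset hs'
  rw [← BN.mkW_eq_one_iff (mul_mem (mul_mem (mul_mem hi' hs'') (inv_mem hi')) (inv_mem hs'')),
    BN.mkW_mul (mul_mem (mul_mem hi' hs'') (inv_mem hi')) (inv_mem hs''),
    BN.mkW_mul (mul_mem hi' hs'') (inv_mem hi'), BN.mkW_mul hi' hs'', BN.mkW_inv hi',
    BN.mkW_inv hs'']
  change (BN.gens P).s i * (BN.gens P).s ⟨s', hs'⟩ * ((BN.gens P).s i)⁻¹ *
    ((BN.gens P).s ⟨s', hs'⟩)⁻¹ = 1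
  rw [InvGen.inv_s, InvGen.inv_s, mul_assoc, h1]

theorem red : RedStmt.{u} := by
  intro hb G _ _ P h2 hirr hcore U U' hU hU' n n' nil nil' s s'
  obtain ⟨hfh, hty⟩ := H28.T3Sub.fhStmt P
  obtain ⟨W, _, _, X, T, -⟩ := hty _ (Finite.equivFin P.S).symm
  let c : G ⧸ P.B := (1 : G)
  have hc : ∀ g : G, g • c = c ↔ g ∈ P.B := fun g => by
    change ((g * 1 : G) : G ⧸ P.B) = (1 : G) ↔ _
    rw [eq_comm, QuotientGroup.eq, inv_one, one_mul, mul_one]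
  obtain ⟨w, hw, e⟩ := BN.exists_mkW (T.φ.symm X.w0)
  let d : G ⧸ P.B := w
  have hd : T.bld.δ c d = X.w0 := by
    change T.φ (BN.wdist P _ _) = _
    rw [BN.wdist_mk, inv_one, one_mul, BN.bruhat_of_mem_N hw, e, MulEquiv.apply_symm_apply]
  have tr : ∀ U ≤ P.B, (∀ b ∈ P.B, ∀ u ∈ U, b * u * b⁻¹ ∈ U) → U ⊔ (P.B ⊓ P.N) = P.B →
      ∀ z, T.bld.δ c z = X.w0 → ∃ u ∈ U, u • d = z := fun U _ n s z hz => by
    obtain ⟨g, g1, rfl⟩ := BN.exists_smul_eq_of_wdist_eq (T.φ.injective (hd.trans hz.symm))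
    have g2 : g ∈ (↑(U ⊔ (P.B ⊓ P.N)) : Set G) := s.symm ▸ (hc g).1 g1
    rw [coe_mul_of_right_le_normalizer_left _ _ (le_normalizer_iff.2 fun h hh => n h (mem_inf.1 hh).1)] at g2
    obtain ⟨u, hu, t, ht, rfl⟩ := g2
    refine ⟨u, hu, ?_⟩
    rw [mul_smul]
    congr 1
    change (w : G ⧸ P.B) = (t * w : G)
    rw [QuotientGroup.eq, ← mul_assoc]
    simpa using P.conj_mem w⁻¹ (inv_mem hw) t ht
  have hV : U ⊔ U' ≤ P.B := sup_le hU hU'
  have key : ∀ g ∈ U ⊔ U', g • d = d → g = 1 := fun g hg hgd => by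
    rw [← mem_bot, ← hcore, normalCore_eq_ker]
    refine Equiv.ext fun x => reg hb T.bld c (U ⊔ U') (fun i => ?_)
      (fun g x y => congrArg T.φ (BN.wdist_smul g x y)) (fun x => ?_)
      (H52.isNilpotent_sup_of_le_normalizer nil nil' (le_normalizer_iff.2 fun h hh => n' h (hU hh))
        (le_normalizer_iff.2 fun h hh => n h (hU' hh)))
      (fun v hv => (hc v).2 (hV hv)) (fun g hg => ?_) (fun z z' a a' => ?_) hg hd hgd x
    · obtain ⟨j, a, b⟩ := nbr h2 hirr (T.e i)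
      obtain ⟨j, rfl⟩ := T.e.surjective j
      have := hfh _ _ a
      rw [← T.m_eq] at this b
      simp only [Set.mem_insert_iff, Set.mem_singleton_iff] at this
      exact ⟨j, fun h => a (h ▸ rfl), this.resolve_left b⟩
    · obtain ⟨g, rfl⟩ := QuotientGroup.mk_surjective x
      exact ⟨g, congrArg _ (mul_one g)⟩
    · exact fun v hv => (sup_le (fun a ha => mem_sup_left (n g ((hc g).1 hg) a ha))
        (fun a ha => mem_sup_right (n' g ((hc g).1 hg) a ha)) :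
        U ⊔ U' ≤ (U ⊔ U').comap (MulAut.conj g).toMonoidHom) hv
    · obtain ⟨u, hu, rfl⟩ := tr U hU n s z a
      obtain ⟨v, hv, rfl⟩ := tr U hU n s z' a'
      exact ⟨v * u⁻¹, mem_sup_left (mul_mem hv (inv_mem hu)), by rw [mul_smul, inv_smul_smul]⟩
  have fin : ∀ A ≤ P.B, (∀ b ∈ P.B, ∀ u ∈ A, b * u * b⁻¹ ∈ A) → A ⊔ (P.B ⊓ P.N) = P.B →
      A ≤ U ⊔ U' → U ⊔ U' ≤ A := fun A a1 a2 a3 a4 v hv => by
    obtain ⟨u, hu, f⟩ := tr A a1 a2 a3 (v • d) (by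
      rw [← hd, ← (hc v).2 (hV hv)]
      exact congrArg T.φ ((BN.wdist_smul v c d).trans (by rw [(hc v).2 (hV hv)])))
    have := key (u⁻¹ * v) (mul_mem (inv_mem (a4 hu)) hv) (by rw [mul_smul, ← f, inv_smul_smul])
    exact inv_mul_eq_one.1 this ▸ hu
  exact le_antisymm (le_sup_left.trans (fin U' hU' n' s' le_sup_right))
    (le_sup_right.trans (fin U hU n s le_sup_left))

end Cfsg.Agent.H47.BnRed
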