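import Cfsg.Agent.H45.GdDefs

/-! Project CY (row S3256), chapter IV GOOD, piece Q5. -/

set_option autoImplicit false

namespace Cfsg.Agent.H47.CyQ5

open Subgroup MulAction Cfsg.Agent.H11.Cy Cfsg.Agent.H45.Iv Cfsg.Agent.H45.Gd
open scoped commutatorElement

theorem comm_im {G H : Type} [Group G] [Group H] (M : Subgroup G) (π : M →* H) (X : Subgroup G)
    (hX : X ≤ M) (Y : Subgroup H) (hY : ∀ h, h ∈ Y ↔ ∃ g : M, (g : G) ∈ X ∧ π g = h) (h : H) :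
    h ∈ ⁅Y, Y⁆ ↔ ∃ g : M, (g : G) ∈ ⁅X, X⁆ ∧ π g = h := by
  have e1 : Y = (X.subgroupOf M).map π := by
    ext h
    rw [hY, mem_map]
    simp only [mem_subgroupOf]
  have e2 : ⁅X.subgroupOf M, X.subgroupOf M⁆.map M.subtype = ⁅X, X⁆ := by
    rw [map_commutator, map_subgroupOf_eq_of_le hX]
  rw [e1, ← map_commutator, mem_map, ← e2]
  constructor
  · rintro ⟨g, hg, rfl⟩
    exact ⟨g, mem_map_of_mem M.subtype hg, rfl⟩
  · rintro ⟨g, hg, rfl⟩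
    obtain ⟨g', hg', e⟩ := mem_map.1 hg
    have : g' = g := Subtype.ext e
    exact ⟨g, this ▸ hg', rfl⟩

theorem q5 : Q5Stmt := by
  intro G _ _ Ω _ _ H _ _ Θ _ _ p A P B π ρ h p2 ep sk ls hs pj pm bs skB lsB pg Φ sΦ _ hΦ
  let Ψ : Set Ω := {x | x ∈ P ∧ ρ x ∈ Φ}
  have aM : ∀ (S : Set Ω), ∀ x ∈ S, A x ≤ Ms A S := fun S x hx => le_iSup₂_of_le x hx le_rfl
  have bM : ∀ w ∈ Φ, B w ≤ Ms B Φ := fun x hx => le_iSup₂_of_le x hx le_rfl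
  have mM : Ms A Ψ ≤ Ms A P := iSup₂_le fun x hx => aM P x hx.1
  have tM : Ts A Ψ ≤ Ms A P := (commutator_le_self (Ms A Ψ)).trans mM
  have rF : ∀ x y, Rl A x y ≤ Fl A x y := fun x y => commutator_le_self _
  have rM : ∀ x ∈ P, ∀ y ∈ P, Rl A x y ≤ Ms A P := fun x hx y hy =>
    (rF x y).trans (sk.fle P x hx y hy).1
  have sur : ∀ w ∈ Φ, ∃ x ∈ Ψ, ρ x = w := by
    intro w hw
    obtain ⟨x, hx, e⟩ := pj.rsurj w
    exact ⟨x, ⟨hx, by rwa [e]⟩, e⟩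
  have sΨ : Sub A Ψ := by
    intro x hx y hy hxy c hc
    refine ⟨hs x hx.1 y hy.1 hxy hc, ?_⟩
    by_cases e : ρ x = ρ y
    · obtain ⟨r, hr, rfl⟩ := (ls x y hxy).1.tr c hc
      have h1 := pm.same x hx.1 y hy.1 hxy e ⟨r, rM x hx.1 y hy.1 hr⟩ hr
      have h2 := pm.eqv ⟨r, rM x hx.1 y hy.1 hr⟩ x hx.1
      rw [h1, one_smul] at h2
      change ρ (r • x) = ρ x at h2
      rw [h2]; exact hx.2
    · exact sΦ _ hx.2 _ hy.2 e ((pm.ln x hx.1 y hy.1 e _).2 ⟨c, hc, rfl⟩)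
  have nΨ : Ψ ≠ P := by
    intro e
    apply hΦ
    refine Set.eq_univ_of_forall fun w => ?_
    obtain ⟨x, hx, rfl⟩ := pj.rsurj w
    rw [← e] at hx
    exact hx.2
  obtain ⟨gd, gb, ga⟩ := pg Ψ sΨ (fun x hx => hx.1) nΨ
  have imM : ∀ h, h ∈ Ms B Φ ↔ ∃ g : Ms A P, (g : G) ∈ Ms A Ψ ∧ π g = h := by
    intro h
    constructor
    · intro hh
      have : Ms B Φ ≤ ((Ms A Ψ).subgroupOf (Ms A P)).map π := by
        refine iSup₂_le fun w hw b hb => ?_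
        obtain ⟨x, hx, rfl⟩ := sur w hw
        obtain ⟨a, ha, rfl⟩ := (pj.hB x hx.1 b).1 hb
        exact mem_map_of_mem π (mem_subgroupOf.2 (aM Ψ x hx ha))
      obtain ⟨g, hg, e⟩ := mem_map.1 (this hh)
      exact ⟨g, mem_subgroupOf.1 hg, e⟩
    · rintro ⟨g, hg, rfl⟩
      have : Ms A Ψ ≤ ((Ms B Φ).comap π).map (Ms A P).subtype := by
        refine iSup₂_le fun x hx a ha => ?_
        exact ⟨⟨a, aM P x hx.1 ha⟩, bM _ hx.2 ((pj.hB x hx.1 _).2 ⟨_, ha, rfl⟩), rfl⟩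
      obtain ⟨g', hg', e⟩ := mem_map.1 (this hg)
      have e' : g' = g := Subtype.ext e
      rw [← e']; exact hg'
  have imT : ∀ h, h ∈ Ts B Φ ↔ ∃ g : Ms A P, (g : G) ∈ Ts A Ψ ∧ π g = h :=
    comm_im (Ms A P) π (Ms A Ψ) mM (Ms B Φ) imM
  have imC : ∀ k : Ms A P, (k : G) ∈ Cs A Ψ → π k ∈ Cs B Φ := by
    intro k hk
    refine mem_centralizer_iff.2 fun h hh => ?_
    obtain ⟨g, hg, rfl⟩ := (imM h).1 hh
    rw [← map_mul, ← map_mul]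
    congr 1
    exact Subtype.ext (mem_centralizer_iff.1 hk g hg)
  have nz : ∀ d ∈ P, ∀ y ∈ P, ρ d ≠ ρ y → ∀ r : Ms A P, (r : G) ∈ Rl A d y → (r : G) ∉ Zl A d y →
      π r ∉ Zl B (ρ d) (ρ y) := by
    intro d hd y hy e r hr hrz hz
    obtain ⟨g, hg, e1⟩ := (pm.zl d hd y hy e _).1 hz
    have h1 : ((r * g⁻¹ : Ms A P) : G) ∈ Zl A d y :=
      pm.kz d hd y hy e _ (mul_mem (rF d y hr) (inv_mem hg.1)) (by rw [map_mul, map_inv, e1, mul_inv_cancel])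
    apply hrz
    have h2 := mul_mem h1 hg
    simpa using h2
  have key : ∀ d ∈ Ψ, ∀ t : Ms A P, (t : G) ∈ Ts A Ψ → π t • ρ d = ρ d →
      ∃ k : Ms A P, (k : G) ∈ Ts A Ψ ⊓ Cs A Ψ ∧ π k = π t := by
    intro d hd t ht hf
    by_cases c : (t : G) ∈ Cs A Ψ
    · exact ⟨t, ⟨ht, c⟩, rfl⟩
    obtain ⟨y, hy, hyd, r, hr, hrz, k, hk, e⟩ := (ga d hd).lin t ht c
    have e' : t = ⟨r, rM d hd.1 y hy.1 hr⟩ * ⟨k, tM hk.1⟩ := Subtype.ext e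
    have h1 : π ⟨k, tM hk.1⟩ • ρ d = ρ d := by
      rw [← pm.eqv _ d hd.1]
      exact congrArg ρ (sk.csfix Ψ k hk.2 d hd)
    by_cases e2 : ρ d = ρ y
    · refine ⟨⟨k, tM hk.1⟩, hk, ?_⟩
      rw [e', map_mul, pm.same d hd.1 y hy.1 hyd.symm e2 ⟨r, rM d hd.1 y hy.1 hr⟩ hr, one_mul]
    · exfalso
      rw [e', map_mul, mul_smul, h1] at hf
      exact nz d hd.1 y hy.1 e2 _ hr hrz ((lsB _ _ e2).2.1.stab _
        ((pm.rl d hd.1 y hy.1 _).2 ⟨_, hr, rfl⟩) _ (skB.ln _ _).1 hf)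
  refine ⟨?_, ?_, ?_⟩
  · intro v hv w hw hvw z hz u hu
    obtain ⟨x, hx, rfl⟩ := sur v hv
    obtain ⟨y, hy, rfl⟩ := sur w hw
    obtain ⟨c, hc, rfl⟩ := sur u hu
    obtain ⟨g, hg, rfl⟩ := (pm.zl x hx.1 y hy.1 hvw z).1 hz
    rw [← pm.eqv g c hc.1, gd x hx y hy (fun e => hvw (congrArg ρ e)) g hg c hc]
  · intro k hk
    obtain ⟨t, ht, rfl⟩ := (imT k).1 hk.1
    have : ∃ k : Ms A P, (k : G) ∈ Ts A Ψ ⊓ Cs A Ψ ∧ π k = π t := by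
      by_cases e : Ψ.Nonempty
      · obtain ⟨d, hd⟩ := e
        exact key d hd t ht (skB.csfix Φ _ hk.2 _ hd.2)
      · exact ⟨t, ⟨ht, (sk.cs Ψ t).2 fun w hw => (e ⟨w, hw⟩).elim⟩, rfl⟩
    obtain ⟨k, hk', e⟩ := this
    have h1 : k * k = 1 := Subtype.ext (gb k hk')
    rw [← e, ← map_mul, h1, map_one]
  · intro v hv
    obtain ⟨d, hd, rfl⟩ := sur v hv
    have g := ga d hd
    refine ⟨le_antisymm ?_ ?_, ?_, ?_, ?_, ?_, ?_, ?_⟩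
    · intro h hh
      obtain ⟨t, ht, rfl⟩ := (imT h).1 hh
      rw [g.teq] at ht
      have : Ds A Ψ d ≤ ((Ds B Φ (ρ d)).comap π).map (Ms A P).subtype := by
        refine iSup₂_le fun y hy r hr => ?_
        refine ⟨⟨r, rM d hd.1 y hy.1.1 hr⟩, ?_, rfl⟩
        change π _ ∈ Ds B Φ (ρ d)
        by_cases e : ρ d = ρ y
        · rw [pm.same d hd.1 y hy.1.1 (fun e => hy.2 e.symm) e _ hr]
          exact one_mem _
        · have h1 : Rl B (ρ d) (ρ y) ≤ Ds B Φ (ρ d) :=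
            le_iSup₂_of_le (ρ y) ⟨hy.1.2, fun e' => e (Eq.symm e')⟩ le_rfl
          exact h1 ((pm.rl d hd.1 y hy.1.1 _).2 ⟨_, hr, rfl⟩)
      obtain ⟨g', hg', e⟩ := mem_map.1 (this ht)
      have e' : g' = t := Subtype.ext e
      rw [← e']; exact hg'
    · exact iSup₂_le fun y hy => (skB.fle Φ _ hd.2 y hy.1).2
    · intro t ht s hs'
      obtain ⟨t, ht', rfl⟩ := (imT t).1 ht
      obtain ⟨s, hs'', rfl⟩ := (imT s).1 hs'
      rw [← map_commutatorElement]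
      exact imC _ (g.com _ ht' _ hs'')
    · intro t ht
      obtain ⟨t, ht', rfl⟩ := (imT t).1 ht
      rw [← map_mul]
      exact imC _ (g.sq _ ht')
    · intro m hm
      obtain ⟨m, hm', rfl⟩ := (imM m).1 hm
      obtain ⟨t, ht, a, ha, e⟩ := g.dec m hm'
      refine ⟨π ⟨t, tM ht⟩, (imT _).2 ⟨_, ht, rfl⟩, π ⟨a, aM P d hd.1 ha⟩,
        (pj.hB d hd.1 _).2 ⟨_, ha, rfl⟩, ?_⟩
      rw [← map_mul]
      exact congrArg π (Subtype.ext e)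
    · intro w hw
      obtain ⟨y, hy, rfl⟩ := sur w hw
      obtain ⟨t, ht, e⟩ := g.tr y hy
      refine ⟨π ⟨t, tM ht⟩, (imT _).2 ⟨_, ht, rfl⟩, ?_⟩
      rw [← pm.eqv _ d hd.1]
      exact congrArg ρ e
    · intro t ht hf
      obtain ⟨t, ht', rfl⟩ := (imT t).1 ht
      obtain ⟨k, hk, e⟩ := key d hd t ht' hf
      rw [← e]
      exact imC k hk.2
    · intro t ht hc
      obtain ⟨t, ht', rfl⟩ := (imT t).1 ht
      obtain ⟨y, hy, hyd, r, hr, hrz, k, hk, e⟩ := g.lin t ht' (fun c => hc (imC t c))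
      have e' : t = ⟨r, rM d hd.1 y hy.1 hr⟩ * ⟨k, tM hk.1⟩ := Subtype.ext e
      have e2 : ρ d ≠ ρ y := by
        intro e2
        apply hc
        rw [e', map_mul, pm.same d hd.1 y hy.1 hyd.symm e2 ⟨r, rM d hd.1 y hy.1 hr⟩ hr, one_mul]
        exact imC _ hk.2
      refine ⟨ρ y, hy.2, e2.symm, π ⟨r, rM d hd.1 y hy.1 hr⟩,
        (pm.rl d hd.1 y hy.1 _).2 ⟨_, hr, rfl⟩, nz d hd.1 y hy.1 e2 _ hr hrz, π ⟨k, tM hk.1⟩,
        ⟨(imT _).2 ⟨_, hk.1, rfl⟩, imC _ hk.2⟩, ?_⟩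
      rw [e', map_mul]

end Cfsg.Agent.H47.CyQ5
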