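import Cfsg.Agent.H99.E72Defs

/-! Project E72, piece P5B: fixed spaces of six elements of order five. -/

set_option autoImplicit false
set_option maxRecDepth 100000

namespace Cfsg.Agent.H47.E72P5b

open Cfsg.Agent.H99.E72 Module

/-- the vector with a given bit mask -/
def dec (n : ℕ) : V := fun a => if n.testBit a then 1 else 0

/-- gather the bits of `n` along a list -/
def stp (l : List ℕ) (n : ℕ) : ℕ :=
  l.foldr (fun s acc => Nat.bit (decide (s < 56) && n.testBit s) acc) 0

/-- the action of a word on bit masks -/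
def evw (w : List ℕ) (n : ℕ) : ℕ := w.foldr (fun k m => m ^^^ stp (srcT.getD k []) m) n

theorem eqns : True := by
  have := @dec.eq_1; have := @stp.eq_1; have := @evw.eq_1; trivial

theorem testBit_stp (l : List ℕ) (n a : ℕ) :
    (stp l n).testBit a = (decide (l.getD a 56 < 56) && n.testBit (l.getD a 56)) := by
  induction l generalizing a with
  | nil => simp [stp]
  | cons s l ih =>
    cases a with
    | zero => rw [stp, List.foldr_cons, Nat.testBit_bit_zero]; rfl
    | succ a => rw [stp, List.foldr_cons, Nat.testBit_bit_succ]; exact ih a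

theorem bit_add : ∀ x y : Bool, ((if x = true then 1 else 0) + if y = true then 1 else 0 : ZMod 2) =
    if (x ^^ y) = true then 1 else 0 := by decide

theorem dec_step (k n : ℕ) : (1 + En k) (dec n) = dec (n ^^^ stp (srcT.getD k []) n) := by
  ext a
  rw [LinearMap.add_apply, Pi.add_apply, En_apply, End.one_apply]
  simp only [dec, Nat.testBit_xor, testBit_stp]
  change _ = if (n.testBit a ^^ (decide (src k a < 56) && n.testBit (src k a))) = true then 1 else 0
  by_cases h : src k a < 56
  · rw [dif_pos h, decide_eq_true h, Bool.true_and]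
    exact bit_add _ _
  · rw [dif_neg h, decide_eq_false h, Bool.false_and, Bool.xor_false, add_zero]

theorem wd_dec (w : List ℕ) (n : ℕ) : wd w (dec n) = dec (evw w n) := by
  induction w with
  | nil => rfl
  | cons k w ih =>
    have : wd (k :: w) = (1 + En k) * wd w := by simp only [wd, List.map_cons, List.prod_cons]
    rw [this, End.mul_apply, ih, dec_step]
    rfl

theorem wd_append (w w' : List ℕ) : wd (w ++ w') = wd w * wd w' := by
  simp only [wd, List.map_append, List.prod_append]

theorem fd_ge {w : List ℕ} (p : Fin 16 → Fin 56) (v : Fin 16 → ℕ)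
    (h1 : ∀ i j, (v i).testBit (p j) = decide (i = j)) (h2 : ∀ i, evw w (v i) = v i) :
    16 ≤ fd (wd w) := by
  let u : Fin 16 → LinearMap.ker (1 - wd w) := fun i => ⟨dec (v i), by
    rw [LinearMap.mem_ker, LinearMap.sub_apply, wd_dec, h2, End.one_apply, sub_self]⟩
  have li : LinearIndependent (ZMod 2) u := by
    refine LinearIndependent.of_comp (LinearMap.ker (1 - wd w)).subtype ?_
    refine Fintype.linearIndependent_iff.2 fun g hg j => ?_
    have := congrFun hg (p j)
    simpa [u, dec, h1, Finset.sum_apply] using this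
  simpa [fd] using li.fintype_card_le_finrank

theorem fx : 16 ≤ fd (wd (wx)) :=
  fd_ge ![19, 22, 23, 25, 26, 27, 28, 29, 30, 32, 33, 36, 48, 49, 50, 51]
    ![0x80000, 0x400000, 0x800000, 0x2000000, 0x4000000, 0x8000000, 0x10000000, 0x20000000, 0x40000000, 0x100000000, 0x200000000, 0x1000000000, 0x1000000000050, 0x20000000000a0, 0x4400000000100, 0x8800000000200]
    (by decide +kernel) (by decide +kernel)

theorem fy0 : 16 ≤ fd (wd (wy)) :=
  fd_ge ![4, 5, 6, 7, 8, 9, 30, 32, 33, 36, 46, 47, 48, 49, 50, 51]
    ![0x10, 0x20, 0x40, 0x80, 0x100, 0x200, 0x44800000, 0x112000000, 0x208080000, 0x1020400000, 0x400000000000, 0x800000000000, 0x1000000000000, 0x2000000000000, 0x4000000000000, 0x8000000000000]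
    (by decide +kernel) (by decide +kernel)

theorem fy1 : 16 ≤ fd (wd (wx ++ wy)) :=
  fd_ge ![30, 32, 33, 36, 42, 43, 44, 45, 48, 49, 50, 51, 52, 53, 54, 55]
    ![0x44800000, 0x112000000, 0x208080000, 0x1020400000, 0x52400000006, 0x9448000000c, 0x118400000005, 0x230c00000004, 0x1000000000050, 0x20000000000a0, 0x4400000000100, 0x8800000000200, 0x10000001137c00, 0x2000000022f000, 0x4000000005c800, 0x8000000012d400]
    (by decide +kernel) (by decide +kernel)

theorem fy2 : 16 ≤ fd (wd (wx ++ (wx ++ wy))) :=
  fd_ge ![30, 32, 33, 36, 42, 43, 44, 45, 48, 49, 50, 51, 52, 53, 54, 55]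
    ![0x44800000, 0x112000000, 0x208080000, 0x1020400000, 0x6600000000c, 0xa2800000009, 0x132080000008, 0x22a40000000a, 0x1000000000050, 0x20000000000a0, 0x4400000000100, 0x8800000000200, 0x10000000344c00, 0x20000001248c00, 0x4000000133ac00, 0x80000000063800]
    (by decide +kernel) (by decide +kernel)

theorem fy3 : 16 ≤ fd (wd (wx ++ (wx ++ (wx ++ wy)))) :=
  fd_ge ![30, 32, 33, 36, 41, 43, 44, 45, 48, 49, 50, 51, 52, 53, 54, 55]
    ![0x44800000, 0x112000000, 0x208080000, 0x1020400000, 0x3808000000a, 0xd8400000008, 0x11a80000000c, 0x21c000000009, 0x1000000000050, 0x20000000000a0, 0x4400000000100, 0x8800000000200, 0x1000000120c400, 0x20000001357800, 0x40000000243c00, 0x80000000270c00]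
    (by decide +kernel) (by decide +kernel)

theorem fy4 : 16 ≤ fd (wd (wx ++ (wx ++ (wx ++ (wx ++ wy))))) :=
  fd_ge ![30, 32, 33, 36, 39, 42, 44, 45, 48, 49, 50, 51, 52, 53, 54, 55]
    ![0x44800000, 0x112000000, 0x208080000, 0x1020400000, 0xec00000008, 0x70c00000009, 0x180c0000000a, 0x200c8000000c, 0x1000000000050, 0x20000000000a0, 0x4400000000100, 0x8800000000200, 0x1000000007d000, 0x20000000321400, 0x4000000102d800, 0x8000000137e000]
    (by decide +kernel) (by decide +kernel)

theorem p5b : P5bStmt := by
  refine ⟨fx, ?_⟩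
  have h0 := fy0
  have h1 := fy1
  have h2 := fy2
  have h3 := fy3
  have h4 := fy4
  simp only [wd_append, ← mul_assoc] at h1 h2 h3 h4
  generalize wd wx = X at *
  generalize wd wy = Y at *
  intro i hi
  interval_cases i
  · rwa [pow_zero, one_mul]
  · rwa [pow_one]
  · rwa [pow_two]
  · rwa [pow_succ, pow_two]
  · rwa [pow_succ, pow_succ, pow_two]

end Cfsg.Agent.H47.E72P5b
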