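import Mathlib
import Cfsg.Agent.H6.E82Defs

/-! A subgroup `SL₂(64)` of `E₈(2)` has a non-zero fixed vector on the adjoint module. -/

set_option autoImplicit false

namespace Cfsg.Agent.H47.E82B

open Cfsg.Agent.H6.E82 Equiv Cfsg.Lie H37 H40 H34 H29 Module H82 H50.SL2S Finset

theorem dm_top (ψ : SL →* G0) (g : SL) (η : K) : dm (rho ψ) g η ⊤ = mu (ι (ψ g)) η := by
  rw [dm, top_inf_eq]; rfl

theorem caseB (tau : TauStmt) (brg : BrgStmt) (frame : FrameStmt) (hmu : MuStmt) (ss : SsStmt) (l65 : L65Stmt)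
    (data : DatAStmt) (t63 : T63Stmt) (par : ParStmt) (ser : SerStmt) (mult : MultStmt) (fr : FrStmt)
    (hpr : PrStmt) (enum : EnumStmt) (fit : FitStmt) (st : StStmt) : CaseBStmt := by
  intro ψ hψ h0
  obtain ⟨⟨p⟩, hp⟩ := par
  obtain ⟨o65, o63, -, hl, -⟩ := hp p
  obtain ⟨L, hL⟩ := (ser p V (rho ψ)).2.2 ⊥ [] ⊤ Ser.nil bot_le fun _ _ _ => Submodule.mem_top
  have hm := (mult p V (rho ψ) ⊤ _ hL).1
  generalize (fun r => (L ++ []).count r) = m at hm
  have form : Form (rho ψ) kap := ⟨tau.1, tau.2.2.1, fun g a b => (brg (ι (ψ g)) a b).2⟩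
  have semi : Semi (rho ψ) Fr := by
    refine ⟨fun a b => funext fun i => add_pow_char (a i) (b i) 2, fun c a => funext fun i => mul_pow c (a i) 2,
      fun a b h => funext fun i => (frobenius K 2).injective (congrFun h i), fun g a => ?_⟩
    have := frame.2.2.2.1 (ι (ψ g)) a
    rwa [frame.2.2.1] at this
  have hsg := fr p V (rho ψ) Fr semi ⊤ m (fun _ _ => Submodule.mem_top) hm
  obtain ⟨i, hi, t, ht, ct⟩ := l65 (ψ (x0 p)) p.θ ((orderOf_injective ψ hψ _).trans o65) p.hθ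
  have h65 : ∀ e < 65, SE m 65 e = pat i e := fun e he => by
    rw [← hm.1 e he, dm_top, ← hmu.1 _ _ _ ct, hmu.2.2 _ _ _ _ p.hθ ht e he, (data i hi).1 e he]
  obtain ⟨h, f, hf, ch, w, hw, hfw⟩ := ss (ψ (t0 p)) 63 (lam p) (by decide) hl
    (by rw [← map_pow, ← o63, pow_orderOf_eq_one, map_one])
  have h63 : ∀ e < 63, SE m 63 e = cnt 63 f e := fun e he => by
    rw [← hm.2 e he, dm_top, ← hmu.1 _ _ _ ch, hmu.2.2 _ _ _ _ hl hf e he]
  obtain ⟨ok, np⟩ := t63 f hf.1 w hw hfw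
  have e7 : ∑ k ∈ range 9, SE m 63 (7 * k) = ∑ k ∈ range 9, cnt 63 f (7 * k) :=
    sum_congr rfl fun k hk => h63 _ (by have := mem_range.1 hk; omega)
  have e9 : ∑ k ∈ range 7, SE m 63 (9 * k) = ∑ k ∈ range 7, cnt 63 f (9 * k) :=
    sum_congr rfl fun k hk => h63 _ (by have := mem_range.1 hk; omega)
  have ok' : Ok63 (SE m 63) := by
    unfold Ok63 at ok ⊢
    rwa [e7, e9]
  rcases enum m hsg i hi h65 (hpr p V (rho ψ) kap Fr form semi h0 m hm) ok' with ⟨h2, h4⟩ | h3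
  · obtain ⟨W0, P, hd⟩ := fit p V (rho ψ) kap form m hm h2 h4
    exact st p (rho ψ) form (fun g a b => (brg (ι (ψ g)) a b).1) h0 W0 P hd
  · exact np fun e he => (h63 e he).symm.trans (h3 e he)

end Cfsg.Agent.H47.E82B
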