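import Mathlib
import Cfsg.Agent.H6.E82Defs

/-! No label modulo `63` over the given label modulo `21` has the third pattern of multiplicities. -/

set_option autoImplicit false
set_option maxRecDepth 100000

namespace Cfsg.Agent.H47.E82R3b

open Cfsg.Agent.H6.E82 Equiv Cfsg.Lie H37 H40 H34 H29 Finset

def T11 : List (ℕ × ℕ × List ℕ) :=
  [(17, 53, [2, 1, 0, 2, 0, 0, 1, 2]),
    (18, 53, [2, 1, 0, 2, 0, 1, 1, 2]),
    (19, 53, [2, 1, 0, 2, 0, 1, 2, 2]),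
    (22, 53, [2, 1, 1, 2, 0, 0, 1, 2]),
    (23, 53, [2, 1, 1, 2, 0, 1, 1, 2]),
    (24, 53, [2, 1, 1, 2, 0, 1, 2, 2]),
    (26, 53, [2, 1, 1, 0, 0, 0, 1, 2]),
    (27, 53, [2, 1, 1, 0, 0, 1, 1, 2]),
    (28, 53, [2, 1, 1, 0, 0, 1, 2, 2]),
    (218, 11, [1, 2, 2, 1, 1, 0, 2, 1]),
    (223, 11, [1, 2, 0, 1, 1, 0, 2, 1]),
    (224, 11, [1, 2, 0, 2, 1, 0, 2, 1])]

def T22 : List (ℕ × ℕ × List ℕ) :=
  [(126, 1, [0, 0, 0, 0, 1, 0, 0, 0]),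
    (127, 1, [0, 0, 0, 0, 1, 1, 0, 0]),
    (128, 1, [0, 0, 0, 0, 1, 1, 1, 0]),
    (131, 1, [0, 0, 0, 1, 1, 0, 0, 0]),
    (132, 1, [0, 0, 0, 1, 1, 1, 0, 0]),
    (133, 1, [0, 0, 0, 1, 1, 1, 1, 0]),
    (137, 1, [0, 0, 1, 1, 1, 0, 0, 0]),
    (138, 1, [0, 0, 1, 1, 1, 1, 0, 0]),
    (139, 1, [0, 0, 1, 1, 1, 1, 1, 0]),
    (141, 1, [0, 1, 0, 0, 0, 0, 0, 0]),
    (142, 1, [0, 1, 0, 1, 0, 0, 0, 0]),
    (147, 1, [0, 1, 1, 1, 0, 0, 0, 0])]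

def T20 : List (ℕ × ℕ × List ℕ) :=
  [(92, 62, [0, 2, 2, 2, 0, 0, 0, 0]),
    (97, 62, [0, 2, 0, 2, 0, 0, 0, 0]),
    (98, 62, [0, 2, 0, 0, 0, 0, 0, 0]),
    (100, 62, [0, 0, 2, 2, 2, 2, 2, 0]),
    (101, 62, [0, 0, 2, 2, 2, 2, 0, 0]),
    (102, 62, [0, 0, 2, 2, 2, 0, 0, 0]),
    (106, 62, [0, 0, 0, 2, 2, 2, 2, 0]),
    (107, 62, [0, 0, 0, 2, 2, 2, 0, 0]),
    (108, 62, [0, 0, 0, 2, 2, 0, 0, 0]),
    (111, 62, [0, 0, 0, 0, 2, 2, 2, 0]),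
    (112, 62, [0, 0, 0, 0, 2, 2, 0, 0]),
    (113, 62, [0, 0, 0, 0, 2, 0, 0, 0])]

def T0 : List (ℕ × ℕ × List ℕ) :=
  [(103, 0, [0, 0, 2, 2, 0, 0, 0, 0]),
    (104, 0, [0, 0, 2, 0, 0, 0, 0, 0]),
    (109, 0, [0, 0, 0, 2, 0, 0, 0, 0]),
    (115, 0, [0, 0, 0, 0, 0, 2, 2, 0]),
    (116, 0, [0, 0, 0, 0, 0, 2, 0, 0]),
    (118, 0, [0, 0, 0, 0, 0, 0, 2, 0]),
    (121, 0, [0, 0, 0, 0, 0, 0, 1, 0]),
    (123, 0, [0, 0, 0, 0, 0, 1, 0, 0]),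
    (124, 0, [0, 0, 0, 0, 0, 1, 1, 0]),
    (130, 0, [0, 0, 0, 1, 0, 0, 0, 0]),
    (135, 0, [0, 0, 1, 0, 0, 0, 0, 0]),
    (136, 0, [0, 0, 1, 1, 0, 0, 0, 0])]

/-- The number of listed roots with value `e`. -/
noncomputable def cn (y : List ℕ) (e : ℕ) (T : List (ℕ × ℕ × List ℕ)) : ℕ :=
  cntL (fun x => Nat.beq (Nat.mod (Nat.add x.2.1 (Nat.mul 21 (dotN y x.2.2))) 63) e) T

/-- Some multiplicity is too large. -/
noncomputable def tst (y : List ℕ) : Bool :=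
  Nat.ble 3 (cn y 11 T11) || (Nat.ble 3 (cn y 22 T22) || (Nat.ble 4 (cn y 20 T20) || Nat.ble 5 (cn y 0 T0)))

/-- The table is correct. -/
def Ok (T : List (ℕ × ℕ × List ℕ)) : Prop := (T.map fun x => rt x.1).Nodup ∧ ∀ x ∈ T, x.2.2.length = 8 ∧
  (x.2.1 : ℤ) % 63 = vN C8 [2, 1, 0, 0, 1, 0, 0, 3] (rt x.1) % 63 ∧
    ∀ j : Ix, ((x.2.2.getD j 0 : ℕ) : ℤ) % 3 = C8.R.rc (rt x.1) j % 3

theorem eqns : True := by
  have := @T11.eq_1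
  have := @T22.eq_1
  have := @T20.eq_1
  have := @T0.eq_1
  have := @cn.eq_1
  have := @tst.eq_1
  have := @Ok.eq_1
  trivial

theorem cube : allCube 3 8 tst = true := by decide +kernel

theorem oks : Ok T11 ∧ Ok T22 ∧ Ok T20 ∧ Ok T0 := by
  simp only [Ok, vN, H29.rc_eq C8 tabOKE8]
  decide +kernel

theorem cn_le {f g : Rt → ℤ} (hg : IsAdd C8.R g) (e1 : ∀ r, f r = vN C8 [2, 1, 0, 0, 1, 0, 0, 3] r + 21 * g r)
    {y : List ℕ} (hy : Rp C8 3 y g) {T : List (ℕ × ℕ × List ℕ)} (hT : Ok T) (e : ℕ) :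
    cn y e T ≤ z0 63 fun r => f r - e := by
  classical
  have h1 : ∀ x ∈ T, Nat.beq (Nat.mod (Nat.add x.2.1 (Nat.mul 21 (dotN y x.2.2))) 63) e = true →
      ((f (rt x.1) - e : ℤ) : ZMod 63) = 0 := by
    intro x hx h
    obtain ⟨l, a1, a2⟩ := hT.2 x hx
    have a3 : (x.2.1 + 21 * dotN y x.2.2) % 63 = e := Nat.eq_of_beq_eq_true h
    have a4 : ((dotN y x.2.2 : ℤ) : ZMod 3) = g (rt x.1) := by
      rw [Int.cast_natCast, hy.dotN_eq l, hg (rt x.1)]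
      simp only [H29.ev, Int.cast_sum, Int.cast_mul]
      refine sum_congr rfl fun j _ => ?_
      rw [(ZMod.intCast_eq_intCast_iff' _ _ 3).2 (a2 j)]
    have a5 := (ZMod.intCast_eq_intCast_iff' _ _ 3).1 a4
    rw [ZMod.intCast_zmod_eq_zero_iff_dvd, e1]
    push_cast at a5 ⊢
    omega
  refine le_trans ?_ (sum_le_sum_of_subset (subset_univ (T.map fun x => rt x.1).toFinset))
  rw [List.sum_toFinset _ hT.1, List.map_map]
  clear hT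
  induction T with
  | nil => exact le_rfl
  | cons x T ih =>
    rw [List.map_cons, List.sum_cons]
    refine Nat.add_le_add ?_ (ih fun z hz => h1 z (List.mem_cons_of_mem _ hz))
    have := h1 x List.mem_cons_self
    revert this
    beta_reduce
    cases Nat.beq (Nat.mod (Nat.add x.2.1 (Nat.mul 21 (dotN y x.2.2))) 63) e
    · exact fun _ => Nat.zero_le _
    · exact fun h => (if_pos (h rfl)).ge

theorem r3b : R3bStmt := by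
  intro f hf hr h
  have hd : ∀ j : Ix, ∃ d : ℤ, f (C8.R.simple j) = (([2, 1, 0, 0, 1, 0, 0, 3].getD j 0 : ℕ) : ℤ) + 21 * d := fun j => by
    have := hr j
    rw [← Int.cast_natCast, ZMod.intCast_eq_intCast_iff_dvd_sub] at this
    obtain ⟨d, hd⟩ := this
    exact ⟨d, by push_cast at hd; omega⟩
  choose d hd using hd
  have hg : IsAdd C8.R fun r => ∑ j, C8.R.rc r j * d j := isAdd_of d fun _ => rfl
  have e1 : ∀ r, f r = vN C8 [2, 1, 0, 0, 1, 0, 0, 3] r + 21 * ∑ j, C8.R.rc r j * d j := fun r => by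
    rw [hf r, vN, mul_sum, ← sum_add_distrib]
    exact sum_congr rfl fun j _ => by rw [hd]; ring
  obtain ⟨y, hy, -, hp⟩ := exists_cube (C := C8) (fun r => ∑ j, C8.R.rc r j * d j) (by decide) cube
  have c11 := cn_le hg e1 hp oks.1 11
  have c22 := cn_le hg e1 hp oks.2.1 22
  have c20 := cn_le hg e1 hp oks.2.2.1 20
  have c0 := cn_le hg e1 hp oks.2.2.2 0
  have h11 : 0 + _ = 2 := h 11 (by decide)
  have h22 : 0 + _ = 2 := h 22 (by decide)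
  have h20 : 0 + _ = 3 := h 20 (by decide)
  have h0 : 8 + _ = 12 := h 0 (by decide)
  simp only [tst, Bool.or_eq_true, Nat.ble_eq] at hy
  omega

end Cfsg.Agent.H47.E82R3b
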