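import Mathlib
import Cfsg.Agent.H98.GbG
import Cfsg.Agent.H11.Irr

/-! Descent of the `p`-regular rank to a normal subgroup with abelian quotient. -/

set_option autoImplicit false

namespace Cfsg.Agent.H47.GbCl0

open Cfsg Cfsg.Agent.H98.GB Module

universe u

theorem conv {H : Type*} [Group H] [Fintype H] {φ θ : H → ℂ} (hφ : IsClassFunction H φ) (hθ : IsIrrCharacter H θ)
    (g : H) : ∑ h, φ h * θ (h⁻¹ * g) = (Nat.card H * classInner φ θ / θ 1) * θ g := by
  have h1 := H11.sum_classFun_mul_irr_mul hθ (H11.isClassFunction_comp_inv hφ) g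
  have h2 : ∑ h, φ h * θ (h⁻¹ * g) = ∑ h, φ h⁻¹ * θ (h * g) :=
    Fintype.sum_equiv (Equiv.inv H) _ _ fun h => by simp
  have h3 : ∑ h, φ h⁻¹ * θ h = ∑ h, φ h * θ h⁻¹ :=
    Fintype.sum_equiv (Equiv.inv H) _ _ fun h => by simp
  rw [h2, h1, h3, H11.classInner_eq_sum_inv (H11.irr_isCharacter ⟨θ, hθ⟩), ← mul_assoc,
    mul_inv_cancel₀ (H11.card_ne_zero H), one_mul]

theorem finrank_biSup_le {ι V : Type*} [AddCommGroup V] [Module ℂ V] [FiniteDimensional ℂ V] (W : ι → Submodule ℂ V)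
    (A : Finset ι) : finrank ℂ ↥(⨆ l ∈ A, W l) ≤ ∑ l ∈ A, finrank ℂ (W l) := by
  classical
  induction A using Finset.induction_on with
  | empty => simp
  | insert a A ha ih =>
    rw [Finset.sum_insert ha, Finset.iSup_insert]
    exact (Submodule.finrank_add_le_finrank_add_finrank _ _).trans (Nat.add_le_add_left ih _)

theorem sum_lin {G : Type*} [Group G] [Finite G] {N : Subgroup G} (hN : ∀ x y : G, x * y * x⁻¹ * y⁻¹ ∈ N)
    {A : Finset (G →* ℂˣ)} (hA : ∀ l, l ∈ A ↔ N ≤ l.ker) {x : G} (hx : x ∉ N) : ∑ l ∈ A, (l x : ℂ) = 0 := by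
  classical
  have hn : N.Normal := ⟨fun n h g => by simpa using mul_mem (hN g n) h⟩
  let _ : CommGroup (G ⧸ N) := { (inferInstance : Group (G ⧸ N)) with
    mul_comm := by
      rintro ⟨a⟩ ⟨b⟩
      exact QuotientGroup.eq.2 (by simpa [mul_assoc] using hN b⁻¹ a⁻¹) }
  obtain ⟨φ, hφ⟩ := CommGroup.exists_apply_ne_one_of_hasEnoughRootsOfUnity (G ⧸ N) ℂ
    (a := QuotientGroup.mk x) (by rwa [Ne, QuotientGroup.eq_one_iff])
  let l₀ : G →* ℂˣ := φ.comp (QuotientGroup.mk' N)
  have h0 : ∀ n ∈ N, l₀ n = 1 := fun n h => by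
    change φ (QuotientGroup.mk n) = 1
    rw [(QuotientGroup.eq_one_iff n).2 h, map_one]
  have h1 : ∑ l ∈ A, (l x : ℂ) = ∑ l ∈ A, ((l₀ * l) x : ℂ) := by
    refine (Finset.sum_equiv (Equiv.mulLeft l₀) (fun l => ?_) fun l _ => rfl).symm
    rw [hA, hA]
    refine forall₂_congr fun n h => ?_
    simp [MonoidHom.mem_ker, h0 n h]
  simp only [MonoidHom.mul_apply, Units.val_mul, ← Finset.mul_sum] at h1
  have h2 : (l₀ x : ℂ) ≠ 1 := fun h => hφ (Units.ext h)
  by_contra h
  exact h2 (mul_right_cancel₀ h (by rw [← h1, one_mul]))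

theorem cl0 : CL0Stmt.{u} := by
  classical
  intro G _ _ p N hN A hA X Y hY
  let res : (G → ℂ) →ₗ[ℂ] (N → ℂ) := LinearMap.funLeft ℂ ℂ Subtype.val
  refine le_trans ?_ ((finrank_biSup_le
    (fun l => (Submodule.span ℂ (pRegularPart p '' VS l X)).map res) A).trans
      (Finset.sum_le_sum fun l _ => Submodule.finrank_map_le _ _))
  refine Submodule.finrank_mono (Submodule.span_le.2 ?_)
  rintro _ ⟨θ, hθ, rfl⟩
  obtain ⟨χ, hχ, ho⟩ := hY θ hθ
  rw [H22.over_iff] at ho
  have cχ := H11.isClassFunction_of_irr χ.2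
  let E : G → ℂ := fun g => ∑ n : N, χ.1 (g * (n : G)⁻¹) * θ.1 n
  let F : (G →* ℂˣ) → G → ℂ := fun l g => ∑ x, (l x : ℂ) * E (x⁻¹ * g * x)
  have hF : ∀ l, F l ∈ VS l X := by
    intro l
    refine ⟨fun y g => ?_, fun ψ hψ g => ?_⟩
    · simp only [F, Finset.mul_sum]
      refine (Fintype.sum_equiv (Equiv.mulLeft y) _ _ fun x => ?_).symm
      simp only [Equiv.coe_mulLeft, map_mul, Units.val_mul, mul_assoc]
      congr 3
      group
    · have hne : ψ ≠ χ := fun h => hψ (h ▸ hχ)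
      simp only [F, E, Finset.mul_sum]
      rw [Finset.sum_comm]
      refine Finset.sum_eq_zero fun x _ => ?_
      rw [Finset.sum_comm]
      refine Finset.sum_eq_zero fun n _ => ?_
      have h1 := conv (H11.isClassFunction_of_irr ψ.2) χ.2 (g * x * (n : G)⁻¹ * x⁻¹)
      rw [H11.classInner_irr_irr, if_neg hne, mul_zero, zero_div, zero_mul] at h1
      have h2 : ∀ h : G, χ.1 (x⁻¹ * (h⁻¹ * g) * x * (n : G)⁻¹) = χ.1 (h⁻¹ * (g * x * (n : G)⁻¹ * x⁻¹)) := fun h => by
        rw [← cχ _ x]; congr 1; group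
      simp only [h2]
      rw [show (0 : ℂ) = (l x * θ.1 n) * 0 from (mul_zero _).symm, ← h1, Finset.mul_sum]
      exact Finset.sum_congr rfl fun h _ => by ring
  set c : ℂ := Nat.card N * classInner (fun n : N => χ.1 n) θ.1 / θ.1 1 with hc
  have c0 : c ≠ 0 := div_ne_zero (mul_ne_zero (H11.card_ne_zero N) ho) (H11.irr_apply_one_ne_zero θ.2)
  have hE : ∀ g : N, E g = c * θ.1 g := by
    intro g
    rw [hc, ← conv (φ := fun n : N => χ.1 n) (fun a b => cχ a b) θ.2 g]
    refine (Fintype.sum_equiv ((Equiv.inv N).trans (Equiv.mulRight g)) _ _ fun n => ?_).symm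
    simp
  set k : ℕ := (Finset.univ.filter (· ∈ N)).card * A.card with hk
  have k0 : (k : ℂ) ≠ 0 := by
    refine Nat.cast_ne_zero.2 (Nat.mul_ne_zero (Finset.card_ne_zero.2 ⟨1, by simp⟩)
      (Finset.card_ne_zero.2 ⟨1, (hA 1).2 (by simp)⟩))
  have hS : ∀ g : N, ∑ l ∈ A, F l g = k * c * θ.1 g := by
    intro g
    simp only [F]
    rw [Finset.sum_comm]
    simp only [← Finset.sum_mul]
    rw [← Finset.sum_filter_add_sum_filter_not Finset.univ (· ∈ N), Finset.sum_eq_zero (s := Finset.univ.filter (· ∉ N))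
      fun x hx => by rw [sum_lin hN hA (Finset.mem_filter.1 hx).2, zero_mul], add_zero,
      Finset.sum_congr rfl (g := fun _ => (A.card : ℂ) * (c * θ.1 g)) fun x hx => ?_]
    · rw [Finset.sum_const, hk]; push_cast; ring
    · have hx' := (Finset.mem_filter.1 hx).2
      rw [Finset.sum_congr rfl (g := fun _ => (1 : ℂ)) fun l hl => by
        rw [show l x = 1 from (hA l).1 hl hx', Units.val_one]]
      have := hE ((⟨x, hx'⟩ : N)⁻¹ * g * ⟨x, hx'⟩)
      rw [H11.classFun_conj_inv (H11.isClassFunction_of_irr θ.2)] at this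
      rw [Finset.sum_const, nsmul_eq_mul, mul_one, ← this]
      rfl
  have key : pRegularPart p θ.1 = (k * c)⁻¹ • ∑ l ∈ A, res (pRegularPart p (F l)) := by
    funext g
    simp only [Pi.smul_apply, Finset.sum_apply, res, LinearMap.funLeft_apply, pRegularPart, IsPRegular,
      Subgroup.orderOf_coe, smul_eq_mul]
    split_ifs with h
    · simp [h]
    · rw [hS, ← mul_assoc, inv_mul_cancel₀ (mul_ne_zero k0 c0), one_mul]
      exact if_pos h
  change pRegularPart p θ.1 ∈ _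
  rw [key]
  refine Submodule.smul_mem _ _ (Submodule.sum_mem _ fun l hl => ?_)
  exact (le_iSup₂_of_le (f := fun l (_ : l ∈ A) => (Submodule.span ℂ (pRegularPart p '' VS l X)).map res) l hl le_rfl)
    (Submodule.mem_map_of_mem (Submodule.subset_span ⟨_, hF l, rfl⟩))

end Cfsg.Agent.H47.GbCl0
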