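import Mathlib
import Cfsg.Agent.H98.GbL
import Cfsg.Agent.H47.GbNweh

/-! Integrality of the coefficients of the Newton sequences attached to the exterior powers. -/

set_option autoImplicit false

namespace Cfsg.Agent.H47.GbInta

open Cfsg Finset Cfsg.Agent.H98.GB Polynomial

universe u

theorem coeff_prod (s : Multiset ℂ) (k : ℕ) : (s.map fun z => (1 + C z * X : ℂ[X])).prod.coeff k = s.esymm k := by
  induction s using Multiset.induction_on generalizing k with
  | empty => cases k <;> simp [Multiset.esymm, coeff_one, Multiset.powersetCard_zero_right]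
  | cons z s ih =>
    rw [Multiset.map_cons, Multiset.prod_cons, add_mul, one_mul, coeff_add, mul_assoc, coeff_C_mul, ih]
    cases k with
    | zero => simp [Multiset.esymm]
    | succ k =>
      rw [coeff_X_mul, ih]
      simp [Multiset.esymm, Multiset.powersetCard_cons, Multiset.sum_map_mul_left]

theorem prod_shift {u : ℕ → ℂ} {m : ℕ} (h : ∀ j, u (m + j) = u j) (i : ℕ) :
    ∏ l ∈ range m, u (l + i) = ∏ l ∈ range m, u l := by
  obtain _ | m := m
  · rfl
  induction i with
  | zero => rfl
  | succ i ih =>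
    rw [← ih, prod_range_succ, prod_range_succ', zero_add, ← h i]
    congr 1
    · exact prod_congr rfl fun l _ => by congr 1; omega
    · congr 1; omega

theorem sum_sub {ζ t : ℂ} {q m : ℕ} (hq : 0 < q) (hζ : ζ ^ (q ^ m - 1) = 1) (a : ℕ) :
    ∑ S ∈ (range m).powerset, t ^ #S * ∑ i ∈ range m, ζ ^ ((a * ∑ l ∈ S, q ^ l) * q ^ i) =
      (∏ l ∈ range m, (1 + t * (ζ ^ q ^ l) ^ a)) * ∑ i ∈ range m, ζ ^ (0 * q ^ i) := by
  have h1 : ζ ^ q ^ m = ζ := by
    rw [← Nat.sub_add_cancel (Nat.one_le_pow m q hq), pow_succ, hζ, one_mul]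
  simp only [mul_sum]
  rw [sum_comm]
  refine sum_congr rfl fun i _ => ?_
  rw [zero_mul, pow_zero, mul_one, ← prod_shift (u := fun l => 1 + t * (ζ ^ q ^ l) ^ a)
    (fun j => by simp only [pow_add, pow_mul, h1]) i, prod_one_add]
  refine sum_congr rfl fun S _ => ?_
  rw [prod_mul_distrib, prod_const, sum_mul, ← prod_pow_eq_pow_sum]
  congr 1
  exact prod_congr rfl fun l _ => by rw [← pow_mul]; congr 1; ring

theorem inta (hM : MULStmt.{u}) (hB : BRStmt.{u}) (hV : VALStmt.{u}) (hR : ROOTStmt.{u}) (hL : LAMStmt.{u}) :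
    INTAStmt.{u} := by
  intro F _ _ _ D a n k n'
  obtain ⟨b1, -, b3⟩ := hB F D
  obtain ⟨r1, r2, r3, -⟩ := hR F D
  generalize hZ : nw (fun m => ∑ S ∈ (range m).powerset, (X ^ #S *
    C (D.pa (a * ∑ i ∈ S, Fintype.card F ^ i) m) : D.H.A[X])) n = Z
  have evp : ∀ b m, D.H.ev (D.pa b m) = Pi.single m (D.P b m) := fun b m => D.H.ev_sg (b1 b m)
  have key : ∀ (t : ℂ) (g : GL (Fin n') F), D.H.ev (aeval (algebraMap ℂ D.H.A t) Z) n' g =
      ((D.roots g).map fun z => 1 + t * z ^ a).prod * (Pi.single n (fun _ => 1) : Fn F) n' g := by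
    intro t g
    obtain ⟨T, hT, -⟩ := hM F 1 D.H (fun _ g => ((D.roots g).map fun z => 1 + t * z ^ a).prod)
      (fun m g x => by simp only [r1]) (funext fun g => by simp [Multiset.card_eq_zero.1 (r2 0 g)])
      fun a b n h u c v => by simp only [r3, Multiset.map_add, Multiset.prod_add]
    have e := GbNw.map_nw ((aeval (algebraMap ℂ D.H.A t) : D.H.A[X] →ₐ[D.H.A] D.H.A).restrictScalars ℂ)
      (fun m => ∑ S ∈ (range m).powerset, (X ^ #S * C (D.pa (a * ∑ i ∈ S, Fintype.card F ^ i) m) : D.H.A[X])) n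
    rw [hZ, (GbNw.nw_congr (P' := fun m => T (D.pa 0 m))).2 (fun m hm _ => ?_) n le_rfl, ← GbNw.map_nw, b3] at e
    · change aeval _ Z = _ at e
      rw [e, hT, D.H.ev_sg fun x y => by simp [dl_one]]
      rfl
    · refine D.H.inj (funext fun m' => funext fun y => ?_)
      rw [hT]
      simp only [AlgHom.restrictScalars_apply, map_sum, map_mul, map_pow, aeval_X, aeval_C, Algebra.algebraMap_self,
        RingHom.id_apply]
      simp only [← map_pow (algebraMap ℂ D.H.A), ← Algebra.smul_def, map_smul, evp, Finset.sum_apply,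
        Pi.smul_apply, Pi.mul_apply, smul_eq_mul]
      by_cases h : m' = m
      · subst h
        simp only [Pi.single_eq_same]
        rcases hV F D m' hm y with h0 | ⟨c, ζ, h1, h2, h3, -⟩
        · simp [h0]
        · simp only [h2, h3, Multiset.map_map, Function.comp_def, mul_left_comm _ c, ← mul_sum]
          rw [sum_sub Fintype.card_pos h1]
          rfl
      · simp [Pi.single_eq_of_ne h]
  have e : D.H.ev (Z.coeff k) n' =
      fun g => (Pi.single n (fun _ => 1) : Fn F) n' g * ((D.roots g).map (· ^ a)).esymm k := by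
    funext g
    have h1 : ∑ j ∈ Z.support, monomial j (D.H.ev (Z.coeff j) n' g) = C ((Pi.single n (fun _ => 1) : Fn F) n' g) *
        (((D.roots g).map (· ^ a)).map fun z => (1 + C z * X : ℂ[X])).prod := by
      refine Polynomial.funext fun t => ?_
      have h2 := key t g
      rw [aeval_def, eval₂_eq_sum, Polynomial.sum] at h2
      simp only [Algebra.algebraMap_self, RingHom.id_apply, ← map_pow (algebraMap ℂ D.H.A), mul_comm (Z.coeff _),
        ← Algebra.smul_def, map_sum, map_smul, Finset.sum_apply, Pi.smul_apply, smul_eq_mul] at h2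
      simp only [eval_finsetSum, eval_monomial, eval_mul, eval_C, eval_multiset_prod, Multiset.map_map,
        Function.comp_def, eval_add, eval_one, eval_X, mul_comm _ (t ^ _), h2, mul_comm _ t]
      exact mul_comm _ _
    have h3 := congrArg (coeff · k) h1
    simp only [finsetSum_coeff, coeff_monomial, coeff_C_mul, coeff_prod, sum_ite_eq'] at h3
    rw [← h3]
    split_ifs with h
    · rfl
    · rw [notMem_support_iff.1 h, map_zero]; rfl
  rw [e]
  by_cases h : n' = n
  · subst h
    simpa using hL F D n' a k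
  · simp only [Pi.single_eq_of_ne h, Pi.zero_apply, zero_mul]
    obtain ⟨χ, ψ, h1, -, -⟩ := hL F D n' a k
    exact ⟨χ, χ, h1, h1, by rw [sub_self]; rfl⟩

end Cfsg.Agent.H47.GbInta
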