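import Cfsg.Agent.H50.L81Defs

/-! Project L81: the pressure argument. -/

set_option autoImplicit false

namespace Cfsg.Agent.H47.L81Prs

open Cfsg.Agent.H50.L81 Module Finset

theorem dS_pos : ∀ r < 81, 0 < dS r := by decide +kernel

theorem nf_zero {r : ℕ} (h0 : r ≠ 0) (h : r ∉ [8, 20, 24, 56, 60, 72, 80]) : nf r = 0 := by
  simp only [List.mem_cons, List.not_mem_nil, or_false, not_or] at h
  rw [nf, if_neg (by simp only [List.mem_cons, List.not_mem_nil, or_false, not_or]; omega),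
    if_neg (by omega)]

theorem prs (mono : MonoStmt) (ser : SerStmt) (mult : MultStmt) (uni : UniStmt) (hfr : FrStmt)
    (perp : PerpStmt) (zz : ZzStmt) (nfx : NfxStmt) (pr1 : Pr1Stmt) : PrsStmt := by
  intro p W _ _ _ ρ h1 B fr hB hs hF m hm m0 hz
  obtain ⟨s1, -, s3⟩ := ser p W ρ h1
  have top : ∀ L, Ser ρ p ⊤ L → ∀ r < 81, Even r → m r = L.count r := fun L hL =>
    uni m (fun r => L.count r)
      (fun e he => (hm.1 e he).symm.trans ((mult p W ρ h1 ⊤ L hL).1 e he))
      fun e he => (hm.2 e he).symm.trans ((mult p W ρ h1 ⊤ L hL).2 e he)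
  obtain ⟨M, iM, fM, dM, mx⟩ := pr1 p W ρ h1 fr hs
  obtain ⟨L, hL⟩ := s3 ⊥ [] M .nil bot_le iM
  rw [List.append_nil] at hL
  have mM := mult p W ρ h1 M L hL
  have n0 : 0 ∉ L := fun h => (nfx p W ρ h1 M L hL).1 h dM
  have c0 : L.count 0 = 0 := List.count_eq_zero_of_not_mem n0
  obtain ⟨U, r, st, -⟩ := s1 M ⊤ iM (fun _ _ _ => trivial) (lt_top_iff_ne_top.2 fun e =>
    m0 ((top L (e ▸ hL) 0 (by norm_num) (by norm_num)).trans c0))
  obtain rfl : r = 0 := by
    by_contra hr
    obtain ⟨L2, hL2⟩ := s3 U _ ⊤ (hL.cons st) le_top fun _ _ _ => trivial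
    have hs0 : ((r :: L).map nf).sum = 0 := by
      refine List.sum_eq_zero fun x hx => ?_
      obtain ⟨s, hs, rfl⟩ := List.mem_map.1 hx
      refine nf_zero ?_ fun h => ?_
      · rintro rfl
        exact (List.mem_cons.1 hs).elim (fun e => hr e.symm) n0
      · have k : ∀ s ∈ [8, 20, 24, 56, 60, 72, 80], s < 81 ∧ Even s := by decide
        have := top _ hL2 s (k s h).1 (k s h).2
        rw [hz s h] at this
        exact List.count_eq_zero.1 this.symm (List.mem_append_right _ hs)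
    have h2 := (nfx p W ρ h1 U _ (hL.cons st)).2
    rw [hs0, Nat.le_zero, Submodule.finrank_eq_zero] at h2
    have h3 := mx U st.2.2.2.1 h2
    obtain ⟨hr81, -, -, -, Φ, -, hΦ, hk⟩ := st
    have h4 : SP p r = ⊥ := by
      rw [← hΦ, eq_bot_iff]
      rintro _ ⟨v, hv, rfl⟩
      exact (hk v hv).2 (h3 hv)
    have h5 := ((mono p).2 r hr81).2.1
    rw [h4, finrank_bot] at h5
    exact (dS_pos r hr81).ne h5
  have z1 := zz p W ρ h1 hF _ _ (hL.cons st)
  have f := hfr p W ρ h1 fr hs M _ fM mM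
  have f1 : L.count 12 = L.count 4 := f 4 (by norm_num) (by decide)
  have f2 : L.count 36 = L.count 12 := f 12 (by norm_num) (by decide)
  have f3 : L.count 28 = L.count 36 := f 36 (by norm_num) (by decide)
  obtain ⟨L', hL'⟩ := s3 ⊥ [] (B.orthogonal M) .nil bot_le fun g v hv w hw => by
    have := hB.2.2 g (ρ g⁻¹ w) v
    rw [← Module.End.mul_apply, ← map_mul, mul_inv_cancel, map_one] at this
    exact this.trans (hv _ (iM _ w hw))
  rw [List.append_nil] at hL'
  simp only [pw, List.count_cons, beq_iff_eq, Nat.reduceEqDiff, if_true, if_false, add_zero] at z1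
  refine ⟨M, B.orthogonal M, L, L', hL, hL',
    perp p W ρ h1 B hB M m _ _ iM hm mM (mult p W ρ h1 _ _ hL'), c0, by omega, f1, by omega,
    by omega, fun N hN hW => mx N hN (eq_bot_iff.2 (hW ▸ inf_le_inf_left N fun v hv => ?_))⟩
  rw [Wt, pow_zero, Module.End.mem_eigenspace_iff, one_smul]
  exact hv _ (Or.inl rfl)

end Cfsg.Agent.H47.L81Prs
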