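import Cfsg.Agent.H11.CyLa

/-! Project CY (row S3256), chapter LP, piece Aa. -/

set_option autoImplicit false

namespace Cfsg.Agent.H47.LpAa

open Subgroup MulAction Cfsg.Agent.H11.Cy Cfsg.Agent.H11.Cy.Lp
open Cfsg.Agent.H11.EL (Nm Ct C1)

theorem second {G : Type} [Group G] {Ω : Type} [Finite Ω] [MulAction G Ω] (t : G) (tt : t * t = 1)
    (S : Set Ω) (hS : ∀ z ∈ S, t • z ∈ S) (ev : Even S.ncard) (z : Ω) (hz : z ∈ S) (hf : t • z = z) :
    ∃ w ∈ S, w ≠ z ∧ t • w = w := by
  classical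
  by_contra hn
  have hn' : ∀ w ∈ S, w ≠ z → t • w ≠ w := fun w hw e e' => hn ⟨w, hw, e, e'⟩
  have inv : ∀ w : Ω, t • t • w = w := fun w => by rw [← mul_smul, tt, one_smul]
  have hfin : (S \ {z}).Finite := Set.toFinite _
  have h1 : Even (hfin.toFinset.card) := by
    have h0 : ∑ _w ∈ hfin.toFinset, (1 : ZMod 2) = 0 := by
      refine Finset.sum_involution (fun w _ => t • w) (fun _ _ => by decide) ?_ ?_ (fun w _ => inv w)
      · intro w hw _
        rw [Set.Finite.mem_toFinset] at hw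
        exact hn' w hw.1 hw.2
      · intro w hw
        rw [Set.Finite.mem_toFinset] at hw ⊢
        refine ⟨hS w hw.1, fun e => hw.2 ?_⟩
        have e' : t • w = z := e
        rw [← hf] at e'
        exact smul_left_cancel t e'
    rw [Finset.sum_const, nsmul_eq_mul, mul_one] at h0
    exact (ZMod.natCast_eq_zero_iff_even).1 h0
  rw [← Set.ncard_eq_toFinset_card _ hfin, Set.ncard_sdiff_singleton_of_mem hz] at h1
  have h2 : 0 < S.ncard := (Set.ncard_pos (Set.toFinite S)).2 ⟨z, hz⟩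
  obtain ⟨a, ha⟩ := ev
  obtain ⟨b, hb⟩ := h1
  omega

theorem aa : AaStmt := by
  intro G _ _ Ω _ _ p A h l p1
  have ep := l.mc.ep
  have back : ∀ (g : G) x, ∀ a ∈ A (g • x), g⁻¹ * a * g ∈ A x := by
    intro g x a ha
    have := h.eqv g⁻¹ _ a ha
    rwa [inv_smul_smul, inv_inv] at this
  have ti : ∀ x y x' y', x ≠ y → x' ≠ y' → ∀ t ∈ Kl A x y, orderOf t = 2 → t ∈ Kl A x' y' →
      Fl A x y = Fl A x' y' := by
    intro x y x' y' hxy hxy' t ht o ht'
    have f := (ep.kfix x' y' hxy' t).1 ht'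
    have a := l.la x' y' hxy'
    exact (ep.span x y hxy x' (l.ti2 x y hxy t ht o x' (f x' a.mx)) y'
      (l.ti2 x y hxy t ht o y' (f y' a.my)) hxy').symm
  refine ⟨?_, ?_, ?_, ti⟩
  · rintro t g ⟨o, x, y, hxy, ht⟩
    refine ⟨?_, g • x, g • y, fun e => hxy (smul_left_cancel g e), ?_⟩
    · rw [← o]
      exact (MulAut.conj g).orderOf_eq t
    · rw [mem_centralizer_iff]
      intro a ha
      have hle : Fl A (g • x) (g • y) ≤ (Fl A x y).comap (MulAut.conj g⁻¹).toMonoidHom := by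
        refine sup_le (fun a ha => ?_) (fun a ha => ?_)
        · have := back g x a ha
          rw [← inv_inv g] at this
          rw [inv_inv g⁻¹] at this
          exact mem_sup_left this
        · have := back g y a ha
          rw [← inv_inv g] at this
          rw [inv_inv g⁻¹] at this
          exact mem_sup_right this
      have h1 : g⁻¹ * a * g⁻¹⁻¹ ∈ Fl A x y := hle ha
      have h2 := mem_centralizer_iff.1 ht _ h1
      calc a * (g * t * g⁻¹) = g * (g⁻¹ * a * g⁻¹⁻¹ * t) * g⁻¹ := by group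
        _ = _ := by rw [h2]; group
  · rintro x y hxy t tN ⟨o, x', y', hxy', ht⟩ hKL
    by_contra hK
    have tt : t * t = 1 := by rw [← pow_two, ← o, pow_orderOf_eq_one]
    obtain ⟨z, hz, hf⟩ := (((l.lv x y hxy).par t tN (tt ▸ one_mem _) hK).2 p1).1 hKL
    obtain ⟨w, hw, hwz, hf'⟩ := second t tt (Ln A x y) ((ep.nrm x y hxy t).1 tN)
      (by rw [(l.ty.2 x y hxy).2]; exact Nat.even_iff.2 (by omega)) z hz hf
    have e1 := ep.span x y hxy w hw z hz hwz
    have e2 := ep.span x' y' hxy' w (l.ti2 x' y' hxy' t ht o w hf') z (l.ti2 x' y' hxy' t ht o z hf) hwz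
    apply hK
    change t ∈ centralizer (Fl A x y : Set G)
    rw [← e1, e2]
    exact ht
  · intro x y hxy t ht o g hg
    refine (ep.nrm x y hxy g).2 fun z hz => l.ti2 x y hxy t ht o _ ?_
    rw [← mul_smul, ← hg.eq, mul_smul, (ep.kfix x y hxy t).1 ht z hz]

end Cfsg.Agent.H47.LpAa
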