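import Cfsg.Agent.H11.CyLa

/-! Project CY (row S3256), chapter LP, piece Ab. -/

set_option autoImplicit false

namespace Cfsg.Agent.H47.LpAb

open Subgroup MulAction Cfsg.Agent.H11.Cy Cfsg.Agent.H11.Cy.Lp
open Cfsg.Agent.H11.EL (Nm Ct C1 Ex)

variable {G : Type} [Group G] [Finite G] {Ω : Type} [MulAction G Ω] {p : ℕ} {A : Ω → Subgroup G}

theorem pm (h : St p A) {x y : Ω} {f : G} (t : Lp.LT p A x y f) (g : G) (hg : g ∈ Hs G x y)
    (gg : g * g = 1) : g ∈ Kl A x y ∨ Ex g (A x) (-1) := by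
  rcases t.small g hg with e | e | ⟨i, e, hi⟩
  · exact Or.inl e
  · exact Or.inr e
  exfalso
  have : A x ≠ ⊥ := fun e => by
    have := h.card x
    rw [e, card_bot] at this
    exact h.pp.one_lt.ne this
  obtain ⟨⟨b, hb⟩, b1⟩ := ne_bot_iff_exists_ne_one.1 this
  have o : orderOf b = p := by
    have := orderOf_dvd_natCard _ hb
    rw [h.card x] at this
    refine ((Nat.dvd_prime h.pp).1 this).resolve_left fun e => b1 ?_
    exact Subtype.ext (orderOf_eq_one_iff.1 e)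
  apply hi
  rw [← o, orderOf_dvd_iff_zpow_eq_one]
  have h1 : g * (g * b * g⁻¹) * g⁻¹ = b := by
    calc _ = (g * g) * b * (g * g)⁻¹ := by group
      _ = b := by rw [gg]; group
  rw [e b hb, e _ (zpow_mem hb i), ← zpow_mul] at h1
  rw [zpow_sub, pow_two, h1, zpow_one, mul_inv_cancel]

theorem ab : AbStmt := by
  intro G _ _ Ω _ _ p A h l p1 x y hxy w wN ww wo
  have : Fact (Nat.Prime 2) := ⟨Nat.prime_two⟩
  have ep := l.mc.ep
  have a := l.la x y hxy
  obtain ⟨f, s, c⟩ := l.lc x y hxy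
  have t := l.lt x y hxy f s c
  have cjL : ∀ g ∈ Nm (Fl A x y), ∀ m ∈ Fl A x y, g * m * g⁻¹ ∈ Fl A x y := fun g hg m hm =>
    (mem_normalizer_iff.1 hg m).1 hm
  have ss : s * s = 1 := by rw [← pow_two, ← c.so, pow_orderOf_eq_one]
  have swp : ∀ u ∈ Nm (Fl A x y), u * u = 1 → u ∉ Kl A x y ⊔ Fl A x y →
      ∃ b ∈ Fl A x y, (b * u * b⁻¹) • x = y ∧ (b * u * b⁻¹) • y = x := by
    intro u uN uu uo
    have h1 := ((l.lv x y hxy).par u uN (uu ▸ one_mem _) (fun e => uo (mem_sup_left e))).2 p1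
    have h2 : u • x ≠ x := fun e => uo (h1.2 ⟨x, a.mx, e⟩)
    obtain ⟨b, hb, e⟩ := a.reg x a.mx (u • x) ((ep.nrm x y hxy u).1 uN x a.mx) y a.my h2 hxy.symm
    refine ⟨b, mem_sup_left hb, ?_, ?_⟩
    · rw [mul_smul, mul_smul, h.fix x _ (inv_mem hb), e]
    · have e' : b⁻¹ • y = u • x := inv_smul_eq_iff.2 e.symm
      rw [mul_smul, mul_smul, e', smul_smul u u, uu, one_smul, h.fix x b hb]
  obtain ⟨m, hm⟩ : ∃ m, orderOf f = m + m := ⟨orderOf f / 2, by have := c.fo; omega⟩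
  have m0 : 0 < m := by have := orderOf_pos f; omega
  have zz : f ^ m * f ^ m = 1 := by rw [← pow_add, ← hm, pow_orderOf_eq_one]
  have z1 : f ^ m ≠ 1 := pow_ne_one_of_lt_orderOf m0.ne' (by omega)
  have zo : orderOf (f ^ m) = 2 := orderOf_eq_prime (by rw [pow_two, zz]) z1
  have zL := pow_mem c.fL m
  have zH := pow_mem c.fH m
  obtain ⟨b, hb, u1, u2⟩ := swp w wN ww wo
  have uN : b * w * b⁻¹ ∈ Nm (Fl A x y) :=
    mul_mem (mul_mem (le_normalizer hb) wN) (inv_mem (le_normalizer hb))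
  have uu : (b * w * b⁻¹) * (b * w * b⁻¹) = 1 := by
    calc _ = b * (w * w) * b⁻¹ := by group
      _ = 1 := by rw [ww]; group
  have wi : w⁻¹ = w := inv_eq_of_mul_eq_one_right ww
  have uw : b * w * b⁻¹ * w ∈ Fl A x y := by
    have := mul_mem hb (cjL w wN _ (inv_mem hb))
    rwa [wi, ← mul_assoc, ← mul_assoc] at this
  have uo : b * w * b⁻¹ ∉ Kl A x y ⊔ Fl A x y := fun e => wo (by
    have := mul_mem (inv_mem e) (mem_sup_right uw)
    rwa [inv_mul_cancel_left] at this)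
  have key : (∀ n : ℤ, (b * w * b⁻¹) * f ^ n * (b * w * b⁻¹)⁻¹ = f ^ (-n)) ∧
      ∀ n : ℤ, ∃ g ∈ Fl A x y, g * (b * w * b⁻¹) * g⁻¹ = f ^ n * (b * w * b⁻¹) := by
    clear uw
    generalize b * w * b⁻¹ = u at u1 u2 uN uu uo
    have ui : u⁻¹ = u := inv_eq_of_mul_eq_one_right uu
    have si : s⁻¹ = s := inv_eq_of_mul_eq_one_right ss
    have i1 : u * f * u⁻¹ = f⁻¹ :=
      eq_inv_of_mul_eq_one_left (a.ctr _ (mul_mem (cjL u uN f c.fL) c.fL) (t.inv u u1 u2 f c.fH))
    have i2 : ∀ n : ℤ, u * f ^ n * u⁻¹ = f ^ (-n) := fun n => by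
      rw [← conj_zpow, i1, inv_zpow']
    have i3 : ∀ k n : ℤ, f ^ k * (f ^ n * u) * (f ^ k)⁻¹ = f ^ (k + n + k) * u := fun k n => by
      calc _ = f ^ k * f ^ n * (u * f ^ (-k) * u⁻¹) * u := by group
        _ = _ := by rw [i2, neg_neg]; group
    refine ⟨i2, fun n => ?_⟩
    have gH : s * u ∈ Hs G x y := ⟨by
      change (s * u) • x = x
      rw [mul_smul, u1, c.sy], by
      change (s * u) • y = y
      rw [mul_smul, u2, c.sx]⟩
    have gL : (s * u) * (s * u) ∈ Fl A x y := by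
      have := mul_mem c.sL (cjL u uN s c.sL)
      rwa [ui, ← mul_assoc, ← mul_assoc, mul_assoc (s * u)] at this
    obtain ⟨j, hj⟩ := c.TL _ gL (mul_mem gH gH)
    have hj' : f ^ j = (s * u) * (s * u) := hj
    have e1 : s * u * s⁻¹ = f ^ j * u := by
      rw [hj', si, mul_assoc (s * u), mul_assoc s u u, uu, mul_one]
    rcases Int.even_or_odd n with ⟨k, rfl⟩ | ⟨k, rfl⟩
    · refine ⟨f ^ k, zpow_mem c.fL k, ?_⟩
      have := i3 k 0
      rwa [zpow_zero, one_mul, add_zero] at this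
    rcases Int.even_or_odd j with ⟨i, rfl⟩ | ⟨i, rfl⟩
    · exfalso
      have cm : Commute (s * u) (f ^ (-i)) := (t.com _ gH).zpow_right _
      have dH : s * u * f ^ (-i) ∈ Hs G x y := mul_mem gH (zpow_mem c.fH _)
      have dd : (s * u * f ^ (-i)) * (s * u * f ^ (-i)) = 1 := by
        rw [← pow_two, cm.mul_pow, pow_two, ← hj', pow_two]; group
      have fin : s * u * f ^ (-i) ∈ Kl A x y ⊔ Fl A x y → False := fun e => uo (by
        have := mul_mem (mul_mem (inv_mem (mem_sup_right c.sL)) e)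
          (inv_mem (mem_sup_right (zpow_mem c.fL (-i))))
        rwa [mul_assoc s, inv_mul_cancel_left, mul_inv_cancel_right] at this)
      rcases pm h t _ dH dd with e | e
      · exact fin (mem_sup_left e)
      rcases pm h t _ zH zz with e' | e'
      · exact z1 (a.ctr _ zL e')
      have h1 := ep.eps x y hxy _ (mul_mem dH zH) (mem_centralizer_iff.2 fun q hq => by
        have h2 := e _ (zpow_mem hq (-1))
        rw [← e' q hq, e' q hq, ← zpow_mul] at h2
        rw [← e' q hq] at h2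
        generalize s * u * f ^ (-i) = d at h2
        calc q * (d * f ^ m) = q ^ ((-1 : ℤ) * -1) * (d * f ^ m) := by norm_num
          _ = _ := by rw [← h2]; group)
      apply fin
      have := mul_mem (mem_sup_left h1 : _ ∈ Kl A x y ⊔ Fl A x y) (inv_mem (mem_sup_right zL))
      rwa [mul_inv_cancel_right] at this
    · refine ⟨f ^ (k - i) * s, mul_mem (zpow_mem c.fL _) c.sL, ?_⟩
      calc _ = f ^ (k - i) * (s * u * s⁻¹) * (f ^ (k - i))⁻¹ := by group
        _ = _ := by rw [e1, i3]; congr 2; ring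
  refine ⟨⟨b⁻¹ * f ^ m * b, mul_mem (mul_mem (inv_mem hb) zL) hb, ?_, ?_⟩, fun q hq qq => ?_⟩
  · rw [← zo]
    have := (MulAut.conj b⁻¹).orderOf_eq (f ^ m)
    rwa [MulAut.conj_apply, inv_inv] at this
  · have h1 := key.1 (m : ℤ)
    rw [zpow_neg, zpow_natCast, inv_eq_of_mul_eq_one_right zz] at h1
    change _ * _ = _ * _
    calc b⁻¹ * f ^ m * b * w = b⁻¹ * (b * w * b⁻¹ * f ^ m * (b * w * b⁻¹)⁻¹) * b * w := by rw [h1]
      _ = _ := by group
  · have vN : q * w ∈ Nm (Fl A x y) := mul_mem (le_normalizer hq) wN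
    obtain ⟨b2, hb2, v1, v2⟩ := swp (q * w) vN qq (fun e => wo (by
      have := mul_mem (inv_mem (mem_sup_right hq)) e
      rwa [inv_mul_cancel_left] at this))
    have vw : b2 * (q * w) * b2⁻¹ * w ∈ Fl A x y := by
      have := mul_mem (mul_mem hb2 hq) (cjL w wN _ (inv_mem hb2))
      rwa [wi, ← mul_assoc, ← mul_assoc, mul_assoc b2] at this
    have h1 : b2 * (q * w) * b2⁻¹ * (b * w * b⁻¹) ∈ Fl A x y := by
      have := mul_mem vw (inv_mem uw)
      rwa [mul_inv_rev, inv_eq_of_mul_eq_one_right uu, ← mul_assoc, mul_inv_cancel_right] at this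
    obtain ⟨n, hn⟩ := c.TL _ h1 ⟨by
      change (_ * _ : G) • x = x
      rw [mul_smul, u1, v2], by
      change (_ * _ : G) • y = y
      rw [mul_smul, u2, v1]⟩
    have hn' : f ^ n = b2 * (q * w) * b2⁻¹ * (b * w * b⁻¹) := hn
    obtain ⟨g, hg, e⟩ := key.2 n
    rw [hn', mul_assoc (b2 * (q * w) * b2⁻¹), uu, mul_one] at e
    refine ⟨b2⁻¹ * g * b, mul_mem (mul_mem (inv_mem hb2) hg) hb, ?_⟩
    calc _ = b2⁻¹ * (g * (b * w * b⁻¹) * g⁻¹) * b2 := by group
      _ = _ := by rw [e]; group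

end Cfsg.Agent.H47.LpAb
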