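import Mathlib
import Cfsg.Agent.H54.O84Defs
import Cfsg.Agent.H34.WAdj

/-! The fixed points in the torus and lifts of the centraliser in the Weyl group. -/

set_option autoImplicit false

namespace Cfsg.Agent.H47.O84T

open Cfsg.Agent.H54.O84 Equiv Cfsg.Lie H37 H40 H34 H29 Multiplicative
open scoped Matrix

theorem tor2 (lin : LinStmt) : Tor2Stmt := by
  intro F ζ a hζ hl g hg
  have sq : ∀ c, C8.tg K c = F.j g → ∀ r : Rt, torChar chevE8 c (w r) = torChar chevE8 c r ^ 2 := fun c hc =>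
    F.map_tg_iff.1 (by rw [hc, F.σ_j])
  obtain ⟨c, hc⟩ := Cert.mem_H_iff.1 hg
  have h5 : F.j g ^ 5 = 1 := by
    rw [← hc, ← map_pow, ← map_one (C8.tg K), Cert.tg_eq_iff']
    intro r
    have e := sq c hc (w r)
    rw [w_w, sq c hc r, C8.torChar_neg, ← pow_mul] at e
    have e1 : torChar chevE8 (1 : Ix → Kˣ) r = 1 := by
      have := torChar_pow (D := chevE8) c 0 r
      rwa [pow_zero, pow_zero] at this
    rw [torChar_pow, e1, pow_succ, ← e, inv_mul_cancel]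
  obtain ⟨f, hf, c', hc', hr⟩ := exists_lab hζ (by norm_num) hg h5
  obtain ⟨x, hx⟩ := lin f hf fun r => by
    have e := sq c' hc' r
    rw [hr, hr, ← zpow_natCast, ← zpow_mul, zpow_eq_iff hζ] at e
    rw [e]; push_cast; ring
  obtain ⟨d, hd, hd'⟩ := hl x
  refine ⟨ofAdd x, F.inj ?_⟩
  rw [hd, ← hc', Cert.tg_eq_iff']
  intro r
  rw [hd', hr, ← zpow_natCast, zpow_eq_iff hζ, hx]
  simp

theorem nu2 : Nu2Stmt := by
  intro F ζ a T u hu
  obtain ⟨n, h1, h2, h3, -⟩ := Cert.exists_can (C := C8) (k := K) (C8.S.WJ_univ.symm ▸ (mem_CW.1 hu).1)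
  obtain ⟨g, rfl⟩ := (F.fix n).1 (F.fix_can h3 (mem_CW.1 hu).2.symm)
  have hH : ∀ y, y ∈ a.range ↔ F.j y ∈ P8.H := fun y => ⟨by
    rintro ⟨x, rfl⟩
    obtain ⟨c, hc, -⟩ := T.lab (toAdd x)
    exact Cert.mem_H_iff.2 ⟨c, hc.symm⟩, T.surj y⟩
  refine ⟨g, Subgroup.mem_normalizer_iff.2 fun y => ?_, h2⟩
  rw [hH, hH, map_mul, map_mul, map_inv]
  refine ⟨Split.conj_mem_H h1, fun h => ?_⟩
  have := Split.conj_mem_H' h1 h
  rwa [mul_assoc, inv_mul_cancel_right, inv_mul_cancel_left] at this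

end Cfsg.Agent.H47.O84T
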