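import Cfsg.Agent.H42.PcDefs
import Cfsg.Agent.S3915
import Cfsg.Agent.H52.FStar

/-! Project PC (row S3916), piece SOC. -/

set_option autoImplicit false

namespace Cfsg.Agent.H47.PcSoc

open Subgroup Cfsg.Agent.H42.Pc

universe u

theorem soc : SocStmt.{u} := by
  intro G _ _ _ hP hN
  have hF : Cfsg.fittingSubgroup G = ⊥ := by
    have := H52.fitting_isNilpotent (G := G)
    exact hN _ H52.fitting_normal inferInstance
  have hC : centralizer (Cfsg.layer G : Set G) = ⊥ := by
    have := H52.centralizer_fstar_le_fitting (G := G)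
    rw [Cfsg.generalizedFittingSubgroup, hF, sup_bot_eq] at this
    exact le_bot_iff.1 this
  have hE : Cfsg.layer G ≠ ⊥ := by
    intro e
    rw [e] at hC
    obtain ⟨g, hg⟩ := exists_ne (1 : G)
    apply hg
    rw [← mem_bot, ← hC]
    intro a ha
    rw [mem_bot.1 ha, one_mul, mul_one]
  have hZ : center (Cfsg.layer G) = ⊥ := by
    rw [← H52.centralizer_subgroupOf_self, hC, bot_subgroupOf]
  obtain ⟨h1, h2⟩ := S3915.result hP hE
  let e : (Cfsg.layer G ⧸ center (Cfsg.layer G)) ≃* Cfsg.layer G :=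
    (QuotientGroup.quotientMulEquivOfEq hZ).trans QuotientGroup.quotientBot
  refine ⟨Cfsg.layer G, H52.layer_normal, e.symm.isSimpleGroup, fun h => h2 ⟨⟨fun a b => ?_⟩⟩, hC⟩
  exact e.injective (by rw [map_mul, map_mul, h.is_comm.comm])

end Cfsg.Agent.H47.PcSoc
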