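import Cfsg.Agent.H56.SpDefs

/-! Project CY (row S3256), chapter SP, piece CO. -/

set_option autoImplicit false

namespace Cfsg.Agent.H47.SpCo

open Subgroup MulAction Cfsg.Agent.H11.Cy Cfsg.Agent.H56.Sp

theorem co : CoStmt := by
  intro aut G _ _ Ω _ _ p A h p2 ty x y hxy
  obtain ⟨F, _, _, hF, ⟨e⟩⟩ := (ty x y hxy).1
  refine ⟨F, inferInstance, inferInstance, e, hF, fun g hg => ?_⟩
  let ψ : Fl A x y ≃* Fl A x y := (Fl A x y).normalizerMonoidHom ⟨g, hg⟩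
  obtain ⟨M, hM, hc⟩ := aut F (hF ▸ h.pp) (hF ▸ p2) (e.symm.trans (ψ.trans e))
  refine ⟨M, hM, fun f f' hf => ?_⟩
  have h1 : f' = ψ f := Subtype.ext hf
  have h2 := hc (e f)
  rw [MulEquiv.trans_apply, MulEquiv.trans_apply, e.symm_apply_apply] at h2
  rw [h1]
  exact h2

end Cfsg.Agent.H47.SpCo
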