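import Mathlib
import Cfsg.Agent.H47.Transvections
import Cfsg.Agent.H74.NetF2
import Cfsg.Agent.H79.InvolO
import Cfsg.Agent.H79.OmegaPlus
import Cfsg.Agent.H30.OrthBridge

/-!
# The hyperbolic form in dimension eight over the field with two elements: reflections
-/

set_option autoImplicit false
set_option maxRecDepth 100000

namespace Cfsg.Agent.H47.SvEmb

open Cfsg Matrix

abbrev K : Type := ZMod 2
abbrev I8 : Type := Fin 4 ⊕ Fin 4
abbrev I6 : Type := Fin 3 ⊕ Fin 3
abbrev q : (I8 → K) → K := quadFormPlus 4 K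
abbrev O : Type := isometryGroup K q
abbrev Om : Subgroup O := Omega K q

/-- The polar form. -/
def B (u v : I8 → K) : K := ∑ i : Fin 4, (u (.inl i) * v (.inr i) + u (.inr i) * v (.inl i))

/-- The action on vectors. -/
def act (g : O) (v : I8 → K) : I8 → K := ((g : GL I8 K) : Matrix I8 I8 K) *ᵥ v

/-- The reflection in `a`. -/
noncomputable def r (a : I8 → K) : O := reflIso (H30.qPlus K 4) a

theorem eqns : True := by
  have := @B.eq_1
  have := @act.eq_1
  have := @r.eq_1
  trivial

theorem two0 (a : K) : a + a = 0 := CharTwo.add_self_eq_zero a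

theorem k01 (a : K) : a = 0 ∨ a = 1 := by revert a; decide

theorem vtwo (v : I8 → K) : v + v = 0 := funext fun i => two0 (v i)

theorem q_add (u v : I8 → K) : q (u + v) = q u + q v + B u v := by
  simp only [quadFormPlus, B, Fin.sum_univ_four, Pi.add_apply]; ring

theorem B_comm (u v : I8 → K) : B u v = B v u := by
  simp only [B, Fin.sum_univ_four]; ring

theorem B_addl (u v w : I8 → K) : B (u + v) w = B u w + B v w := by
  simp only [B, Fin.sum_univ_four, Pi.add_apply]; ring

theorem B_addr (u v w : I8 → K) : B w (u + v) = B w u + B w v := by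
  simp only [B, Fin.sum_univ_four, Pi.add_apply]; ring

theorem B_self (u : I8 → K) : B u u = 0 := by
  have h := q_add u u
  rw [vtwo, two0] at h
  simpa [quadFormPlus] using h.symm

theorem B_nd {s : I8 → K} (h : ∀ u, B u s = 0) : s = 0 := by
  funext i
  rcases i with i | i
  · have := h (Pi.single (.inr i) 1)
    fin_cases i <;> simpa [B, Fin.sum_univ_four] using this
  · have := h (Pi.single (.inl i) 1)
    fin_cases i <;> simpa [B, Fin.sum_univ_four] using this

theorem act_mul (g h : O) (v : I8 → K) : act (g * h) v = act g (act h v) := by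
  simp [act, mulVec_mulVec]

theorem act_one (v : I8 → K) : act 1 v = v := by simp [act]

theorem act_add (g : O) (u v : I8 → K) : act g (u + v) = act g u + act g v := mulVec_add _ _ _

theorem act_smul (g : O) (c : K) (v : I8 → K) : act g (c • v) = c • act g v := mulVec_smul _ _ _

theorem act_q (g : O) (v : I8 → K) : q (act g v) = q v := g.2 v v

theorem act_B (g : O) (u v : I8 → K) : B (act g u) (act g v) = B u v := by
  have h := q_add (act g u) (act g v)
  rw [← act_add, act_q, act_q, act_q, q_add] at h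
  exact (add_left_cancel h).symm

theorem act_ext {g h : O} (e : ∀ v, act g v = act h v) : g = h :=
  Subtype.ext (Units.ext (Matrix.toLin'.injective (LinearMap.ext fun v => by simpa [act] using e v)))

theorem act_r {a : I8 → K} (ha : q a = 1) (x : I8 → K) : act (r a) x = x + B a x • a := by
  have h := reflectionMatrix_mulVec (H30.qPlus K 4) a x
  have h1 : (H30.qPlus K 4) a = 1 := ha
  have h2 : QuadraticMap.polar (H30.qPlus K 4) a x = B a x := by
    change q (a + x) - q a - q x = B a x
    rw [q_add]; ring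
  rw [h1, h2, inv_one, one_mul] at h
  refine h.trans ?_
  funext i
  simp only [Pi.sub_apply, Pi.add_apply, CharTwo.sub_eq_add]

theorem r_sq (a : I8 → K) : r a * r a = 1 :=
  Subtype.ext (Units.ext (reflectionMatrix_mul_self (H30.qPlus K 4) a))

theorem r_inv (a : I8 → K) : (r a)⁻¹ = r a := inv_eq_of_mul_eq_one_right (r_sq a)

theorem r_conj (g : O) (a : I8 → K) : g * r a * g⁻¹ = r (act g a) := conj_reflIso (H30.qPlus K 4) g a

theorem r_not {a : I8 → K} (ha : q a = 1) : r a ∉ Om := by
  intro h
  have := (H79.mem_Omega_iff_rank (Q := H30.qPlus K 4) CharTwo.two_eq_zero (H30.qPlus_nondegenerate 4)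
    (H79.not_isExc_plus (Or.inr (by omega))) (r a)).1 h
  have h1 : (H30.qPlus K 4) a ≠ 0 := by
    change q a ≠ 0
    rw [ha]; exact one_ne_zero
  have h2 := rank_reflectionMatrix (H30.qPlus K 4) (H30.qPlus_nondegenerate 4) h1
  change Even (reflectionMatrix (H30.qPlus K 4) a - 1).rank at this
  rw [h2] at this
  exact absurd this (by decide)

theorem index_Om : Om.index = 2 := by
  have h := H30.index_Omega (Q := H30.qPlus K 4)
  change Om.index = _ at h
  rw [h, H30.commutator_eq_kerDS (H30.qPlus_nondegenerate 4) (H79.not_isExc_plus (Or.inr (by omega))),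
    H30.index_kerDS_even (H30.qPlus_nondegenerate 4) (by simp) (by decide)]

theorem rr_mem {a b : I8 → K} (ha : q a = 1) (hb : q b = 1) : r a * r b ∈ Om :=
  (Subgroup.mul_mem_iff_of_index_two index_Om).2 (iff_of_false (r_not ha) (r_not hb))

theorem gen_r : Subgroup.closure {g : O | ∃ v, q v = 1 ∧ g = r v} = ⊤ := by
  have h := H30.closure_eq_comap_equiv (H30.isoEquiv (H30.qPlus K 4))
    (S := {g : O | ∃ v, q v = 1 ∧ g = r v})
    (T := {g | ∃ v, (H30.qPlus K 4) v ≠ 0 ∧ g = H30.refl (H30.qPlus K 4) v}) (fun g => by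
      simp only [Set.mem_ofPred_eq]
      refine exists_congr fun v => and_congr ?_ ?_
      · change q v = 1 ↔ q v ≠ 0
        rcases k01 (q v) with h | h <;> simp [h]
      · rw [← H30.coe_eq_reflectionMatrix_iff]
        exact ⟨fun h => h ▸ rfl, fun h => Subtype.ext (Units.ext h)⟩)
  rw [H30.closure_refl_eq_top (H30.qPlus_nondegenerate 4) (H79.not_isExc_plus (Or.inr (by omega))),
    Subgroup.comap_top] at h
  exact h

/-- A subgroup of `Ω` containing all products `r a * r u` is `Ω`. -/
theorem eq_top_of_rr {u : I8 → K} (hu : q u = 1) (Y : Subgroup Om)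
    (h : ∀ a (ha : q a = 1), (⟨r a * r u, rr_mem ha hu⟩ : Om) ∈ Y) : Y = ⊤ := by
  have h1 : ∀ a, q a = 1 → r a * r u ∈ Y.map Om.subtype := fun a ha => ⟨_, h a ha, rfl⟩
  have key : ∀ g : O, g ∈ Y.map Om.subtype ∨ r u * g ∈ Y.map Om.subtype := by
    intro g
    have hg : g ∈ Subgroup.closure {g : O | ∃ v, q v = 1 ∧ g = r v} := gen_r ▸ Subgroup.mem_top g
    have step : ∀ a, q a = 1 → ∀ g : O, (g ∈ Y.map Om.subtype ∨ r u * g ∈ Y.map Om.subtype) →
        (r a * g ∈ Y.map Om.subtype ∨ r u * (r a * g) ∈ Y.map Om.subtype) := by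
      rintro a ha g (hg | hg)
      · right
        have := mul_mem (inv_mem (h1 a ha)) hg
        rwa [_root_.mul_inv_rev, r_inv, r_inv, mul_assoc] at this
      · left
        have := mul_mem (h1 a ha) hg
        rwa [mul_assoc, ← mul_assoc (r u), r_sq, one_mul] at this
    induction hg using Subgroup.closure_induction_left with
    | one => exact Or.inl (one_mem _)
    | mul_left x hx y _ ih =>
      obtain ⟨a, ha, rfl⟩ := hx
      exact step a ha y ih
    | inv_mul_cancel x hx y _ ih =>
      obtain ⟨a, ha, rfl⟩ := hx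
      rw [r_inv]
      exact step a ha y ih
  refine eq_top_iff.2 fun g _ => ?_
  rcases key g with ⟨y, hy, e⟩ | ⟨y, hy, e⟩
  · exact (Subtype.ext e : y = g) ▸ hy
  · exfalso
    have h2 : r u * g ∈ Om := e ▸ y.2
    exact r_not hu ((mul_mem_cancel_right g.2).1 h2)

/-- Two stabilisers of orthogonal non-singular vectors generate `Ω`. -/
theorem gen_two {u v : I8 → K} (hu : q u = 1) (hv : q v = 1) (huv : B u v = 0) (hne : u ≠ v) (Y : Subgroup Om)
    (h1 : ∀ g : Om, act g u = u → g ∈ Y) (h2 : ∀ g : Om, act g v = v → g ∈ Y) : Y = ⊤ := by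
  have fx : ∀ {w a b : I8 → K} (ha : q a = 1) (hb : q b = 1), B a w = 0 → B b w = 0 →
      act (⟨r a * r b, rr_mem ha hb⟩ : Om) w = w := by
    intro w a b ha hb e1 e2
    change act (r a * r b) w = w
    rw [act_mul, act_r hb, e2, zero_smul, add_zero, act_r ha, e1, zero_smul, add_zero]
  have hA : ∀ a (ha : q a = 1), B a u = 0 ∨ B a v = 0 → (⟨r a * r u, rr_mem ha hu⟩ : Om) ∈ Y := by
    rintro a ha (e | e)
    · exact h1 _ (fx ha hu e (B_self u))
    · exact h2 _ (fx ha hu e huv)
  refine eq_top_of_rr hu Y fun c hc => ?_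
  rcases k01 (B c u) with cu | cu
  · exact hA c hc (Or.inl cu)
  rcases k01 (B c v) with cv | cv
  · exact hA c hc (Or.inr cv)
  -- a non-singular `d` orthogonal to `u`, not to `v` and `c`
  have hd : ∃ d, q d = 1 ∧ B d u = 0 ∧ B d v = 1 ∧ B d c = 1 := by
    have e0 : ∃ x, B x (u + v) = 1 := by
      by_contra hn
      push Not at hn
      have : u + v = 0 := B_nd fun x => (k01 _).resolve_right (hn x)
      exact hne (by rw [← add_zero u, ← vtwo v, ← add_assoc, this, zero_add])
    have e1 : ∃ x, B x u = 0 ∧ B x v = 1 := by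
      obtain ⟨x, hx⟩ := e0
      rw [B_addr] at hx
      rcases k01 (B x u) with xu | xu
      · exact ⟨x, xu, by rwa [xu, zero_add] at hx⟩
      · refine ⟨x + c, by rw [B_addl, xu, cu, two0], ?_⟩
        rw [B_addl, cv]
        rw [xu] at hx
        rw [add_eq_left.1 hx, zero_add]
    have e2 : ∃ x, B x u = 0 ∧ B x v = 1 ∧ B x c = 1 := by
      obtain ⟨x, xu, xv⟩ := e1
      rcases k01 (B x c) with xc | xc
      · exact ⟨x + u, by rw [B_addl, xu, B_self, add_zero], by rw [B_addl, xv, huv, add_zero],
          by rw [B_addl, xc, B_comm, cu, zero_add]⟩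
      · exact ⟨x, xu, xv, xc⟩
    obtain ⟨x, xu, xv, xc⟩ := e2
    rcases k01 (q x) with qx | qx
    · refine ⟨x + (u + v), ?_, ?_, ?_, ?_⟩
      · rw [q_add, q_add, B_addr, qx, hu, hv, huv, xu, xv]; decide
      · rw [B_addl, B_addl, xu, B_self, B_comm, huv]; decide
      · rw [B_addl, B_addl, xv, B_self, huv]; decide
      · rw [B_addl, B_addl, xc, B_comm u, B_comm v, cu, cv]; decide
    · exact ⟨x, qx, xu, xv, xc⟩
  obtain ⟨d, qd, du, dv, dc⟩ := hd
  have hc' : q (c + d + u) = 1 := by
    rw [q_add, q_add, B_addl, hc, qd, hu, B_comm c d, dc, cu, du]; decide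
  have hy := hA d qd (Or.inl du)
  have hz := hA (c + d + u) hc' (Or.inr (by rw [B_addl, B_addl, cv, dv, huv]; decide))
  have e : act (r d * r u) (c + d + u) = c := by
    rw [act_mul, act_r hu, B_addr, B_addr, B_comm u c, cu, B_comm u d, du, B_self, add_zero, add_zero, one_smul,
      add_assoc (c + d), vtwo, add_zero, act_r qd, B_addr, dc, B_self, add_zero, one_smul, add_assoc, vtwo, add_zero]
  have e' := r_conj (r d * r u) (c + d + u)
  rw [e] at e'
  have := mul_mem (mul_mem hy hz) hy
  convert this using 1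
  refine Subtype.ext ?_
  change r c * r u = r d * r u * (r (c + d + u) * r u) * (r d * r u)
  rw [← e', _root_.mul_inv_rev, r_inv, r_inv]
  simp only [mul_assoc]

end Cfsg.Agent.H47.SvEmb
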