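import Mathlib
import Cfsg.Agent.H47.SvEmbA

/-!
# The symplectic group in dimension six over the field with two elements inside the orthogonal group in dimension eight
-/

set_option autoImplicit false
set_option maxRecDepth 100000

namespace Cfsg.Agent.H47.SvEmb

open Cfsg Matrix

abbrev Sp : Type := Matrix.symplecticGroup (Fin 3) K

/-- The base non-singular vector. -/
def v1 : I8 → K := Sum.elim ![0, 0, 0, 1] ![0, 0, 0, 1]

/-- Extension by zero. -/
def io (w : I6 → K) : I8 → K :=
  Sum.elim ![w (.inl 0), w (.inl 1), w (.inl 2), 0] ![w (.inr 0), w (.inr 1), w (.inr 2), 0]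

/-- The inclusion of indices. -/
def cs : I6 → I8 := Sum.map Fin.castSucc Fin.castSucc

/-- Restriction. -/
def pr (v : I8 → K) : I6 → K := fun i => v (cs i)

/-- The upper-left block. -/
def blk (g : O) : Matrix I6 I6 K := ((g : GL I8 K) : Matrix I8 I8 K).submatrix cs cs

theorem eqns2 : True := by
  have := @v1.eq_1
  have := @io.eq_1
  have := @cs.eq_1
  have := @pr.eq_1
  have := @blk.eq_1
  trivial

theorem q_v1 : q v1 = 1 := by decide

theorem blk_mulVec (g : O) (w : I6 → K) : blk g *ᵥ w = pr (act g (io w)) := by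
  funext i
  simp [blk, pr, act, io, cs, mulVec, dotProduct, Fintype.sum_sum_type, Fin.sum_univ_four, Fin.sum_univ_three]

theorem B_v1 (v : I8 → K) : B v v1 = v (.inl 3) + v (.inr 3) := by
  simp [B, v1, Fin.sum_univ_four]

theorem B_io (w : I6 → K) : B (io w) v1 = 0 := by
  rw [B_v1]; simp [io]

theorem pr_io (w : I6 → K) : pr (io w) = w := by
  funext i
  rcases i with i | i <;> fin_cases i <;> rfl

theorem pr_add (v : I8 → K) (c : K) : pr (v + c • v1) = pr v := by
  funext i
  rcases i with i | i <;> fin_cases i <;> simp [pr, cs, v1]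

theorem decomp {v : I8 → K} (h : B v v1 = 0) : v = io (pr v) + v (.inl 3) • v1 := by
  rw [B_v1] at h
  have h' : v (.inr 3) = v (.inl 3) := by
    rw [← add_zero (v (.inr 3)), ← h, add_comm (v (.inl 3)), ← add_assoc, two0, zero_add]
  funext i
  rcases i with i | i <;> fin_cases i <;> simp [pr, cs, v1, io, h']

theorem B_pr {u v : I8 → K} (hu : B u v1 = 0) (hv : B v v1 = 0) : sympForm 3 K (pr u) (pr v) = B u v := by
  rw [B_v1] at hu hv
  have e : u (.inl 3) * v (.inr 3) + u (.inr 3) * v (.inl 3) = 0 := by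
    revert hu hv
    generalize u (.inl 3) = a, u (.inr 3) = b, v (.inl 3) = c, v (.inr 3) = d
    revert a b c d
    decide
  simp only [B, Fin.sum_univ_four, e]
  simp [sympForm, J, pr, cs, mulVec, dotProduct, Fintype.sum_sum_type, Fin.sum_univ_three, Matrix.one_apply,
    CharTwo.neg_eq]
  ring

theorem perp {g : O} (hg : act g v1 = v1) {v : I8 → K} (h : B v v1 = 0) : B (act g v) v1 = 0 := by
  rw [← h, ← act_B g v v1, hg]

theorem pr_act {g : O} (hg : act g v1 = v1) {v : I8 → K} (h : B v v1 = 0) : pr (act g v) = blk g *ᵥ pr v := by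
  rw [blk_mulVec]
  conv_lhs => rw [decomp h, act_add, act_smul, hg, pr_add]

theorem blk_mem {g : O} (hg : act g v1 = v1) : blk g ∈ Matrix.symplecticGroup (Fin 3) K :=
  mem_symplecticGroup_of_sympForm fun u v => by
    rw [blk_mulVec, blk_mulVec, B_pr (perp hg (B_io u)) (perp hg (B_io v)), act_B, ← B_pr (B_io u) (B_io v), pr_io,
      pr_io]

/-- The non-singular vectors. -/
abbrev N : Type := {v : I8 → K // q v = 1}

instance actN : MulAction Om N where
  smul g v := ⟨act g v, (act_q g v).trans v.2⟩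
  one_smul v := Subtype.ext (act_one v)
  mul_smul g h v := Subtype.ext (act_mul g h v)

theorem smul_coe (g : Om) (v : N) : ((g • v : N) : I8 → K) = act g v := rfl

theorem card_N : Fintype.card N = 120 := by decide +kernel

/-- The stabiliser of the base vector. -/
abbrev X : Subgroup Om := MulAction.stabilizer Om (⟨v1, q_v1⟩ : N)

theorem memX {g : Om} : g ∈ X ↔ act g v1 = v1 := Subtype.ext_iff

/-- The action on the quotient of the hyperplane. -/
def rho : X →* Sp := MonoidHom.mk' (fun g => ⟨blk g.1, blk_mem (memX.1 g.2)⟩) fun g h => by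
  refine Subtype.ext (Matrix.toLin'.injective (LinearMap.ext fun w => ?_))
  change blk (g.1.1 * h.1.1) *ᵥ w = (blk g.1.1 * blk h.1.1) *ᵥ w
  rw [← mulVec_mulVec, blk_mulVec, act_mul, pr_act (memX.1 g.2) (perp (memX.1 h.2) (B_io w)), ← blk_mulVec]

theorem rho_inj : Function.Injective rho := by
  refine (injective_iff_map_eq_one rho).2 fun g hg => ?_
  have h0 : act g.1 v1 = v1 := memX.1 g.2
  have h1 : blk g.1 = 1 := congrArg Subtype.val hg
  have h2 : ∀ v, B v v1 = 0 → act g.1 v = v := by
    intro v hv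
    have e1 := decomp (perp h0 hv)
    rw [pr_act h0 hv, h1, one_mulVec] at e1
    have e2 := decomp hv
    have e3 := act_q g.1 v
    generalize act g.1 v (.inl 3) = a at e1
    generalize v (.inl 3) = b at e2
    have hq : ∀ c : K, q (io (pr v) + c • v1) = q (io (pr v)) + c := by
      intro c
      rcases k01 c with rfl | rfl
      · rw [zero_smul, add_zero, add_zero]
      · rw [one_smul, q_add, q_v1, B_io, add_zero]
    rw [e1, hq] at e3
    conv_rhs at e3 => rw [e2, hq]
    rw [e1, add_left_cancel e3, ← e2]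
  let e : I8 → K := Pi.single (.inl 3) 1
  have he : B e v1 = 1 := by decide
  have h3 : ∀ v, B v v1 = 0 → B v (act g.1 e + e) = 0 := by
    intro v hv
    rw [B_addr, ← act_B g.1 v e, h2 v hv, two0]
  obtain ⟨c, hc⟩ : ∃ c : K, act g.1 e = e + c • v1 := by
    refine ⟨B e (act g.1 e + e), ?_⟩
    have : act g.1 e + e + B e (act g.1 e + e) • v1 = 0 := by
      refine B_nd fun u => ?_
      have hs : ∀ c : K, B u (c • v1) = c * B u v1 := by
        intro c
        rcases k01 c with rfl | rfl
        · rw [zero_smul, zero_mul]; simp [B]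
        · rw [one_smul, one_mul]
      rw [B_addr, hs]
      rcases k01 (B u v1) with hu | hu
      · rw [h3 u hu, hu, mul_zero, add_zero]
      · have := h3 (u + e) (by rw [B_addl, hu, he, two0])
        rw [B_addl] at this
        rw [hu, mul_one, this]
    generalize B e (act g.1 e + e) • v1 = z at this ⊢
    rw [← add_zero (act g.1 e), ← vtwo (e + z), ← add_assoc, ← add_assoc, ← add_assoc, this, zero_add]
  have h4 : ∀ v, act g.1 v = v + (c * B v1 v) • v1 := by
    intro v
    rcases k01 (B v v1) with hv | hv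
    · rw [h2 v hv, B_comm, hv, mul_zero, zero_smul, add_zero]
    · have := h2 (v + e) (by rw [B_addl, hv, he, two0])
      rw [act_add, hc] at this
      rw [B_comm, hv, mul_one, ← add_zero (act g.1 v), ← vtwo (e + c • v1), ← add_assoc, this, add_assoc,
        ← add_assoc e, vtwo, zero_add]
  rcases k01 c with rfl | rfl
  · exact Subtype.ext (Subtype.ext (act_ext fun v => by
      rw [h4, zero_mul, zero_smul, add_zero]; exact (act_one v).symm))
  · exfalso
    have : g.1.1 = r v1 := act_ext fun v => by rw [h4, one_mul, act_r q_v1]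
    exact r_not q_v1 (this ▸ g.1.2)

theorem orbit_card : Nat.card (MulAction.orbit Om (⟨v1, q_v1⟩ : N)) * Nat.card X = 174182400 := by
  rw [← H74.card_omega82, ← Nat.card_prod]
  exact Nat.card_congr (MulAction.orbitProdStabilizerEquivGroup Om _)

theorem orbit_le : Nat.card (MulAction.orbit Om (⟨v1, q_v1⟩ : N)) ≤ 120 := by
  rw [← card_N, ← Nat.card_eq_fintype_card]
  exact Finite.card_subtype_le _

theorem X_le : Nat.card X ≤ 1451520 := H74.card_sp62 ▸ Nat.card_le_card_of_injective rho rho_inj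

theorem rho_bij : Function.Bijective rho := by
  refine (Nat.bijective_iff_injective_and_card _).2 ⟨rho_inj, ?_⟩
  have h1 := orbit_card
  have h2 := orbit_le
  have h3 := X_le
  rw [H74.card_sp62]
  nlinarith

theorem trans_N (v : N) : ∃ n : Om, act n v1 = v := by
  have h1 := orbit_card
  have h3 := X_le
  have h4 : 120 ≤ Nat.card (MulAction.orbit Om (⟨v1, q_v1⟩ : N)) := by nlinarith
  have h5 : MulAction.orbit Om (⟨v1, q_v1⟩ : N) = Set.univ := by
    refine Set.eq_of_subset_of_ncard_le (Set.subset_univ _) ?_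
    rw [Set.ncard_univ, Nat.card_eq_fintype_card, card_N]
    exact h4
  obtain ⟨n, hn⟩ : v ∈ MulAction.orbit Om (⟨v1, q_v1⟩ : N) := h5 ▸ Set.mem_univ v
  exact ⟨n, congrArg Subtype.val hn⟩

/-- The embedding of the symplectic group. -/
noncomputable def psi : Sp →* Om := X.subtype.comp (MulEquiv.ofBijective rho rho_bij).symm.toMonoidHom

theorem psi_inj : Function.Injective psi :=
  X.subtype_injective.comp (MulEquiv.ofBijective rho rho_bij).symm.injective

theorem mem_range {g : Om} : g ∈ psi.range ↔ act g v1 = v1 := by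
  rw [← memX]
  constructor
  · rintro ⟨s, rfl⟩
    exact ((MulEquiv.ofBijective rho rho_bij).symm s).2
  · intro h
    exact ⟨rho ⟨g, h⟩, congrArg Subtype.val ((MulEquiv.ofBijective rho rho_bij).symm_apply_apply ⟨g, h⟩)⟩

/-- The non-singular vectors orthogonal to the base vector. -/
abbrev N0 : Type := {v : I8 → K // q v = 1 ∧ B v v1 = 0}

theorem card_N0 : Fintype.card N0 = 64 := by decide +kernel

noncomputable instance actN0 : MulAction Sp N0 where
  smul g v := ⟨act (psi g) v, (act_q _ v).trans v.2.1, perp (mem_range.1 ⟨g, rfl⟩) v.2.2⟩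
  one_smul v := Subtype.ext (by change act (psi 1) v = v; rw [map_one]; exact act_one v)
  mul_smul g h v := Subtype.ext (by
    change act (psi (g * h)) v = act (psi g) (act (psi h) v)
    rw [map_mul]; exact act_mul _ _ v)

theorem fixed (T : Subgroup Sp) (hT : IsPGroup 2 T) :
    ∃ v, q v = 1 ∧ B v v1 = 0 ∧ v1 ≠ v ∧ ∀ t ∈ T, act (psi t) v = v := by
  have h0 : (⟨v1, q_v1, B_self v1⟩ : N0) ∈ MulAction.fixedPoints T N0 := fun t =>
    Subtype.ext (mem_range.1 ⟨t.1, rfl⟩)
  obtain ⟨b, hb, hne⟩ := hT.exists_fixed_point_of_prime_dvd_card_of_fixed_point N0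
    (by rw [Nat.card_eq_fintype_card, card_N0]; decide) h0
  exact ⟨b, b.2.1, b.2.2, fun h => hne (Subtype.ext h), fun t ht => congrArg Subtype.val (hb ⟨t, ht⟩)⟩

/-- `Sp₆(2)` embeds in `Ω₈⁺(2)`; each `2`-subgroup of the image lies in a second conjugate of the image, and the two
conjugates generate. -/
theorem emb : ∃ ψ : Matrix.symplecticGroup (Fin 3) (ZMod 2) →* Omega (ZMod 2) (quadFormPlus 4 (ZMod 2)),
    Function.Injective ψ ∧ ∀ T : Subgroup (Matrix.symplecticGroup (Fin 3) (ZMod 2)), IsPGroup 2 T →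
      ∃ n : Omega (ZMod 2) (quadFormPlus 4 (ZMod 2)), (∀ t ∈ T, ∃ s, ψ t = n * ψ s * n⁻¹) ∧
        ∀ Y : Subgroup (Omega (ZMod 2) (quadFormPlus 4 (ZMod 2))),
          (∀ s, ψ s ∈ Y) → (∀ s, n * ψ s * n⁻¹ ∈ Y) → Y = ⊤ := by
  refine ⟨psi, psi_inj, fun T hT => ?_⟩
  obtain ⟨v, hv, hb, hne, hf⟩ := fixed T hT
  obtain ⟨n, hn⟩ := trans_N ⟨v, hv⟩
  change act n v1 = v at hn
  have key : ∀ g : Om, act g v = v → ∃ s, g = n * psi s * n⁻¹ := by
    intro g hg
    have : n⁻¹ * g * n ∈ psi.range := by
      rw [mem_range]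
      change act (n.1⁻¹ * g.1 * n.1) v1 = v1
      rw [act_mul, act_mul, hn, hg, ← hn, ← act_mul, inv_mul_cancel, act_one]
    obtain ⟨s, hs⟩ := this
    exact ⟨s, by rw [hs]; group⟩
  refine ⟨n, fun t ht => key _ (hf t ht), fun Y h1 h2 => gen_two q_v1 hv (B_comm _ _ ▸ hb) hne Y ?_ ?_⟩
  · intro g hg
    obtain ⟨s, rfl⟩ := mem_range.2 hg
    exact h1 s
  · intro g hg
    obtain ⟨s, rfl⟩ := key g hg
    exact h2 s

end Cfsg.Agent.H47.SvEmb
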