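import Cfsg.Agent.H53.TCDefs

/-! Project TC, piece ENC-2. -/

set_option autoImplicit false
set_option linter.unusedSectionVars false

namespace Cfsg.Agent.H47.TcE2

open MulAction Cfsg.Agent.H12.RO Cfsg.Agent.H53.MW Cfsg.Agent.H53.TC

universe u

theorem solv_of_le_four (L W : Type*) [Group L] [MulAction L W] [Finite W] (h : Nat.card W ≤ 4) :
    SolvOn L W := by
  obtain ⟨n, hn⟩ := (solvable_perm_of_le_four W h).solvable
  refine ⟨n, fun g hg w => ?_⟩
  have h1 := mem_der_map (MulAction.toPermHom L W) hg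
  have h2 := der_mono (le_top (a := (⊤ : Subgroup L).map (MulAction.toPermHom L W))) n h1
  rw [der_top, hn, Subgroup.mem_bot] at h2
  exact congrArg (fun p : Equiv.Perm W => p w) h2

section Comb

variable {W K : Type*} [AddCommGroup W] [Finite W] [Field K] {B : W → W → K} {Q : W → K}

/-- the quadratic space -/
structure QS (B : W → W → K) (Q : W → K) : Prop where
  two : ∀ w : W, w + w = 0
  ne : (-1 : K) ≠ 1
  l : ∀ x y z, B (x + y) z = B x z * B y z
  sym : ∀ x y, B x y = B y x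
  self : ∀ x, B x x = 1
  nd : ∀ x, (∀ y, B x y = 1) → x = 0
  val : ∀ x y, B x y = 1 ∨ B x y = -1
  qv : ∀ x, Q x = 1 ∨ Q x = -1
  q : ∀ x y, Q (x + y) = B x y * Q x * Q y
  nt : ∃ w : W, w ≠ 0

variable (h : QS B Q)
include h

theorem QS.r (x y z : W) : B x (y + z) = B x y * B x z := by
  rw [h.sym, h.l, h.sym y, h.sym z]

theorem QS.z (y : W) : B 0 y = 1 := by
  rw [← h.two y, h.l, h.self, one_mul]

theorem QS.ex {w : W} (hw : w ≠ 0) : ∃ c, B w c = -1 := by
  by_contra hc
  push Not at hc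
  exact hw (h.nd w fun y => (h.val w y).resolve_right (hc y))

theorem QS.small {w w' : W} (h0 : ∀ u, B w u = 1 → B w' u = 1 → u = 0) : Nat.card W ≤ 4 := by
  classical
  have key : ∀ a u u', (B a u = 1 ↔ B a u' = 1) → B a (u + u') = 1 := by
    intro a u u' e
    rw [h.r]
    rcases h.val a u with e1 | e1
    · rw [e1, e.1 e1, one_mul]
    · rcases h.val a u' with e2 | e2
      · rw [e.2 e2, e2, one_mul]
      · rw [e1, e2]; ring
  have inj : Function.Injective fun u : W => (decide (B w u = 1), decide (B w' u = 1)) := by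
    intro u u' e
    simp only [Prod.mk.injEq, decide_eq_decide] at e
    have := h0 _ (key _ _ _ e.1) (key _ _ _ e.2)
    calc u = u + (u' + u') := by rw [h.two, add_zero]
      _ = u' := by rw [← add_assoc, this, zero_add]
  simpa using Nat.card_le_card_of_injective _ inj

theorem QS.nons {w w' : W} (e : B w w' = -1) {u : W} (h1 : B w u = 1) (h2 : B w' u = 1)
    (hu : u ≠ 0) : ∃ u', B w u' = 1 ∧ B w' u' = 1 ∧ Q u' = -1 := by
  by_contra hc
  push Not at hc
  have s : ∀ v, B w v = 1 → B w' v = 1 → Q v = 1 := fun v a b =>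
    (h.qv v).resolve_right (hc v a b)
  have o : ∀ v, B w v = 1 → B w' v = 1 → B u v = 1 := by
    intro v a b
    have := h.q u v
    rw [s u h1 h2, s v a b, s (u + v) (by rw [h.r, h1, a, one_mul]) (by rw [h.r, h2, b, one_mul]),
      mul_one, mul_one] at this
    exact this.symm
  have e' : B w' w = -1 := by rw [h.sym, e]
  have uw : B u w = 1 := by rw [h.sym, h1]
  have uw' : B u w' = 1 := by rw [h.sym, h2]
  refine hu (h.nd u fun v => ?_)
  rcases h.val w v with a | a <;> rcases h.val w' v with b | b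
  · exact o v a b
  · have := o (v + w) (by rw [h.r, a, h.self, one_mul]) (by rw [h.r, b, e']; ring)
    rwa [h.r, uw, mul_one] at this
  · have := o (v + w') (by rw [h.r, a, e]; ring) (by rw [h.r, b, h.self, one_mul])
    rwa [h.r, uw', mul_one] at this
  · have := o (v + w + w') (by rw [h.r, h.r, a, e, h.self]; ring)
      (by rw [h.r, h.r, b, e', h.self]; ring)
    rwa [h.r, h.r, uw, uw', mul_one, mul_one] at this

theorem QS.sing (hc : ¬ Nat.card W ≤ 4) : ∃ w1, w1 ≠ 0 ∧ Q w1 = 1 := by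
  by_contra hn
  push Not at hn
  obtain ⟨p, hp⟩ := h.nt
  obtain ⟨c, e⟩ := h.ex hp
  refine hc (h.small (w := p) (w' := c) fun u a b => ?_)
  by_contra hu
  refine hn (p + u) (fun h0 => ?_) ?_
  · have := h.l p u c
    rw [h0, h.z, e, h.sym u, b, mul_one] at this
    exact h.ne this.symm
  · rw [h.q, a, (h.qv p).resolve_left (hn p hp), (h.qv u).resolve_left (hn u hu)]; ring

theorem QS.pairs (hc : ¬ Nat.card W ≤ 4) (w w' : W) :
    ∃ w1 p c, w1 ≠ 0 ∧ Q w1 = 1 ∧ B w1 p = 1 ∧ B w1 c = -1 ∧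
      ∀ A : AddSubgroup W, w1 ∈ A → p ∈ A → c ∈ A → w ∈ A ∧ w' ∈ A := by
  have z' : ∀ a, B a 0 = 1 := fun a => by rw [h.sym, h.z]
  have nz : ∀ a c, B a c = -1 → a ≠ 0 := by
    rintro a c e rfl
    rw [h.z] at e
    exact h.ne e.symm
  rcases h.val w w' with e | e
  · by_cases a1 : w ≠ 0 ∧ Q w = 1
    · obtain ⟨c, e1⟩ := h.ex a1.1
      exact ⟨w, w', c, a1.1, a1.2, e, e1, fun A x y _ => ⟨x, y⟩⟩
    by_cases a2 : w' ≠ 0 ∧ Q w' = 1
    · obtain ⟨c, e1⟩ := h.ex a2.1
      exact ⟨w', w, c, a2.1, a2.2, by rw [h.sym, e], e1, fun A x y _ => ⟨y, x⟩⟩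
    by_cases a3 : w + w' ≠ 0 ∧ Q (w + w') = 1
    · obtain ⟨c, e1⟩ := h.ex a3.1
      refine ⟨w + w', w, c, a3.1, a3.2, by rw [h.l, h.self, h.sym, e, one_mul], e1,
        fun A x y _ => ⟨y, ?_⟩⟩
      simpa using A.sub_mem x y
    have one : ∃ p, ∀ A : AddSubgroup W, p ∈ A → w ∈ A ∧ w' ∈ A := by
      by_cases b1 : w = 0
      · exact ⟨w', fun A x => ⟨b1 ▸ A.zero_mem, x⟩⟩
      by_cases b2 : w' = 0
      · exact ⟨w, fun A x => ⟨x, b2 ▸ A.zero_mem⟩⟩
      have q1 := (h.qv w).resolve_left fun q => a1 ⟨b1, q⟩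
      have q2 := (h.qv w').resolve_left fun q => a2 ⟨b2, q⟩
      have q3 : w + w' = 0 := by
        by_contra q
        exact a3 ⟨q, by rw [h.q, e, q1, q2]; ring⟩
      refine ⟨w, fun A x => ⟨x, ?_⟩⟩
      rw [← neg_eq_of_add_eq_zero_right q3]
      exact A.neg_mem x
    obtain ⟨p, hp⟩ := one
    obtain ⟨w1, n1, q1⟩ := h.sing hc
    rcases h.val w1 p with e1 | e1
    · obtain ⟨c, e2⟩ := h.ex n1
      exact ⟨w1, p, c, n1, q1, e1, e2, fun A _ y _ => hp A y⟩
    · exact ⟨w1, 0, p, n1, q1, z' _, e1, fun A _ _ y => hp A y⟩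
  · rcases h.qv w with q1 | q1
    · exact ⟨w, 0, w', nz _ _ e, q1, z' _, e, fun A x _ y => ⟨x, y⟩⟩
    have : ∃ u, B w u = 1 ∧ B w' u = 1 ∧ u ≠ 0 := by
      by_contra hn
      push Not at hn
      exact hc (h.small hn)
    obtain ⟨u, h1, h2, hu⟩ := this
    obtain ⟨u', g1, g2, g3⟩ := h.nons e h1 h2 hu
    have e2 : B (w + u') w' = -1 := by rw [h.l, e, h.sym u', g2, mul_one]
    exact ⟨w + u', w, w', nz _ _ e2, by rw [h.q, g1, q1, g3]; ring,
      by rw [h.l, h.self, h.sym, g1, one_mul], e2, fun A _ x y => ⟨x, y⟩⟩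

end Comb

section Main

variable {L V K W : Type u} [Group L] [AddCommGroup V] [Nontrivial V]
  [DistribMulAction L V] [Field K] [Module K V] [AddCommGroup W] [Finite W]
  [DistribMulAction L W] {σ : L →* RingAut K} {G T : Subgroup L} {π : L → W} {b : W → W → Kˣ}

theorem sc_ext {c d : K} (h : ∀ v : V, c • v = d • v) : c = d := by
  obtain ⟨v, hv⟩ := exists_ne (0 : V)
  exact smul_left_injective K hv (h v)

variable (N : Nrm L V K W σ G T π b 2)
include N

theorem w2 (w : W) : w + w = 0 := by rw [← two_nsmul, N.rW]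

theorem lin {t : L} (ht : t ∈ T) (c : K) (v : V) : t • c • v = c • t • v := by
  rw [N.semi, N.σT t ht]; rfl

theorem exQ : ∃ Q : W → K, (∀ t ∈ T, ∀ v : V, t • t • v = Q (π t) • v) ∧
    QS (fun x y => (b x y : K)) Q := by
  have h1 : ∀ w : W, ∃ c : K, ∀ t ∈ T, π t = w → ∀ v : V, t • t • v = c • v := by
    intro w
    obtain ⟨s, hs, rfl⟩ := N.surj w
    obtain ⟨c, hc⟩ := (N.ker (s * s) (T.mul_mem hs hs)).1 (by rw [N.mul s hs s hs, w2 N])
    refine ⟨c, fun t ht e v => ?_⟩
    have hu : s⁻¹ * t ∈ T := T.mul_mem (T.inv_mem hs) ht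
    have e1 : π (s⁻¹ * t) = 0 := by
      have := N.mul s hs _ hu
      rw [mul_inv_cancel_left, e] at this
      exact left_eq_add.1 this
    have e2 := N.two rfl _ hu e1
    obtain ⟨u, rfl⟩ : ∃ u, t = s * u := ⟨s⁻¹ * t, by group⟩
    rw [inv_mul_cancel_left] at hu e1 e2
    rw [mul_smul, mul_smul, N.hb u hu s hs, e1, N.alt.zero_left, Units.val_one, one_smul,
      ← mul_smul u, ← pow_two, e2, one_smul, ← mul_smul, hc]
  choose Q hQ using h1
  have hQ' : ∀ t ∈ T, ∀ v : V, t • t • v = Q (π t) • v := fun t ht => hQ _ t ht rfl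
  have val : ∀ x y, (b x y : K) = 1 ∨ (b x y : K) = -1 := by
    intro x y
    have := N.alt.l x x y
    rw [w2 N, N.alt.zero_left] at this
    have h2 : (b x y : K) * b x y = 1 := by rw [← Units.val_mul, ← this, Units.val_one]
    exact mul_self_eq_one_iff.1 h2
  have sym : ∀ x y, (b x y : K) = b y x := by
    intro x y
    rw [N.alt.swap x y, Units.val_inv_eq_inv_val]
    rcases val x y with e | e <;> rw [e] <;> simp
  refine ⟨Q, hQ', w2 N, ?_, fun x y z => by rw [N.alt.l, Units.val_mul], sym,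
    fun x => by rw [N.alt.self, Units.val_one],
    fun x hx => N.alt.nd x fun y => Units.val_eq_one.1 (hx y), val, ?_, ?_, N.nt⟩
  · intro e
    obtain ⟨w, hw⟩ := N.nt
    refine hw (N.alt.nd w fun y => Units.val_eq_one.1 ?_)
    rcases val w y with a | a
    · exact a
    · rw [a, e]
  · intro w
    obtain ⟨s, hs, rfl⟩ := N.surj w
    have e := N.two rfl _ (T.mul_mem hs hs) (by rw [N.mul s hs s hs, w2 N])
    refine mul_self_eq_one_iff.1 (sc_ext (V := V) fun v => ?_)
    rw [mul_smul, ← hQ' s hs, ← hQ' s hs, ← mul_smul s s, ← mul_smul s s, ← mul_smul, ← pow_two, e,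
      one_smul, one_smul]
  · intro x y
    obtain ⟨s, hs, rfl⟩ := N.surj x
    obtain ⟨t, ht, rfl⟩ := N.surj y
    refine sc_ext (V := V) fun v => ?_
    rw [← N.mul s hs t ht, ← hQ' _ (T.mul_mem hs ht), mul_smul s t, mul_smul s t, N.hb t ht s hs,
      lin N hs, hQ' s hs, hQ' t ht, sym, mul_smul, mul_smul]

theorem core {Q : W → K} (hQ : ∀ t ∈ T, ∀ v : V, t • t • v = Q (π t) • v)
    (S : QS (fun x y => (b x y : K)) Q)
    (att : ∀ t ∈ T, t ^ 2 = 1 → π t ≠ 0 → ∃ x : V, ∀ s ∈ T, s • x = x ↔ s = 1 ∨ s = t)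
    {w1 p' c' : W} (n1 : w1 ≠ 0) (q1 : Q w1 = 1) (e1 : (b w1 p' : K) = 1) (e2 : (b w1 c' : K) = -1) :
    ∃ x y : V, ∀ h : L, h • x = x → h • y = y → h • w1 = w1 ∧ h • p' = p' ∧ h • c' = c' := by
  obtain ⟨t, ht, rfl⟩ := N.surj w1
  obtain ⟨p, hp, rfl⟩ := N.surj p'
  obtain ⟨c, hc, rfl⟩ := N.surj c'
  have t2 : t ^ 2 = 1 := N.faith _ fun v => by rw [pow_two, mul_smul, hQ t ht, q1, one_smul]
  obtain ⟨x, hx⟩ := att t ht t2 n1
  have tx : t • x = x := (hx t ht).2 (Or.inr rfl)
  refine ⟨x, p • x + c • x, fun h h1 h2 => ?_⟩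
  have h1' : h⁻¹ • x = x := by rw [inv_smul_eq_iff, h1]
  have pm : ∀ a : K, a = 1 ∨ a = -1 → σ h a = a := by
    rintro a (rfl | rfl) <;> simp
  have ht' : h * t * h⁻¹ = t := by
    rcases (hx _ (N.normal.conj_mem t ht h)).1 (by rw [mul_smul, mul_smul, h1', tx, h1]) with a | a
    · exfalso
      have : t = 1 := by simpa using a
      subst this
      have := N.mul 1 ht 1 ht
      rw [mul_one] at this
      exact n1 (left_eq_add.1 this)
    · exact a
  have hc' : ∀ v : V, t • h • v = h • t • v := fun v => by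
    conv_lhs => rw [← ht']
    rw [mul_smul, mul_smul, inv_smul_smul]
  have tp : t • p • x = p • x := by rw [N.hb t ht p hp, e1, one_smul, tx]
  have tc : t • c • x = -(c • x) := by rw [N.hb t ht c hc, e2, neg_smul, one_smul, tx]
  have h3 : h • p • x + h • c • x = p • x + c • x := by rw [← smul_add, h2]
  have h4 : h • p • x - h • c • x = p • x - c • x := by
    have := congrArg (t • ·) h3
    simp only [smul_add, hc', tp, tc, smul_neg] at this
    rw [sub_eq_add_neg, sub_eq_add_neg, this]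
  have two : (2 : K) ≠ 0 := fun e => S.ne (by linear_combination -e)
  have h5 : h • p • x = p • x := by
    apply smul_right_injective V two
    change (2 : K) • _ = (2 : K) • _
    rw [two_smul, two_smul]
    calc h • p • x + h • p • x = (h • p • x + h • c • x) + (h • p • x - h • c • x) := by abel
      _ = _ := by rw [h3, h4]; abel
  have h6 : h • c • x = c • x := by rw [h5] at h3; exact add_left_cancel h3
  have alt : ∀ s ∈ T, h • s • x = s • x → h • π s = π s ∨ h • π s = π s + π t := by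
    intro s hs e
    have m := T.mul_mem (T.inv_mem hs) (N.normal.conj_mem s hs h)
    rw [← N.conj h s hs]
    rcases (hx _ m).1 (by rw [mul_smul, mul_smul, mul_smul, h1', e, inv_smul_smul]) with a | a
    · left; rw [← inv_mul_eq_one.1 a]
    · right; rw [← N.mul s hs t ht, ← a, mul_inv_cancel_left]
  have k1 : h • π t = π t := by rw [← N.conj h t ht, ht']
  have k3 : h • π c = π c := by
    refine (alt c hc h6).resolve_right fun a => ?_
    have q : Q (h • π c) = Q (π c) := by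
      refine sc_ext (V := V) fun v => ?_
      rw [← N.conj h c hc, ← hQ _ (N.normal.conj_mem c hc h), mul_smul, mul_smul, mul_smul,
        mul_smul, inv_smul_smul, hQ c hc, N.semi, smul_inv_smul, pm _ (S.qv _)]
    rw [a, S.q, q1, mul_one, S.sym] at q
    simp only [e2] at q
    rcases S.qv (π c) with z | z <;> rw [z] at q
    · exact S.ne (by simpa using q)
    · exact S.ne (by linear_combination -q)
  refine ⟨k1, (alt p hp h5).resolve_right fun a => ?_, k3⟩
  have q := N.bs h (π p) (π c)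
  rw [a, k3, pm _ (S.val _ _), N.alt.l, Units.val_mul, e2] at q
  rcases S.val (π p) (π c) with z | z <;> rw [z] at q
  · exact S.ne (by simpa using q)
  · exact S.ne (by linear_combination -q)

end Main

/-- **ENC-2** -/
theorem enc2 : Enc2Stmt.{u} := by
  intro L V K W _ _ _ _ _ _ _ _ _ _ _ _ σ G T π b r N hr att
  subst hr
  by_cases hc : Nat.card W ≤ 4
  · exact Or.inr (solv_of_le_four L W hc)
  refine Or.inl fun w w' => ?_
  obtain ⟨Q, hQ, S⟩ := exQ N
  obtain ⟨w1, p, c, n1, q1, e1, e2, hA⟩ := S.pairs hc w w'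
  obtain ⟨x, y, hxy⟩ := core N hQ S att n1 q1 e1 e2
  refine ⟨x, y, fun h h1 h2 => ?_⟩
  obtain ⟨a1, a2, a3⟩ := hxy h h1 h2
  exact hA ((DistribSMul.toAddMonoidHom W h).eqLocus (AddMonoidHom.id W)) a1 a2 a3

end Cfsg.Agent.H47.TcE2
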