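import Cfsg.Agent.H53.UwDefs

/-! Gauss sums of skew-Hermitian forms (piece GAUSS of UW). -/

set_option autoImplicit false

namespace Cfsg.Agent.H47.UwGauss

open Module Cfsg.Agent.H31 Cfsg.Agent.H53.Uw Finset

universe u

variable {E : Type u} [Field E] [Fintype E] {σ : E →+* E} {q : ℕ} {ψ : AddChar E ℂ}

theorem one (hF : Fintype.card E = q ^ 2) (hσ : ∀ x, σ x = x ^ q) (hψ : Sk σ ψ) {a : E}
    (ha : σ a = -a) (h0 : a ≠ 0) : ∑ c : E, ψ (c * σ c * a) = -(q : ℂ) := by
  classical
  have hI := isInvol_of_pow hF hσ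
  obtain ⟨b, hb, h1⟩ := hψ
  have T : ∑ s with σ s = s, ψ (s * a) = 0 := by
    have e : σ (b / a) = b / a := by
      rw [map_div₀, ha, eq_neg_of_add_eq_zero_right hb, neg_div_neg_eq]
    have : ∑ s with σ s = s, ψ (s * a) = ψ b * ∑ s with σ s = s, ψ (s * a) := by
      rw [mul_sum]
      refine (sum_equiv (Equiv.addLeft (b / a)) (fun s => ?_) fun s _ => ?_).symm
      · simp [e]
      · rw [← ψ.map_add_eq_mul, Equiv.coe_addLeft, add_mul, div_mul_cancel₀ _ h0]
    by_contra c
    exact h1 (mul_right_cancel₀ c (this.symm.trans (one_mul _).symm))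
  rw [← sum_fiberwise_of_maps_to (t := {s | σ s = s}) (g := fun c => c * σ c)
    (fun c _ => by simpa using hI.norm_fixed c)]
  have : ∀ s ∈ ({s | σ s = s} : Finset E), ∑ c with c * σ c = s, ψ (c * σ c * a) =
      (q + 1) * ψ (s * a) - if s = 0 then (q : ℂ) else 0 := fun s hs => by
    rw [sum_congr rfl (g := fun _ => ψ (s * a)) fun c hc => by rw [(mem_filter.1 hc).2], sum_const,
      nsmul_eq_mul]
    split_ifs with c
    · have : ({c | c * σ c = s} : Finset E) = {0} := by ext; simp [c]
      rw [this]; simp [c]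
    · have := card_norm_eq hF hσ c (mem_filter.1 hs).2
      rw [Nat.card_eq_fintype_card, Fintype.card_subtype] at this
      simp [this]
  rw [sum_congr rfl this, sum_sub_distrib, ← mul_sum, T]
  simp

theorem gauss : GaussStmt.{u} := by
  intro E U _ _ _ _ _ σ q ψ γ hF hσ hψ hγ
  have hI := isInvol_of_pow hF hσ
  induction hn : finrank E U using Nat.strong_induction_on generalizing U with
  | _ n ih =>
  subst hn
  have := Fintype.ofFinite U
  have : Module.Finite E U := Module.Finite.of_finite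
  rw [finsum_eq_sum_of_fintype]
  by_cases h : ∀ y, γ y y = 0
  · obtain ⟨ω, h1, h2⟩ := hI.exists_skew
    have hs : IsHermSymm (ω • γ) := ⟨hI, fun x y => by simp [h2, hγ]⟩
    have : LinearMap.ker γ = ⊤ := eq_top_iff.2 fun x _ => LinearMap.ext fun y => by
      simpa [h1] using hs.eq_zero_of_norm_zero (W := ⊤) (fun x _ => by simp [h]) (x := x) (y := y)
        trivial trivial
    rw [this, finrank_top, ← two_mul, pow_mul, neg_sq]
    simp [h, Module.card_eq_pow_finrank (K := E) (V := U), hF]
  obtain ⟨y, hy⟩ := not_forall.1 h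
  let W := LinearMap.ker (γ y)
  have fl : ∀ w ∈ W, γ w y = 0 := fun w (hw : γ y w = 0) => by
    rw [← neg_eq_zero, ← hγ, hw, map_zero]
  let e : (E × W) ≃ₗ[E] U := LinearEquiv.ofBijective
    ((LinearMap.toSpanSingleton E U y).coprod W.subtype) ⟨(injective_iff_map_eq_zero _).2 fun p hp => by
      have h1 : p.1 • y + p.2 = 0 := hp
      have h2 : p.1 = 0 := by simpa [hy, show γ y p.2 = 0 from p.2.2] using congrArg (γ y) h1
      exact Prod.ext h2 (by simpa [h2] using h1), fun v =>
      ⟨(γ y v / γ y y, ⟨v - (γ y v / γ y y) • y, by simp [W, hy]⟩), by simp⟩⟩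
  have he : ∀ p, e p = p.1 • y + p.2 := fun _ => rfl
  have d : finrank E U = finrank E W + 1 := by
    rw [← e.finrank_eq, finrank_prod, finrank_self, add_comm]
  have k : (LinearMap.ker (restr γ W)).map W.subtype = LinearMap.ker γ := by
    ext x
    constructor
    · rintro ⟨w, hw, rfl⟩
      refine LinearMap.ext fun v => ?_
      obtain ⟨p, rfl⟩ := e.surjective v
      have : γ w p.2 = 0 := LinearMap.congr_fun hw p.2
      simp [he, fl w w.2, this]
    · intro hx
      have hx' : ∀ v, γ x v = 0 := LinearMap.congr_fun hx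
      exact ⟨⟨x, by
        change γ y x = 0
        rw [← neg_eq_zero, ← hγ, hx', map_zero]⟩, LinearMap.ext fun v => hx' v, rfl⟩
  have := Fintype.ofFinite W
  have h3 := ih _ (by omega) W (restr γ W) (fun x y => hγ x y) rfl
  rw [finsum_eq_sum_of_fintype] at h3
  rw [← k, Submodule.finrank_map_subtype_eq, d, add_right_comm, pow_succ', ← h3,
    ← one hF hσ hψ (hγ y y) hy, sum_mul_sum, ← Fintype.sum_prod_type', ← e.toEquiv.sum_comp]
  refine sum_congr rfl fun p _ => ?_
  rw [← ψ.map_add_eq_mul]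
  congr 1
  change γ (e p) (e p) = _ + γ p.2 p.2
  simp [he, fl _ p.2.2, show γ y p.2 = 0 from p.2.2, mul_assoc, mul_left_comm]

end Cfsg.Agent.H47.UwGauss
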