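import Cfsg.Agent.H42.VpDefs
import Cfsg.Agent.S4456
import Cfsg.Agent.H12.Central

/-! Normal complement for groups whose vanishing elements have prime power order. -/

set_option autoImplicit false

namespace Cfsg.Agent.H47.VpT

open Cfsg Cfsg.Agent.H42.Vp

universe u

theorem t (d : DStmt.{u}) : TStmt.{u} := by
  intro G _ _ p hp h
  refine Cfsg.Agent.S4456.result p hp fun χ hχ => ?_
  have h1 : (χ : G → ℂ) 1 ≠ 1 := fun e => hχ (by simp [charDegree, e])
  obtain ⟨g, hg⟩ := H12.irr_exists_eq_zero χ.2 h1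
  obtain ⟨m, hm⟩ := h g ⟨χ, χ.2, hg⟩
  exact d G p hp χ g m hm hg

end Cfsg.Agent.H47.VpT
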